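import Cfsg.Agent.Lib.Palfy.Defs

/-!
# Piece F of Pálfy's three primes theorem: normal abelian subgroups are cyclic

Take `𝓗`, the subgroups of `A` maximal with nonzero fixed space. Two distinct members have fixed
spaces meeting trivially, a vector `v₀ + v₁` with `vᵢ` in two distinct fixed spaces is fixed by an
odd order element only if both `vᵢ` are, so one Sylow `q`-subgroup fixes all these spaces.
If `𝓗` has one member, `A` acts fixed point freely and embeds in a finite field.
-/

set_option autoImplicit false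
set_option linter.deprecated false

namespace Cfsg.Agent.Lib.Palfy

open Cfsg
open scoped commutatorElement

universe u v

namespace AbelCyc

variable {K : Type u} [Group K] [Finite K] {t : ℕ} [Fact t.Prime] {V : Type v} [AddCommGroup V]
  [Module (ZMod t) V] [Finite V]

theorem rho_mul (ρ : Representation (ZMod t) K V) (a b : K) (v : V) :
    ρ (a * b) v = ρ a (ρ b v) := by
  rw [map_mul]; rfl

theorem rho_one (ρ : Representation (ZMod t) K V) (v : V) : ρ 1 v = v := by
  rw [map_one]; rfl

theorem rho_inv_self (ρ : Representation (ZMod t) K V) (a : K) (v : V) : ρ a⁻¹ (ρ a v) = v := by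
  rw [← rho_mul, inv_mul_cancel, rho_one]

theorem rho_self_inv (ρ : Representation (ZMod t) K V) (a : K) (v : V) : ρ a (ρ a⁻¹ v) = v := by
  rw [← rho_mul, mul_inv_cancel, rho_one]

/-- Conjugate of a subgroup. -/
def cj (g : K) (H : Subgroup K) : Subgroup K := H.map (MulAut.conj g).toMonoidHom

theorem mem_cj {g x : K} {H : Subgroup K} : x ∈ cj g H ↔ g⁻¹ * x * g ∈ H := by
  constructor
  · rintro ⟨h, hh, rfl⟩
    simpa [mul_assoc] using hh
  · intro h
    exact ⟨_, h, by simp [mul_assoc]⟩

theorem cj_cj_inv (g : K) (H : Subgroup K) : cj g (cj g⁻¹ H) = H := by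
  ext x
  simp only [mem_cj]
  simp [mul_assoc]

theorem cj_mono {g : K} {H H' : Subgroup K} (h : H ≤ H') : cj g H ≤ cj g H' := by
  intro x hx
  rw [mem_cj] at hx ⊢
  exact h hx

theorem cj_injective (g : K) : Function.Injective (cj g : Subgroup K → Subgroup K) := by
  intro H H' h
  have := congrArg (cj g⁻¹) h
  have h1 : ∀ X : Subgroup K, cj g⁻¹ (cj g X) = X := fun X => by
    have := cj_cj_inv g⁻¹ X
    simpa using this
  rwa [h1, h1] at this

theorem fix_cj (ρ : Representation (ZMod t) K V) {g : K} {H : Subgroup K} {v : V}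
    (hv : v ∈ fixSub ρ H) : ρ g v ∈ fixSub ρ (cj g H) := by
  intro y hy
  rw [mem_cj] at hy
  have h1 := hv _ hy
  have h2 : y = g * (g⁻¹ * y * g) * g⁻¹ := by group
  rw [h2, rho_mul, rho_mul, rho_inv_self, h1]

theorem exists_ne_zero_of_injective (ρ : Representation (ZMod t) K V)
    (hinj : Function.Injective ρ) {q : ℕ} [hq : Fact q.Prime] (hqd : q ∣ Nat.card K) :
    ∃ v : V, v ≠ 0 := by
  by_contra hcon
  push Not at hcon
  obtain ⟨x, hx⟩ := exists_prime_orderOf_dvd_card' q hqd
  have h1 : x = 1 := hinj (by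
    rw [map_one]
    ext v
    rw [hcon (ρ x v), hcon ((1 : Module.End (ZMod t) V) v)])
  rw [h1, orderOf_one] at hx
  exact hq.out.one_lt.ne hx

theorem mem_fixSub_sup (ρ : Representation (ZMod t) K V) {H H' : Subgroup K} {w : V}
    (hw : w ∈ fixSub ρ H) (hw' : w ∈ fixSub ρ H') : w ∈ fixSub ρ (H ⊔ H') := by
  let St : Subgroup K :=
    { carrier := {y | ρ y w = w}
      one_mem' := rho_one ρ w
      mul_mem' := by
        intro a b ha hb
        show ρ (a * b) w = w
        rw [rho_mul, hb, ha]
      inv_mem' := by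
        intro a ha
        show ρ a⁻¹ w = w
        have := rho_inv_self ρ a w
        rwa [ha] at this }
  intro y hy
  exact (sup_le (fun x hx => hw x hx) (fun x hx => hw' x hx) : H ⊔ H' ≤ St) hy

/-- The averaging map. -/
noncomputable def tau (ρ : Representation (ZMod t) K V) (H : Subgroup K) (v : V) : V :=
  letI := Fintype.ofFinite H
  ∑ h : H, ρ (h : K) v

theorem tau_add (ρ : Representation (ZMod t) K V) (H : Subgroup K) (v w : V) :
    tau ρ H (v + w) = tau ρ H v + tau ρ H w := by
  unfold tau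
  simp [map_add, Finset.sum_add_distrib]

theorem tau_fix (ρ : Representation (ZMod t) K V) (H : Subgroup K) (v : V) :
    tau ρ H v ∈ fixSub ρ H := by
  intro y hy
  unfold tau
  letI := Fintype.ofFinite H
  rw [map_sum]
  refine Fintype.sum_equiv (Equiv.mulLeft (⟨y, hy⟩ : H)) _ _ ?_
  intro h
  simp [rho_mul]

theorem tau_comm (ρ : Representation (ZMod t) K V) (H : Subgroup K) {a : K}
    (ha : ∀ h ∈ H, a * h = h * a) (v : V) : ρ a (tau ρ H v) = tau ρ H (ρ a v) := by
  unfold tau
  letI := Fintype.ofFinite H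
  rw [map_sum]
  refine Finset.sum_congr rfl ?_
  intro h _
  rw [← rho_mul, ← rho_mul, ha h h.2]

theorem tau_of_fix (ρ : Representation (ZMod t) K V) {H : Subgroup K} {v : V}
    (hv : v ∈ fixSub ρ H) : tau ρ H v = (Nat.card H) • v := by
  unfold tau
  letI := Fintype.ofFinite H
  have : ∀ h : H, ρ (h : K) v = v := fun h => hv h h.2
  simp only [this, Finset.sum_const, Finset.card_univ, Nat.card_eq_fintype_card]

theorem nsmul_ne_zero_of_not_dvd {n : ℕ} (hn : ¬ t ∣ n) {v : V} (hv : v ≠ 0) : n • v ≠ 0 := by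
  rw [← Nat.cast_smul_eq_nsmul (ZMod t)]
  refine smul_ne_zero ?_ hv
  rwa [Ne, ZMod.natCast_eq_zero_iff]

theorem nsmul_inj_of_not_dvd {n : ℕ} (hn : ¬ t ∣ n) {v w : V} (h : n • v = n • w) : v = w := by
  by_contra hne
  have h1 : n • (v - w) = 0 := by rw [smul_sub, h, sub_self]
  exact nsmul_ne_zero_of_not_dvd hn (sub_ne_zero.2 hne) h1

/-- A group of commuting operators acting fixed point freely is cyclic. -/
theorem isCyclic_of_fpf (ρ : Representation (ZMod t) K V) (A : Subgroup K)
    (hAc : ∀ a ∈ A, ∀ b ∈ A, a * b = b * a) (hV : ∃ v : V, v ≠ 0)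
    (hfpf : ∀ a ∈ A, a ≠ 1 → ∀ v, ρ a v = v → v = 0) : IsCyclic A := by
  classical
  let S : Set (Module.End (ZMod t) V) := Set.range fun a : A => ρ (a : K)
  have hcomm : ∀ x ∈ S, ∀ y ∈ S, x * y = y * x := by
    rintro _ ⟨a, rfl⟩ _ ⟨b, rfl⟩
    show ρ (a : K) * ρ (b : K) = ρ (b : K) * ρ (a : K)
    rw [← map_mul, ← map_mul, hAc a a.2 b b.2]
  letI : CommRing (Algebra.adjoin (ZMod t) S) := Algebra.adjoinCommRingOfComm (ZMod t) hcomm
  let g : A →* (Algebra.adjoin (ZMod t) S) :=
    { toFun := fun a => ⟨ρ (a : K), Algebra.subset_adjoin ⟨a, rfl⟩⟩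
      map_one' := by
        apply Subtype.ext
        exact map_one ρ
      map_mul' := by
        intro a b
        apply Subtype.ext
        exact map_mul ρ _ _ }
  have hntE : (1 : Module.End (ZMod t) V) ≠ 0 := by
    obtain ⟨v, hv⟩ := hV
    intro h
    exact hv (by simpa using congrArg (fun f : Module.End (ZMod t) V => f v) h)
  haveI : Nontrivial (Algebra.adjoin (ZMod t) S) := by
    refine ⟨⟨1, 0, ?_⟩⟩
    intro h
    exact hntE (congrArg Subtype.val h)
  haveI : Finite (Module.End (ZMod t) V) :=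
    Finite.of_injective (fun f : Module.End (ZMod t) V => (f : V → V)) DFunLike.coe_injective
  obtain ⟨m, hm⟩ := Ideal.exists_maximal (Algebra.adjoin (ZMod t) S)
  letI := Ideal.Quotient.field m
  let f : A →* (Algebra.adjoin (ZMod t) S) ⧸ m :=
    (Ideal.Quotient.mk m).toMonoidHom.comp g
  refine isCyclic_of_subgroup_isDomain f ?_
  rw [injective_iff_map_eq_one]
  intro a ha
  by_contra hne
  have ha1 : (a : K) ≠ 1 := fun h => hne (Subtype.ext h)
  have hmem : g a - 1 ∈ m := by
    rw [← Ideal.Quotient.eq]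
    simpa [f] using ha
  have hreg : Function.Injective fun y : Algebra.adjoin (ZMod t) S => (g a - 1) * y := by
    intro y y' hy
    have h1 : (g a - 1) * (y - y') = 0 := by
      have : (g a - 1) * y = (g a - 1) * y' := hy
      rw [mul_sub, this, sub_self]
    have h2 : y - y' = 0 := by
      apply Subtype.ext
      ext w
      have h3 := congrArg (fun z : Algebra.adjoin (ZMod t) S => (z : Module.End (ZMod t) V) w) h1
      have h4 : ρ (a : K) (((y - y' : Algebra.adjoin (ZMod t) S) : Module.End (ZMod t) V) w) -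
          ((y - y' : Algebra.adjoin (ZMod t) S) : Module.End (ZMod t) V) w = 0 := h3
      exact hfpf a a.2 ha1 _ (sub_eq_zero.1 h4)
    exact sub_eq_zero.1 h2
  obtain ⟨y, hy⟩ := (Finite.injective_iff_surjective.1 hreg) 1
  have hone : (1 : Algebra.adjoin (ZMod t) S) ∈ m := by
    rw [← hy]
    exact m.mul_mem_right _ hmem
  exact hm.ne_top ((Ideal.eq_top_iff_one m).2 hone)

end AbelCyc

set_option maxHeartbeats 1000000 in
open AbelCyc in
theorem isCyclic_of_normal_abelian {K : Type u} [Group K] [Finite K] {t : ℕ} [Fact t.Prime]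
    {V : Type v} [AddCommGroup V] [Module (ZMod t) V] [Finite V]
    (ρ : Representation (ZMod t) K V) (hinj : Function.Injective ρ) (hirr : IrrRep ρ) {q : ℕ}
    [Fact q.Prime] (hq2 : q ≠ 2) (hqd : q ∣ Nat.card K) (hQ : SylFix ρ q) {s : ℕ} [Fact s.Prime]
    (A : Subgroup K) [hAn : A.Normal] (hab : IsMulCommutative A) (hs : IsPGroup s A) :
    IsCyclic A := by
  classical
  have hAc : ∀ a ∈ A, ∀ b ∈ A, a * b = b * a := fun a ha b hb =>
    congrArg Subtype.val (hab.is_comm.comm ⟨a, ha⟩ ⟨b, hb⟩)
  have hV := exists_ne_zero_of_injective ρ hinj hqd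
  -- an invariant fixed space is everything
  have hinv : ∀ H : Subgroup K, (∀ g : K, cj g H = H) → fixSub ρ H ≠ ⊥ → H = ⊥ := by
    intro H hH hne
    have h1 : fixSub ρ H = ⊤ := by
      refine (hirr _ ?_).resolve_left hne
      intro g v hv
      have := fix_cj ρ (g := g) hv
      rwa [hH g] at this
    rw [eq_bot_iff]
    intro x hx
    rw [Subgroup.mem_bot]
    apply hinj
    rw [map_one]
    ext v
    have h2 : v ∈ fixSub ρ H := by rw [h1]; exact Submodule.mem_top
    exact h2 x hx
  by_cases hA : fixSub ρ A = ⊥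
  swap
  · have hbot : A = ⊥ := hinv A (fun g => by
      ext x
      rw [mem_cj]
      constructor
      · intro h
        have := hAn.conj_mem _ h g
        simpa [mul_assoc] using this
      · intro h
        have := hAn.conj_mem _ h g⁻¹
        simpa [mul_assoc] using this) hA
    subst hbot
    exact inferInstance
  -- `s ≠ t`
  have hst : s ≠ t := by
    rintro rfl
    obtain ⟨v, hv⟩ := hV
    letI : MulAction A V :=
      { smul := fun a v => ρ (a : K) v
        one_smul := fun v => rho_one ρ v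
        mul_smul := fun a b v => rho_mul ρ _ _ v }
    have hcard : s ∣ Nat.card V := by
      have h1 := Module.natCard_eq_pow_finrank (K := ZMod s) (V := V)
      rw [h1, Nat.card_zmod]
      refine dvd_pow_self _ ?_
      intro h0
      haveI : Module.Finite (ZMod s) V := Module.Finite.of_finite
      have : Subsingleton V := Module.finrank_zero_iff.1 h0
      exact hv (Subsingleton.elim _ _)
    have h0 : (0 : V) ∈ MulAction.fixedPoints A V := by
      intro a
      exact map_zero (ρ (a : K))
    obtain ⟨b, hb, hne⟩ :=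
      IsPGroup.exists_fixed_point_of_prime_dvd_card_of_fixed_point hs V hcard h0
    have hb' : b ∈ fixSub ρ A := fun y hy => hb ⟨y, hy⟩
    rw [hA, Submodule.mem_bot] at hb'
    exact hne hb'.symm
  have hcardH : ∀ H : Subgroup K, H ≤ A → ¬ t ∣ Nat.card H := by
    intro H hH hd
    obtain ⟨n, hn⟩ := IsPGroup.iff_card.1 (hs.to_le hH)
    rw [hn] at hd
    have h1 := (Fact.out : t.Prime).dvd_of_dvd_pow hd
    exact hst ((Nat.prime_dvd_prime_iff_eq Fact.out Fact.out).1 h1).symm
  let P : Subgroup K → Prop := fun H => H ≤ A ∧ fixSub ρ H ≠ ⊥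
  have hP_bot : P ⊥ := by
    refine ⟨bot_le, ?_⟩
    obtain ⟨v, hv⟩ := hV
    intro h
    have h1 : v ∈ fixSub ρ (⊥ : Subgroup K) := by
      intro y hy
      rw [Subgroup.mem_bot] at hy
      rw [hy, rho_one]
    rw [h, Submodule.mem_bot] at h1
    exact hv h1
  have hP_cj : ∀ g H, P H → P (cj g H) := by
    rintro g H ⟨h1, h2⟩
    refine ⟨?_, ?_⟩
    · intro x hx
      rw [mem_cj] at hx
      have := hAn.conj_mem _ (h1 hx) g
      simpa [mul_assoc] using this
    · intro h
      obtain ⟨v, hv, hv0⟩ := Submodule.exists_mem_ne_zero_of_ne_bot h2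
      have h3 := fix_cj ρ (g := g) hv
      rw [h, Submodule.mem_bot] at h3
      apply hv0
      have := rho_inv_self ρ g v
      rw [h3, map_zero] at this
      exact this.symm
  have hM_cj : ∀ g H, Maximal P H → Maximal P (cj g H) := by
    intro g H hH
    refine ⟨hP_cj g H hH.1, ?_⟩
    intro Y hY hle
    have h1 : H ≤ cj g⁻¹ Y := by
      intro x hx
      rw [mem_cj]
      have := hle (mem_cj.2 (show g⁻¹ * (g * x * g⁻¹) * g ∈ H by simpa [mul_assoc] using hx))
      simpa [mul_assoc] using this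
    have h2 := hH.2 (hP_cj g⁻¹ Y hY) h1
    have h3 := cj_mono (g := g) h2
    rwa [cj_cj_inv] at h3
  -- two distinct members have fixed spaces meeting trivially
  have hdisj : ∀ H H', Maximal P H → Maximal P H' → H ≠ H' → ∀ w, w ∈ fixSub ρ H →
      w ∈ fixSub ρ H' → w = 0 := by
    intro H H' hH hH' hne w hw hw'
    by_contra hw0
    have hsup : P (H ⊔ H') := by
      refine ⟨sup_le hH.1.1 hH'.1.1, ?_⟩
      intro h
      have h1 : w ∈ fixSub ρ (H ⊔ H') := mem_fixSub_sup ρ hw hw'
      rw [h, Submodule.mem_bot] at h1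
      exact hw0 h1
    have h1 := hH.2 hsup le_sup_left
    have h2 := hH'.2 hsup le_sup_right
    exact hne (le_antisymm (le_sup_left.trans h2) (le_sup_right.trans h1))
  -- the averaging operator kills the other fixed spaces
  have htau0 : ∀ H H', Maximal P H → Maximal P H' → H ≠ H' → ∀ w, w ∈ fixSub ρ H' →
      tau ρ H w = 0 := by
    intro H H' hH hH' hne w hw
    refine hdisj H H' hH hH' hne _ (tau_fix ρ H w) ?_
    intro y hy
    rw [tau_comm ρ H (fun h hh => hAc y (hH'.1.1 hy) h (hH.1.1 hh)), hw y hy]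
  -- key step
  have hkey : ∀ H₀ H₁, Maximal P H₀ → Maximal P H₁ → H₀ ≠ H₁ → ∀ v₀ v₁, v₀ ∈ fixSub ρ H₀ →
      v₁ ∈ fixSub ρ H₁ → v₀ ≠ 0 → v₁ ≠ 0 → ∀ y : K, Odd (orderOf y) →
      ρ y (v₀ + v₁) = v₀ + v₁ → ρ y v₀ = v₀ := by
    intro H₀ H₁ hH₀ hH₁ hne v₀ v₁ hv₀ hv₁ h0 h1 y hy hfix
    have hcard0 := hcardH H₀ hH₀.1.1
    have hcard1 := hcardH H₁ hH₁.1.1
    have hy0 := fix_cj ρ (g := y) hv₀
    have hy1 := fix_cj ρ (g := y) hv₁
    have hM0 := hM_cj y H₀ hH₀
    have hM1 := hM_cj y H₁ hH₁
    have hE0 : tau ρ H₀ (ρ y v₀) + tau ρ H₀ (ρ y v₁) = (Nat.card H₀) • v₀ := by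
      rw [← tau_add, ← map_add, hfix, tau_add, tau_of_fix ρ hv₀, htau0 H₀ H₁ hH₀ hH₁ hne v₁ hv₁,
        add_zero]
    have hE1 : tau ρ H₁ (ρ y v₀) + tau ρ H₁ (ρ y v₁) = (Nat.card H₁) • v₁ := by
      rw [← tau_add, ← map_add, hfix, tau_add, tau_of_fix ρ hv₁,
        htau0 H₁ H₀ hH₁ hH₀ hne.symm v₀ hv₀, zero_add]
    have hA0 : cj y H₀ = H₀ ∨ cj y H₁ = H₀ := by
      by_contra hcon
      push Not at hcon
      have h2 := htau0 H₀ _ hH₀ hM0 (Ne.symm hcon.1) _ hy0
      have h3 := htau0 H₀ _ hH₀ hM1 (Ne.symm hcon.2) _ hy1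
      rw [h2, h3, add_zero] at hE0
      exact nsmul_ne_zero_of_not_dvd hcard0 h0 hE0.symm
    have hA1 : cj y H₀ = H₁ ∨ cj y H₁ = H₁ := by
      by_contra hcon
      push Not at hcon
      have h2 := htau0 H₁ _ hH₁ hM0 (Ne.symm hcon.1) _ hy0
      have h3 := htau0 H₁ _ hH₁ hM1 (Ne.symm hcon.2) _ hy1
      rw [h2, h3, add_zero] at hE1
      exact nsmul_ne_zero_of_not_dvd hcard1 h1 hE1.symm
    have hn0 : cj y H₀ = H₀ := by
      rcases hA0 with h | h
      · exact h
      · have h2 : cj y H₀ = H₁ := by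
          rcases hA1 with h' | h'
          · exact h'
          · exact (hne (h.symm.trans h')).elim
        -- `y` swaps, so `y²` normalizes; `y` is a power of `y²`
        have hsq : ∀ X : Subgroup K, cj (y * y) X = cj y (cj y X) := by
          intro X
          ext x
          simp only [mem_cj, mul_inv_rev]
          simp [mul_assoc]
        have h3 : cj (y * y) H₀ = H₀ := by rw [hsq, h2, h]
        have hpow : ∀ k : ℕ, cj ((y * y) ^ k) H₀ = H₀ := by
          intro k
          induction k with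
          | zero =>
            ext x
            simp [mem_cj]
          | succ k ih =>
            have h4 : ∀ (a b : K) (X : Subgroup K), cj (a * b) X = cj a (cj b X) := by
              intro a b X
              ext x
              simp only [mem_cj, mul_inv_rev]
              simp [mul_assoc]
            rw [pow_succ, h4, h3, ih]
        obtain ⟨k, hk⟩ := hy
        have h5 : y = (y * y) ^ (k + 1) := by
          rw [← pow_two, ← pow_mul]
          have h6 : 2 * (k + 1) = orderOf y + 1 := by omega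
          rw [h6, pow_succ, pow_orderOf_eq_one, one_mul]
        have h6 := hpow (k + 1)
        rw [← h5] at h6
        exact h6
    have hn1 : cj y H₁ ≠ H₀ := by
      intro h
      apply hne
      exact cj_injective y (hn0.trans h.symm)
    have h2 := htau0 H₀ _ hH₀ hM1 (Ne.symm hn1) _ hy1
    rw [h2, add_zero] at hE0
    rw [hn0] at hy0
    rw [tau_of_fix ρ hy0] at hE0
    exact nsmul_inj_of_not_dvd hcard0 hE0
  -- the `q`-subgroup attached to a vector
  have hSyl_unique : ∀ (X X' : Sylow q K) (v : V), (∀ y ∈ (X : Subgroup K), ρ y v = v) →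
      (∀ y : K, (∃ k : ℕ, orderOf y = q ^ k) → ρ y v = v → y ∈ (X' : Subgroup K)) → X = X' := by
    intro X X' v h1 h2
    have hle : (X : Subgroup K) ≤ X' := by
      intro y hy
      refine h2 y ?_ (h1 y hy)
      obtain ⟨k, hk⟩ := IsPGroup.iff_orderOf.1 X.isPGroup' ⟨y, hy⟩
      exact ⟨k, by rw [← hk, Subgroup.orderOf_mk]⟩
    exact Sylow.ext (X.is_maximal' X'.isPGroup' hle).symm
  by_cases htwo : ∃ H₀ H₁, Maximal P H₀ ∧ Maximal P H₁ ∧ H₀ ≠ H₁
  · exfalso
    obtain ⟨H₀, H₁, hH₀, hH₁, hne⟩ := htwo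
    choose! X hX1 hX2 using hQ
    have hrel : ∀ H H', Maximal P H → Maximal P H' → H ≠ H' → ∀ v v', v ∈ fixSub ρ H →
        v' ∈ fixSub ρ H' → v ≠ 0 → v' ≠ 0 → X v = X v' := by
      intro H H' hH hH' hne' v v' hv hv' h0 h0'
      have hsum : v + v' ≠ 0 := by
        intro h
        have h1 : v = -v' := eq_neg_of_add_eq_zero_left h
        apply h0
        refine hdisj H H' hH hH' hne' v hv ?_
        rw [h1]
        exact Submodule.neg_mem _ hv'
      have hodd : ∀ y ∈ (X (v + v') : Subgroup K), Odd (orderOf y) := by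
        intro y hy
        obtain ⟨k, hk⟩ := IsPGroup.iff_orderOf.1 (X (v + v')).isPGroup' ⟨y, hy⟩
        rw [Subgroup.orderOf_mk] at hk
        rw [hk]
        refine Odd.pow ((Fact.out : q.Prime).odd_of_ne_two hq2)
      have h1 : X (v + v') = X v := hSyl_unique _ _ v
        (fun y hy => hkey H H' hH hH' hne' v v' hv hv' h0 h0' y (hodd y hy) (hX1 _ hsum y hy))
        (hX2 v h0)
      have h2 : X (v + v') = X v' := hSyl_unique _ _ v'
        (fun y hy => by
          have := hkey H' H hH' hH hne'.symm v' v hv' hv h0' h0 y (hodd y hy)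
            (by rw [add_comm]; exact hX1 _ hsum y hy)
          exact this)
        (hX2 v' h0')
      exact h1.symm.trans h2
    obtain ⟨v₀, hv₀, hv₀0⟩ := Submodule.exists_mem_ne_zero_of_ne_bot hH₀.1.2
    obtain ⟨v₁, hv₁, hv₁0⟩ := Submodule.exists_mem_ne_zero_of_ne_bot hH₁.1.2
    have hall : ∀ H, Maximal P H → ∀ v, v ∈ fixSub ρ H → v ≠ 0 → X v = X v₀ := by
      intro H hH v hv hv0
      by_cases h : H = H₀
      · subst h
        exact (hrel _ _ hH hH₁ hne v v₁ hv hv₁ hv0 hv₁0).trans
          (hrel _ _ hH hH₁ hne v₀ v₁ hv₀ hv₁ hv₀0 hv₁0).symm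
      · exact hrel _ _ hH hH₀ h v v₀ hv hv₀ hv0 hv₀0
    let W : Submodule (ZMod t) V := Submodule.span (ZMod t) (⋃ H ∈ {H | Maximal P H}, (fixSub ρ H : Set V))
    have hWtop : W = ⊤ := by
      refine (hirr W ?_).resolve_left ?_
      · intro g v hv
        have : W ≤ W.comap (ρ g) := by
          refine Submodule.span_le.2 ?_
          intro u hu
          simp only [Set.mem_iUnion, SetLike.mem_coe] at hu
          obtain ⟨H, hH, hu⟩ := hu
          refine Submodule.subset_span ?_
          simp only [Set.mem_iUnion, SetLike.mem_coe]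
          exact ⟨cj g H, hM_cj g H hH, fix_cj ρ hu⟩
        exact this hv
      · intro h
        have : v₀ ∈ W := Submodule.subset_span (by
          simp only [Set.mem_iUnion, SetLike.mem_coe]
          exact ⟨H₀, hH₀, hv₀⟩)
        rw [h, Submodule.mem_bot] at this
        exact hv₀0 this
    have hWfix : W ≤ fixSub ρ (X v₀ : Subgroup K) := by
      refine Submodule.span_le.2 ?_
      intro u hu
      simp only [Set.mem_iUnion, SetLike.mem_coe] at hu
      obtain ⟨H, hH, hu⟩ := hu
      by_cases hu0 : u = 0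
      · subst hu0
        exact Submodule.zero_mem _
      · intro y hy
        rw [← hall H hH u hu hu0] at hy
        exact hX1 u hu0 y hy
    have hbot : (X v₀ : Subgroup K) = ⊥ := by
      rw [eq_bot_iff]
      intro y hy
      rw [Subgroup.mem_bot]
      apply hinj
      rw [map_one]
      ext v
      have : v ∈ W := by rw [hWtop]; exact Submodule.mem_top
      exact hWfix this y hy
    exact (X v₀).ne_bot_of_dvd_card hqd hbot
  · -- a unique maximal member, necessarily trivial
    push Not at htwo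
    obtain ⟨H₀, _, hH₀⟩ := Finite.exists_le_maximal hP_bot
    have hH₀bot : H₀ = ⊥ :=
      hinv H₀ (fun g => htwo _ _ (hM_cj g H₀ hH₀) hH₀) hH₀.1.2
    refine isCyclic_of_fpf ρ A hAc hV ?_
    intro a ha ha1 v hv
    by_contra hv0
    have hPa : P (Subgroup.zpowers a) := by
      refine ⟨(Subgroup.zpowers_le).2 ha, ?_⟩
      intro h
      have h1 : v ∈ fixSub ρ (Subgroup.zpowers a) := by
        intro y hy
        obtain ⟨k, rfl⟩ := Subgroup.mem_zpowers_iff.1 hy
        have : ∀ k : ℤ, ρ (a ^ k) v = v := by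
          intro k
          induction k using Int.induction_on with
          | zero => simp [rho_one]
          | succ i ih =>
            rw [zpow_add_one, rho_mul, hv] at *
            exact ih
          | pred i ih =>
            have h3 := rho_inv_self ρ a v
            rw [hv] at h3
            rw [zpow_sub_one, rho_mul, h3]
            exact ih
        exact this k
      rw [h, Submodule.mem_bot] at h1
      exact hv0 h1
    obtain ⟨H₁, hle, hH₁⟩ := Finite.exists_le_maximal hPa
    have h1 := htwo _ _ hH₁ hH₀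
    rw [h1, hH₀bot, Subgroup.zpowers_le, Subgroup.mem_bot] at hle
    exact ha1 hle

end Cfsg.Agent.Lib.Palfy
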