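import Mathlib
import Cfsg.Agent.Lib.Palfy.Defs
import Cfsg.Agent.Lib.Char.CliffordCorr
import Cfsg.Agent.Lib.Char.LinearChars
import Cfsg.Agent.Lib.Char.PrimeIndex
import Cfsg.Agent.Lib.Char.Values

/-!
# Irreducible characters of semidirect products over a linear character (piece B)
-/

set_option autoImplicit false
set_option linter.style.haveILetI false
set_option linter.unusedSectionVars false
set_option linter.deprecated false

namespace Cfsg.Agent.Lib.Palfy

open Cfsg Cfsg.Agent.Lib.Char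
open scoped commutatorElement

universe u

/-- The retraction onto a complement of a normal subgroup. -/
theorem exists_retraction {G : Type u} [Group G] [Finite G] (N M : Subgroup G) [hN : N.Normal]
    (hc : N.IsComplement' M) :
    ∃ r₀ : G →* G, (∀ m ∈ M, r₀ m = m) ∧ (∀ n ∈ N, r₀ n = 1) ∧
      ∀ g, r₀ g ∈ M ∧ g * (r₀ g)⁻¹ ∈ N := by
  let φ : M →* G ⧸ N := (QuotientGroup.mk' N).comp M.subtype
  have hφ : Function.Bijective φ := by
    constructor
    · rw [injective_iff_map_eq_one]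
      intro m hm
      have h1 : (m : G) ∈ N := by
        have : ((m : G) : G ⧸ N) = 1 := hm
        exact (QuotientGroup.eq_one_iff _).1 this
      have h2 : (m : G) ∈ N ⊓ M := ⟨h1, m.2⟩
      rw [hc.disjoint.eq_bot] at h2
      exact Subtype.ext (Subgroup.mem_bot.1 h2)
    · intro q
      induction q using QuotientGroup.induction_on with
      | H g =>
        obtain ⟨⟨n, m⟩, hp, _⟩ := hc.existsUnique g
        refine ⟨m, ?_⟩
        show ((m : G) : G ⧸ N) = (g : G ⧸ N)
        rw [QuotientGroup.eq]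
        have hp' : (n : G) * m = g := hp
        rw [← hp']
        have : (m : G)⁻¹ * ((n : G) * m) = (m : G)⁻¹ * n * (m : G)⁻¹⁻¹ := by group
        rw [this]
        exact hN.conj_mem _ n.2 _
  let e : M ≃* G ⧸ N := MulEquiv.ofBijective φ hφ
  let r₁ : G →* M := e.symm.toMonoidHom.comp (QuotientGroup.mk' N)
  have hr₁M : ∀ m : M, r₁ m = m := by
    intro m
    show e.symm (φ m) = m
    exact e.symm_apply_apply m
  have hr₁N : ∀ n ∈ N, r₁ n = 1 := by
    intro n hn
    show e.symm ((n : G) : G ⧸ N) = 1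
    rw [(QuotientGroup.eq_one_iff n).2 hn, map_one]
  refine ⟨M.subtype.comp r₁, fun m hm => ?_, fun n hn => ?_, fun g => ⟨(r₁ g).2, ?_⟩⟩
  · show ((r₁ m : M) : G) = m
    rw [hr₁M ⟨m, hm⟩]
  · show ((r₁ n : M) : G) = 1
    rw [hr₁N n hn]
    rfl
  · show g * ((r₁ g : M) : G)⁻¹ ∈ N
    have h1 : φ (r₁ g) = (g : G ⧸ N) := e.apply_symm_apply _
    have h2 : (((r₁ g : M) : G) : G ⧸ N) = (g : G ⧸ N) := h1
    rw [QuotientGroup.eq] at h2
    have h3 : g * ((r₁ g : M) : G)⁻¹ = (((r₁ g : M) : G)) * (((r₁ g : M) : G)⁻¹ * g) *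
        ((r₁ g : M) : G)⁻¹ := by group
    rw [h3]
    exact hN.conj_mem _ h2 _

theorem exists_irr_degree_of_complement {G : Type u} [Group G] [Finite G] (N M : Subgroup G)
    [hN : N.Normal] (hc : N.IsComplement' M) (l : N →* ℂˣ) (β : IrrCharacter (stabIn N M l)) :
    ∃ χ : IrrCharacter G, charDegree (χ : G → ℂ) =
      (stabIn N M l).relIndex M * charDegree (β : stabIn N M l → ℂ) := by
  classical
  cases nonempty_fintype G
  obtain ⟨r₀, hr₀M, hr₀N, hr₀⟩ := exists_retraction N M hc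
  let J : Subgroup G := stabIn N M l
  let I : Subgroup G := J.comap r₀
  have hIJ : ∀ g : I, r₀ g ∈ J := fun g => g.2
  have hNI : N ≤ I := by
    intro n hn
    show r₀ n ∈ J
    rw [hr₀N n hn]
    exact J.one_mem
  let a : I → N := fun g => ⟨(g : G) * (r₀ g)⁻¹, (hr₀ g).2⟩
  have hla : ∀ (s : J) (n : N), l ⟨(s : G) * n * (s : G)⁻¹, hN.conj_mem (n : G) n.2 s⟩ = l n :=
    fun s n => s.2.2 n
  let lhat : I →* ℂˣ :=
    { toFun := fun g => l (a g)
      map_one' := by
        have : a 1 = 1 := by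
          apply Subtype.ext
          simp [a]
        rw [this, map_one]
      map_mul' := by
        intro g h
        have h1 : a (g * h) = a g *
            ⟨(r₀ g) * (a h : G) * (r₀ g)⁻¹, hN.conj_mem _ (a h).2 _⟩ := by
          apply Subtype.ext
          simp [a, mul_assoc]
        rw [h1, map_mul, hla ⟨r₀ g, hIJ g⟩ (a h)] }
  have hlhat : ∀ n : N, lhat ⟨n, hNI n.2⟩ = l n := by
    intro n
    show l (a ⟨n, hNI n.2⟩) = l n
    congr 1
    apply Subtype.ext
    simp [a, hr₀N n n.2]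
  let r : I →* J := (r₀.comp I.subtype).codRestrict J hIJ
  have hr : Function.Surjective r := by
    intro j
    have hjI : (j : G) ∈ I := by
      show r₀ j ∈ J
      rw [hr₀M j (stabIn_le N M l j.2)]
      exact j.2
    refine ⟨⟨j, hjI⟩, ?_⟩
    apply Subtype.ext
    exact hr₀M j (stabIn_le N M l j.2)
  letI : Fintype N := Fintype.ofFinite _
  letI : Fintype I := Fintype.ofFinite _
  let ϑ : N → ℂ := fun n => ((l n : ℂˣ) : ℂ)
  have hϑ : IsIrrCharacter N ϑ := LinearChars.isIrr_of_hom l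
  have hβI : IsIrrCharacter I (fun g => (β : J → ℂ) (r g)) :=
    Basic.isIrrCharacter_comp_surjective β.2 r hr
  let ψ : I → ℂ := fun g => (β : J → ℂ) (r g) * ((lhat g : ℂˣ) : ℂ)
  have hψ : IsIrrCharacter I ψ := PrimeIndex.isIrr_mul_hom hβI lhat
  have hconj : ∀ (g : G) (n : N), l ⟨g * n * g⁻¹, hN.conj_mem (n : G) n.2 g⟩ =
      l ⟨r₀ g * n * (r₀ g)⁻¹, hN.conj_mem (n : G) n.2 _⟩ := by
    intro g n
    let b : N := ⟨g * (r₀ g)⁻¹, (hr₀ g).2⟩
    let c : N := ⟨r₀ g * n * (r₀ g)⁻¹, hN.conj_mem (n : G) n.2 _⟩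
    have h1 : (⟨g * n * g⁻¹, hN.conj_mem (n : G) n.2 g⟩ : N) = b * c * b⁻¹ := by
      apply Subtype.ext
      simp [b, c, mul_assoc]
    rw [h1, map_mul, map_mul, map_inv, mul_comm (l b), mul_assoc, mul_inv_cancel, mul_one]
  have hT : ∀ g : G, g ∈ I ↔ ∀ n : N, ϑ ⟨g * n * g⁻¹, hN.conj_mem (n : G) n.2 g⟩ = ϑ n := by
    intro g
    constructor
    · intro hg n
      have h1 : l ⟨g * n * g⁻¹, hN.conj_mem (n : G) n.2 g⟩ = l n := by
        rw [hconj]
        exact (show r₀ g ∈ J from hg).2 n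
      exact congrArg Units.val h1
    · intro h
      show r₀ g ∈ J
      refine ⟨(hr₀ g).1, fun n => ?_⟩
      rw [← hconj]
      exact Units.ext (h n)
  have hres : CliffordCorr.resT N I hNI ψ = ((β : J → ℂ) 1) • ϑ := by
    funext n
    show (β : J → ℂ) (r ⟨n, hNI n.2⟩) * ((lhat ⟨n, hNI n.2⟩ : ℂˣ) : ℂ) = (β : J → ℂ) 1 * ϑ n
    rw [hlhat]
    have : r ⟨n, hNI n.2⟩ = 1 := by
      apply Subtype.ext
      exact hr₀N n n.2
    rw [this]
  have hne : classInner (CliffordCorr.resT N I hNI ψ) ϑ ≠ 0 := by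
    rw [hres, Ortho.classInner_smul_left, Ortho.classInner_irr_self hϑ, mul_one]
    exact Ortho.irr_apply_one_ne_zero β.2
  have hχ := CliffordCorr.isIrr_indFun N ϑ I hNI hϑ hT hψ hne
  refine ⟨⟨_, hχ⟩, ?_⟩
  have hrange : r₀.range = M := by
    apply le_antisymm
    · rintro _ ⟨g, rfl⟩
      exact (hr₀ g).1
    · intro m hm
      exact ⟨m, hr₀M m hm⟩
  have hidx : I.index = J.relIndex M := by
    rw [Subgroup.index_comap, hrange]
  show charDegree (indFun I ψ) = J.relIndex M * charDegree (β : J → ℂ)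
  apply Values.IsCharacter.charDegree_eq (Values.IsIrrCharacter.isCharacter hχ)
  rw [Induced.indFun_one I ψ, ← hidx]
  have hψ1 : ψ 1 = (β : J → ℂ) 1 := by
    simp [ψ]
  rw [hψ1, ← Values.IsCharacter.charDegree_cast (Values.IsIrrCharacter.isCharacter β.2)]
  push_cast
  rfl

end Cfsg.Agent.Lib.Palfy
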