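import Mathlib
import Cfsg.Agent.Lib.Palfy.Defs

/-!
# `Hom(N, F_t)` as a representation under conjugation (piece P)
-/

set_option autoImplicit false
set_option linter.style.haveILetI false
set_option linter.unusedSectionVars false

namespace Cfsg.Agent.Lib.Palfy

open Cfsg
open scoped commutatorElement

universe u

/-- Homomorphisms to `F_t`, written additively. -/
abbrev HomW (N : Type u) [Group N] (t : ℕ) : Type u := Additive (N →* Multiplicative (ZMod t))

theorem homW_nsmul_eq_zero {N : Type u} [Group N] (t : ℕ) (w : HomW N t) : t • w = 0 := by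
  apply Additive.toMul.injective
  ext n
  have h : Additive.toMul (t • w) n = (Additive.toMul w n) ^ t := by
    rw [toMul_nsmul]
    rfl
  rw [h]
  apply Multiplicative.toAdd.injective
  rw [toAdd_pow]
  simp

noncomputable instance homW_module (N : Type u) [Group N] (t : ℕ) [Fact t.Prime] :
    Module (ZMod t) (HomW N t) :=
  AddCommGroup.zmodModule (n := t) (homW_nsmul_eq_zero t)

section rep
variable {G : Type u} [Group G] (N M : Subgroup G) [hN : N.Normal] (t : ℕ) [Fact t.Prime]

/-- The additive map underlying `homRep`. -/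
noncomputable def homRepAdd (m : M) : HomW N t →+ HomW N t where
  toFun w := Additive.ofMul ((Additive.toMul w).comp (MulAut.conjNormal (m : G)⁻¹).toMonoidHom)
  map_zero' := by
    apply Additive.toMul.injective
    ext n
    rfl
  map_add' a b := by
    apply Additive.toMul.injective
    ext n
    rfl

/-- The conjugation representation on `Hom(N, F_t)`: `(m • w)(n) = w (m⁻¹ n m)`. -/
noncomputable def homRep : Representation (ZMod t) M (HomW N t) where
  toFun m := (homRepAdd N M t m).toZModLinearMap t
  map_one' := by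
    apply LinearMap.ext
    intro w
    apply Additive.toMul.injective
    ext n
    change (Additive.toMul w) (MulAut.conjNormal (((1 : M) : G))⁻¹ n) = _
    have : MulAut.conjNormal (((1 : M) : G))⁻¹ n = n := by
      apply Subtype.ext
      simp [MulAut.conjNormal_apply]
    rw [this]
    rfl
  map_mul' a b := by
    apply LinearMap.ext
    intro w
    apply Additive.toMul.injective
    ext n
    change (Additive.toMul w) (MulAut.conjNormal (((a * b : M) : G))⁻¹ n) =
      (Additive.toMul w) (MulAut.conjNormal ((b : G))⁻¹ (MulAut.conjNormal ((a : G))⁻¹ n))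
    have : MulAut.conjNormal (((a * b : M) : G))⁻¹ n =
        MulAut.conjNormal ((b : G))⁻¹ (MulAut.conjNormal ((a : G))⁻¹ n) := by
      apply Subtype.ext
      simp [MulAut.conjNormal_apply, mul_assoc]
    rw [this]

theorem homRep_apply (m : M) (w : HomW N t) (n : N)
    (h : (m : G)⁻¹ * n * (m : G)⁻¹⁻¹ ∈ N) :
    Additive.toMul (homRep N M t m w) n =
      Additive.toMul w ⟨(m : G)⁻¹ * n * (m : G)⁻¹⁻¹, h⟩ := by
  change (Additive.toMul w) (MulAut.conjNormal ((m : G))⁻¹ n) = _
  have : MulAut.conjNormal ((m : G))⁻¹ n = ⟨(m : G)⁻¹ * n * (m : G)⁻¹⁻¹, h⟩ := by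
    apply Subtype.ext
    simp [MulAut.conjNormal_apply]
  rw [this]

end rep

section char
variable {N : Type u} [Group N] (t : ℕ) [hft : Fact t.Prime]

/-- A fixed embedding of `F_t` into `ℂˣ`. -/
noncomputable def ftEmb : Multiplicative (ZMod t) →* ℂˣ :=
  haveI : NeZero t := ⟨hft.out.ne_zero⟩
  (ZMod.stdAddChar (N := t)).toMonoidHom.toHomUnits

theorem ftEmb_injective : Function.Injective (ftEmb t) := by
  haveI : NeZero t := ⟨hft.out.ne_zero⟩
  intro a b h
  have h1 : ((ftEmb t a : ℂˣ) : ℂ) = (ftEmb t b : ℂˣ) := by rw [h]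
  have h2 : ZMod.stdAddChar (N := t) (Multiplicative.toAdd a) =
      ZMod.stdAddChar (N := t) (Multiplicative.toAdd b) := h1
  exact Multiplicative.toAdd.injective (ZMod.injective_stdAddChar h2)

/-- `w` followed by a fixed embedding of `F_t` into `ℂˣ`. -/
noncomputable def homChar (w : HomW N t) : N →* ℂˣ := (ftEmb t).comp (Additive.toMul w)

theorem homChar_zero : homChar t (0 : HomW N t) = 1 := by
  ext n
  change (((ftEmb t) (1 : Multiplicative (ZMod t)) : ℂˣ) : ℂ) = _
  simp

theorem homChar_ne (w : HomW N t) (hw : w ≠ 0) : homChar t w ≠ 1 := by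
  intro h
  apply hw
  apply Additive.toMul.injective
  ext n
  apply congrArg Multiplicative.toAdd
  apply ftEmb_injective t
  have := congrArg (fun f : N →* ℂˣ => f n) h
  simpa [homChar] using this

theorem homChar_apply_eq_iff (w w' : HomW N t) (a b : N) :
    homChar t w a = homChar t w' b ↔ Additive.toMul w a = Additive.toMul w' b := by
  constructor
  · intro h
    exact ftEmb_injective t h
  · intro h
    change ftEmb t _ = ftEmb t _
    rw [h]

end char

section fix
variable {G : Type u} [Group G] (N M : Subgroup G) [hN : N.Normal] (t : ℕ) [Fact t.Prime]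

theorem homRep_fix_iff (m : M) (w : HomW N t) :
    homRep N M t m w = w ↔ (m : G) ∈ stabIn N M (homChar t w) := by
  rw [mem_stabIn]
  constructor
  · intro h
    refine ⟨m.2, fun n => ?_⟩
    rw [homChar_apply_eq_iff]
    have hmem : (m : G)⁻¹ * ((m : G) * n * (m : G)⁻¹) * (m : G)⁻¹⁻¹ ∈ N := by
      have : (m : G)⁻¹ * ((m : G) * n * (m : G)⁻¹) * (m : G)⁻¹⁻¹ = n := by group
      rw [this]
      exact n.2
    have h2 := homRep_apply N M t m w ⟨(m : G) * n * (m : G)⁻¹, hN.conj_mem (n : G) n.2 m⟩ hmem
    rw [h] at h2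
    rw [h2]
    have : (⟨(m : G)⁻¹ * ((m : G) * n * (m : G)⁻¹) * (m : G)⁻¹⁻¹, hmem⟩ : N) = n := by
      apply Subtype.ext
      change (m : G)⁻¹ * ((m : G) * n * (m : G)⁻¹) * (m : G)⁻¹⁻¹ = n
      group
    rw [this]
  · rintro ⟨-, h⟩
    apply Additive.toMul.injective
    ext n
    have hmem : (m : G)⁻¹ * n * (m : G)⁻¹⁻¹ ∈ N := hN.conj_mem (n : G) n.2 _
    rw [homRep_apply N M t m w n hmem]
    have h3 := h ⟨(m : G)⁻¹ * n * (m : G)⁻¹⁻¹, hmem⟩
    rw [homChar_apply_eq_iff] at h3
    rw [← h3]
    have : (⟨(m : G) * ((m : G)⁻¹ * n * (m : G)⁻¹⁻¹) * (m : G)⁻¹, hN.conj_mem _ hmem _⟩ : N) = n := by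
      apply Subtype.ext
      change (m : G) * ((m : G)⁻¹ * n * (m : G)⁻¹⁻¹) * (m : G)⁻¹ = n
      group
    rw [this]

end fix

section dual
variable {A : Type u} [CommGroup A] (t : ℕ) [hft : Fact t.Prime]

/-- `Additive A` as an `F_t`-space for `A` elementary abelian. -/
abbrev addModuleOf (hexp : ∀ x : A, x ^ t = 1) : Module (ZMod t) (Additive A) :=
  AddCommGroup.zmodModule (n := t) (fun x => by
    apply Additive.toMul.injective
    rw [toMul_nsmul]
    exact hexp _)

/-- The identification of `Hom(A, F_t)` with the dual of `Additive A`. -/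
noncomputable def homDual [Module (ZMod t) (Additive A)] :
    HomW A t ≃ₗ[ZMod t] Module.Dual (ZMod t) (Additive A) :=
  { toFun := fun w => AddMonoidHom.toZModLinearMap t
      { toFun := fun a => Multiplicative.toAdd (Additive.toMul w (Additive.toMul a))
        map_zero' := by
          simp
        map_add' := by
          intro a b
          simp }
    map_add' := by
      intro a b
      rfl
    map_smul' := by
      intro c a
      apply LinearMap.ext
      intro x
      change _ = c • ((AddMonoidHom.toZModLinearMap t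
        { toFun := fun a' => Multiplicative.toAdd (Additive.toMul a (Additive.toMul a'))
          map_zero' := by simp
          map_add' := by
            intro a' b
            simp } : Module.Dual (ZMod t) (Additive A)) x)
      obtain ⟨k, rfl⟩ := ZMod.natCast_zmod_surjective c
      have h1 : ((k : ZMod t) • a) = k • a := Nat.cast_smul_eq_nsmul (ZMod t) k a
      rw [h1]
      simp only [AddMonoidHom.coe_toZModLinearMap, AddMonoidHom.coe_mk, ZeroHom.coe_mk]
      have h2 : Additive.toMul (k • a) (Additive.toMul x) = (Additive.toMul a (Additive.toMul x)) ^ k := by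
        rw [toMul_nsmul]
        rfl
      rw [h2, toAdd_pow]
      simp
    invFun := fun f => Additive.ofMul
      { toFun := fun n => Multiplicative.ofAdd (f (Additive.ofMul n))
        map_one' := by
          simp
        map_mul' := by
          intro a b
          simp [ofAdd_add] }
    left_inv := by
      intro w
      apply Additive.toMul.injective
      ext n
      rfl
    right_inv := by
      intro f
      apply LinearMap.ext
      intro x
      rfl }

theorem homDual_apply [Module (ZMod t) (Additive A)] (w : HomW A t) (a : A) :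
    homDual t w (Additive.ofMul a) = Multiplicative.toAdd (Additive.toMul w a) := rfl

theorem homW_sep_aux [Finite A] [Module (ZMod t) (Additive A)] (n : A)
    (h : ∀ w : HomW A t, Additive.toMul w n = 1) : n = 1 := by
  have h1 : ∀ f : Module.Dual (ZMod t) (Additive A), f (Additive.ofMul n) = 0 := by
    intro f
    obtain ⟨w, rfl⟩ := (homDual t).surjective f
    rw [homDual_apply, h w]
    rfl
  have h2 := (Module.forall_dual_apply_eq_zero_iff (ZMod t) (Additive.ofMul n)).1 h1
  exact Additive.ofMul.injective h2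

theorem card_homW_aux [Finite A] [Module (ZMod t) (Additive A)] :
    Nat.card (HomW A t) = Nat.card A := by
  haveI : Module.Finite (ZMod t) (Additive A) := Module.Finite.of_finite
  have h1 : Nat.card (HomW A t) = Nat.card (Module.Dual (ZMod t) (Additive A)) :=
    Nat.card_congr (homDual t).toEquiv
  rw [h1]
  have h2 : Nat.card (Additive A) = Nat.card (Module.Dual (ZMod t) (Additive A)) :=
    Nat.card_congr (Module.finBasis (ZMod t) (Additive A)).toDualEquiv.toEquiv
  rw [← h2]
  rfl

theorem top_of_annihilator_aux [Finite A] [Module (ZMod t) (Additive A)]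
    (W : Submodule (ZMod t) (HomW A t))
    (h : ∀ a : A, (∀ w ∈ W, Additive.toMul w a = 1) → a = 1) : W = ⊤ := by
  haveI : Module.Finite (ZMod t) (Additive A) := Module.Finite.of_finite
  have hco : (W.map (homDual t).toLinearMap).dualCoannihilator = ⊥ := by
    rw [eq_bot_iff]
    intro a ha
    rw [Submodule.mem_dualCoannihilator] at ha
    have h1 : Additive.toMul a = 1 := by
      apply h
      intro w hw
      have := ha _ (Submodule.mem_map_of_mem hw)
      exact this
    rw [Submodule.mem_bot]
    exact Additive.toMul.injective h1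
  have h2 : W.map (homDual t).toLinearMap = ⊤ := by
    have h3 := Subspace.dualCoannihilator_dualAnnihilator_eq
      (W := W.map (homDual t).toLinearMap)
    rw [hco] at h3
    rw [← h3]
    exact Submodule.dualAnnihilator_bot
  rw [eq_top_iff]
  intro w _
  have h3 : homDual t w ∈ W.map (homDual t).toLinearMap := by
    rw [h2]
    trivial
  obtain ⟨w', hw', h4⟩ := h3
  have : w' = w := (homDual t).injective h4
  rwa [← this]

end dual

section main
variable {G : Type u} [Group G] (N M : Subgroup G) [hN : N.Normal] (t : ℕ) [Fact t.Prime]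

/-- A commutative group structure from `IsMulCommutative`. -/
abbrev commOfSub (N : Type u) [Group N] (hab : IsMulCommutative N) : CommGroup N :=
  { (inferInstance : Group N) with mul_comm := fun a b => hab.is_comm.comm a b }

theorem homW_sep [Finite N] (hab : IsMulCommutative N) (hexp : ∀ x ∈ N, x ^ t = 1) (n : N)
    (h : ∀ w : HomW N t, Additive.toMul w n = 1) : n = 1 := by
  letI := commOfSub N hab
  have hexp' : ∀ x : N, x ^ t = 1 := fun x => Subtype.ext (by simpa using hexp x x.2)
  exact @homW_sep_aux N _ t _ _ (addModuleOf t hexp') n h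

theorem card_homW [Finite N] (hab : IsMulCommutative N) (hexp : ∀ x ∈ N, x ^ t = 1) :
    Nat.card (HomW N t) = Nat.card N := by
  letI := commOfSub N hab
  have hexp' : ∀ x : N, x ^ t = 1 := fun x => Subtype.ext (by simpa using hexp x x.2)
  exact @card_homW_aux N _ t _ _ (addModuleOf t hexp')

theorem irr_homRep [Finite N] (hab : IsMulCommutative N) (hexp : ∀ x ∈ N, x ^ t = 1)
    (hmin : ∀ U : Subgroup G, U ≤ N → (∀ m ∈ M, ∀ u ∈ U, m * u * m⁻¹ ∈ U) → U = ⊥ ∨ U = N) :
    IrrRep (homRep N M t) := by
  intro W hW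
  have hexp' : ∀ x : N, x ^ t = 1 := fun x => Subtype.ext (by simpa using hexp x x.2)
  -- the annihilator of `W` in `N`
  let U : Subgroup G :=
    { carrier := {g | ∃ h : g ∈ N, ∀ w ∈ W, Additive.toMul w ⟨g, h⟩ = 1}
      mul_mem' := by
        rintro a b ⟨ha, ha'⟩ ⟨hb, hb'⟩
        refine ⟨N.mul_mem ha hb, fun w hw => ?_⟩
        have : (⟨a * b, N.mul_mem ha hb⟩ : N) = ⟨a, ha⟩ * ⟨b, hb⟩ := rfl
        rw [this, map_mul, ha' w hw, hb' w hw, one_mul]
      one_mem' := ⟨N.one_mem, fun w _ => map_one (Additive.toMul w)⟩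
      inv_mem' := by
        rintro a ⟨ha, ha'⟩
        refine ⟨N.inv_mem ha, fun w hw => ?_⟩
        have : (⟨a⁻¹, N.inv_mem ha⟩ : N) = ⟨a, ha⟩⁻¹ := rfl
        rw [this, map_inv, ha' w hw, inv_one] }
  have hUN : U ≤ N := fun g hg => hg.1
  have hUinv : ∀ m ∈ M, ∀ u ∈ U, m * u * m⁻¹ ∈ U := by
    rintro m hm u ⟨hu, hu'⟩
    refine ⟨hN.conj_mem u hu m, fun w hw => ?_⟩
    have hw' := hW ⟨m, hm⟩⁻¹ w hw
    have h1 := hu' _ hw'
    have hmem : (((⟨m, hm⟩ : M)⁻¹ : M) : G)⁻¹ * u * (((⟨m, hm⟩ : M)⁻¹ : M) : G)⁻¹⁻¹ ∈ N := by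
      simpa using hN.conj_mem u hu m
    rw [homRep_apply N M t _ w ⟨u, hu⟩ hmem] at h1
    rw [← h1]
    have : (⟨m * u * m⁻¹, hN.conj_mem u hu m⟩ : N) = ⟨_, hmem⟩ := by
      apply Subtype.ext
      simp
    rw [this]
  rcases hmin U hUN hUinv with h | h
  · -- `U = ⊥`: `W = ⊤`
    right
    letI := commOfSub N hab
    refine @top_of_annihilator_aux N _ t _ _ (addModuleOf t hexp') W ?_
    intro a ha
    have hmemU : (a : G) ∈ U := ⟨a.2, fun w hw => ha w hw⟩
    rw [h, Subgroup.mem_bot] at hmemU
    exact Subtype.ext hmemU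
  · -- `U = N`: `W = ⊥`
    left
    rw [eq_bot_iff]
    intro w hw
    rw [Submodule.mem_bot]
    apply Additive.toMul.injective
    ext n
    have hn : (n : G) ∈ U := by
      rw [h]
      exact n.2
    obtain ⟨_, h2⟩ := hn
    have := h2 w hw
    rw [show ((Additive.toMul w) n) = 1 from this]
    rfl

end main

end Cfsg.Agent.Lib.Palfy
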