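import Mathlib
import Cfsg.Agent.Lib.Palfy.Defs
import Cfsg.Agent.Lib.Palfy.CompDeg
import Cfsg.Agent.Lib.Char.CoprimeCount
import Cfsg.Agent.Lib.Char.GlaubAb

/-!
# Irreducible characters over an invariant-stabilized central character (piece C)

`G = R ⋊ S`, `R` an `r`-group with `R' = V` central, `l ≠ 1` linear on `V`, `J = S_l`. There is a
`J`-invariant `θ ∈ Irr(R | l)` (Glauberman), it extends to `I = R J`, and the product of the extension
with the inflation of `β ∈ Irr(J)` induces irreducibly to `G`, by the Clifford correspondence for `l`.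
-/

set_option autoImplicit false
set_option linter.style.haveILetI false
set_option linter.unusedSectionVars false
set_option linter.deprecated false

namespace Cfsg.Agent.Lib.Palfy

open Cfsg Cfsg.Agent.Lib.Char
open scoped commutatorElement

universe u

set_option maxHeartbeats 1000000 in
theorem exists_irr_over_inv {G : Type u} [Group G] [Finite G] {r : ℕ} [Fact r.Prime]
    (R S V : Subgroup G) [hRn : R.Normal] [hVn : V.Normal] (hc : R.IsComplement' S)
    (hr : IsPGroup r R) (hcop : Nat.Coprime (Nat.card R) (Nat.card S)) (hVR : V ≤ R)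
    (hcen : ∀ v ∈ V, ∀ x ∈ R, v * x = x * v) (hVc : V ≤ ⁅R, R⁆) (hcomm : ⁅R, R⁆ ≤ V)
    (l : V →* ℂˣ) (hl : l ≠ 1) (β : IrrCharacter (stabIn V S l)) :
    ∃ χ : IrrCharacter G, r * ((stabIn V S l).relIndex S * charDegree (β : stabIn V S l → ℂ)) ∣
      charDegree (χ : G → ℂ) := by
  classical
  cases nonempty_fintype G
  obtain ⟨r₀, hr₀S, hr₀R, hr₀⟩ := exists_retraction R S hc
  let J : Subgroup G := stabIn V S l
  have hJS : J ≤ S := stabIn_le V S l
  let I : Subgroup G := J.comap r₀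
  have hIJ : ∀ g : I, r₀ g ∈ J := fun g => g.2
  have hRI : R ≤ I := by
    intro n hn
    show r₀ n ∈ J
    rw [hr₀R n hn]
    exact J.one_mem
  have hVI : V ≤ I := hVR.trans hRI
  letI : Fintype V := Fintype.ofFinite _
  letI : Fintype R := Fintype.ofFinite _
  letI : Fintype I := Fintype.ofFinite _
  letI : Fintype J := Fintype.ofFinite _
  let ϑ : V → ℂ := fun n => ((l n : ℂˣ) : ℂ)
  have hϑ : IsIrrCharacter V ϑ := LinearChars.isIrr_of_hom l
  -- the `J`-invariant `θ`
  obtain ⟨χ₀, hχ₀⟩ := GlaubAb.exists_constituent hVR (⟨ϑ, hϑ⟩ : IrrCharacter V)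
  have hcard_J : Nat.card J ∣ Nat.card S := Subgroup.card_dvd_of_le hJS
  have hcopJ : Nat.Coprime (Nat.card R) (Nat.card J) := Nat.Coprime.coprime_dvd_right hcard_J hcop
  obtain ⟨θ, hθ1, hθ2⟩ := GlaubAb.exists_fixed_abelian_section (Γ := G) (G := R) (N := V) hVR
    (fun g _ n hn => hVn.conj_mem n hn g)
    (fun x hx y hy => hcomm (by
      have := Subgroup.commutator_mem_commutator hx hy
      simpa [commutatorElement_def] using this))
    (S := J) (c := fun s => (s : G))
    (fun s g hg => hRn.conj_mem g hg s)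
    (fun s n hn => hVn.conj_mem n hn s)
    (fun s t => ⟨1, R.one_mem, by simp⟩)
    (by
      rw [← Nat.card_eq_fintype_card]
      refine Nat.Coprime.coprime_dvd_left ?_ hcopJ
      exact Subgroup.relIndex_dvd_card V R)
    ⟨ϑ, hϑ⟩
    (by
      intro s n
      exact congrArg Units.val (s.2.2 n))
    χ₀ hχ₀
  have hθc := Basic.isCharacter_of_isIrrCharacter θ.2
  have hθcl := Basic.isClassFunction_of_isCharacter hθc
  -- `r` divides the degree of `θ`
  obtain ⟨d, hd, hd0, hdvd⟩ := GlaubOver.exists_degree_dvd θ.2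
  have hd1 : d ≠ 1 := by
    rintro rfl
    obtain ⟨φ, hφ⟩ := LinearChars.exists_hom_of_isCharacter_one hθc (by simpa using hd)
    have hφV : ∀ v : V, φ ⟨v, hVR v.2⟩ = 1 := by
      intro v
      let K₁ : Subgroup G := (φ.ker).map R.subtype
      have hle : ⁅R, R⁆ ≤ K₁ := by
        rw [Subgroup.commutator_le]
        intro a ha b hb
        refine ⟨⟨⁅a, b⁆, Subgroup.commutator_mem_commutator ha hb |> fun _ => ?_⟩, ?_, rfl⟩
        · rw [commutatorElement_def]
          exact R.mul_mem (R.mul_mem (R.mul_mem ha hb) (R.inv_mem ha)) (R.inv_mem hb)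
        · show φ _ = 1
          have h1 : (⟨⁅a, b⁆, by
              rw [commutatorElement_def]
              exact R.mul_mem (R.mul_mem (R.mul_mem ha hb) (R.inv_mem ha)) (R.inv_mem hb)⟩ : R) =
              ⟨a, ha⟩ * ⟨b, hb⟩ * (⟨a, ha⟩ : R)⁻¹ * (⟨b, hb⟩ : R)⁻¹ := by
            apply Subtype.ext
            simp [commutatorElement_def]
          rw [h1, map_mul, map_mul, map_mul, map_inv, map_inv, mul_comm (φ ⟨a, ha⟩),
            mul_assoc (φ ⟨b, hb⟩), mul_inv_cancel, mul_one, mul_inv_cancel]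
      obtain ⟨x, hx, hxv⟩ := hle (hVc v.2)
      have h2 : x = ⟨v, hVR v.2⟩ := Subtype.ext hxv
      rw [← h2]
      exact hx
    have h3 : GlaubP.resC hVR (θ : R → ℂ) = fun _ => 1 := by
      funext v
      show (θ : R → ℂ) ⟨v, hVR v.2⟩ = 1
      have := congrFun hφ ⟨v, hVR v.2⟩
      rw [hφV v] at this
      simpa using this
    rw [h3] at hθ1
    refine hθ1 (Ortho.classInner_irr_of_ne Burnside2.isIrrCharacter_one hϑ ?_)
    intro h4
    apply hl
    ext v
    have := congrFun h4 v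
    simpa [ϑ] using this.symm
  obtain ⟨n, hn⟩ := IsPGroup.iff_card.1 hr
  rw [hn] at hdvd
  obtain ⟨a, -, rfl⟩ := (Nat.dvd_prime_pow Fact.out).1 hdvd
  have ha : a ≠ 0 := by
    rintro rfl
    exact hd1 (pow_zero r)
  obtain ⟨a', rfl⟩ := Nat.exists_eq_succ_of_ne_zero ha
  -- the extension to `I`
  let Ri : Subgroup I := R.subgroupOf I
  have hRiMem : ∀ x : Ri, ((x : I) : G) ∈ R := fun x => x.2
  let eR : Ri ≃* R := Subgroup.subgroupOfEquivOfLe hRI
  have heR : ∀ x : Ri, ((eR x : R) : G) = ((x : I) : G) := fun x => rfl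
  let θi : Ri → ℂ := fun x => (θ : R → ℂ) (eR x)
  have hθi : IsIrrCharacter Ri θi :=
    Basic.isIrrCharacter_comp_surjective θ.2 eR.toMonoidHom eR.surjective
  -- decomposition in `I`
  have hcardRi : Nat.card Ri = Nat.card R := Nat.card_congr eR.toEquiv
  let ρ : I →* J := (r₀.comp I.subtype).codRestrict J hIJ
  have hρs : Function.Surjective ρ := by
    intro j
    have hjI : (j : G) ∈ I := by
      show r₀ j ∈ J
      rw [hr₀S j (hJS j.2)]
      exact j.2
    refine ⟨⟨j, hjI⟩, ?_⟩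
    apply Subtype.ext
    exact hr₀S j (hJS j.2)
  have hρker : ρ.ker = Ri := by
    ext x
    rw [MonoidHom.mem_ker]
    constructor
    · intro h
      have h1 : r₀ (x : G) = 1 := congrArg Subtype.val h
      have h2 := (hr₀ (x : G)).2
      rw [h1, inv_one, mul_one] at h2
      exact h2
    · intro h
      apply Subtype.ext
      exact hr₀R _ h
  have hidxRi : Ri.index = Nat.card J := by
    have h1 := Subgroup.index_ker ρ
    rw [hρker, MonoidHom.range_eq_top.2 hρs] at h1
    rw [h1]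
    exact Nat.card_congr Subgroup.topEquiv.toEquiv
  have hinvI : ∀ (g : I) (n : Ri), θi ⟨g * n * g⁻¹, (inferInstance : Ri.Normal).conj_mem n n.2 g⟩ = θi n := by
    intro g n
    show (θ : R → ℂ) _ = (θ : R → ℂ) _
    let x : R := ⟨(g : G) * (r₀ g)⁻¹, (hr₀ g).2⟩
    let j : J := ρ g
    have hj : (j : G) = r₀ g := rfl
    let m : R := ⟨(j : G) * (eR n : G) * (j : G)⁻¹, hRn.conj_mem _ (eR n).2 _⟩
    have h1 : eR ⟨g * n * g⁻¹, (inferInstance : Ri.Normal).conj_mem n n.2 g⟩ = x * m * x⁻¹ := by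
      apply Subtype.ext
      show ((g * n * g⁻¹ : I) : G) = (x : G) * ((j : G) * (eR n : G) * (j : G)⁻¹) * (x : G)⁻¹
      have : (eR n : G) = ((n : I) : G) := rfl
      rw [this, hj]
      simp only [x]
      simp [mul_assoc]
    rw [h1, hθcl m x]
    exact hθ2 j (eR n)
  have hcopI : Nat.Coprime (Nat.card Ri) Ri.index := by
    rw [hcardRi, hidxRi]
    exact hcopJ
  obtain ⟨χt, hχt, hχtext⟩ := CoprimeCount.exists_ext_of_coprime Ri hcopI hθi hinvI
  -- the product
  let βi : I → ℂ := fun g => (β : J → ℂ) (ρ g)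
  have hβi : IsIrrCharacter I βi := Basic.isIrrCharacter_comp_surjective β.2 ρ hρs
  have hρR : ∀ x : Ri, ρ (x : I) = 1 := by
    intro x
    have : (x : I) ∈ ρ.ker := by
      rw [hρker]
      exact x.2
    exact this
  have hψ : IsIrrCharacter I (βi * χt) := by
    have hone : (fun _ : Ri => (1 : ℂ)) * θi = θi := by
      funext x
      simp
    have hg := Gallagher.gallagher_bijOn Ri (φ := fun _ => 1) (ϑ := θi)
      Burnside2.isIrrCharacter_one (fun _ _ => rfl) hinvI (by rw [hone]; exact hθi) hχt hχtext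
    have hmem : βi ∈ {β' : I → ℂ | IsIrrCharacter I β' ∧
        classInner (indFun Ri (fun _ => 1)) β' ≠ 0} := by
      refine ⟨hβi, ?_⟩
      rw [Induced.frobenius_reciprocity Ri _ _ (Basic.isClassFunction_of_isCharacter
        (Basic.isCharacter_of_isIrrCharacter hβi))]
      have h5 : (fun n : Ri => βi n) = (β : J → ℂ) 1 • fun _ : Ri => (1 : ℂ) := by
        funext x
        show (β : J → ℂ) (ρ (x : I)) = (β : J → ℂ) 1 * 1
        rw [hρR x, mul_one]
      rw [h5, Ortho.classInner_smul_right, Ortho.classInner_irr_self Burnside2.isIrrCharacter_one,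
        mul_one]
      exact (map_ne_zero _).2 (Ortho.irr_apply_one_ne_zero β.2)
    exact (hg.mapsTo hmem).1
  -- the inertia group of `l`
  have hconj : ∀ (g : G) (n : V), l ⟨g * n * g⁻¹, hVn.conj_mem (n : G) n.2 g⟩ =
      l ⟨r₀ g * n * (r₀ g)⁻¹, hVn.conj_mem (n : G) n.2 _⟩ := by
    intro g n
    congr 1
    apply Subtype.ext
    show g * (n : G) * g⁻¹ = r₀ g * n * (r₀ g)⁻¹
    have hb := (hr₀ g).2
    have hn' : r₀ g * (n : G) * (r₀ g)⁻¹ ∈ V := hVn.conj_mem _ n.2 _
    have h2 := hcen _ hn' _ hb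
    have h3 : g = g * (r₀ g)⁻¹ * r₀ g := by group
    calc g * (n : G) * g⁻¹ = (g * (r₀ g)⁻¹) * (r₀ g * (n : G) * (r₀ g)⁻¹) * (g * (r₀ g)⁻¹)⁻¹ := by
          group
      _ = (r₀ g * (n : G) * (r₀ g)⁻¹) * (g * (r₀ g)⁻¹) * (g * (r₀ g)⁻¹)⁻¹ := by rw [← h2]
      _ = r₀ g * n * (r₀ g)⁻¹ := by group
  have hT : ∀ g : G, g ∈ I ↔ ∀ n : V, ϑ ⟨g * n * g⁻¹, hVn.conj_mem (n : G) n.2 g⟩ = ϑ n := by
    intro g
    constructor
    · intro hg n
      have h1 : l ⟨g * n * g⁻¹, hVn.conj_mem (n : G) n.2 g⟩ = l n := by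
        rw [hconj]
        exact (show r₀ g ∈ J from hg).2 n
      exact congrArg Units.val h1
    · intro h
      show r₀ g ∈ J
      refine ⟨(hr₀ g).1, fun n => ?_⟩
      rw [← hconj]
      exact Units.ext (h n)
  -- restriction to `V`
  have hVRi : ∀ v : V, ((⟨v, hVI v.2⟩ : I) : G) ∈ R := fun v => hVR v.2
  have hres : CliffordCorr.resT V I hVI (βi * χt) =
      ((β : J → ℂ) 1) • GlaubP.resC hVR (θ : R → ℂ) := by
    funext v
    show (β : J → ℂ) (ρ ⟨v, hVI v.2⟩) * χt ⟨v, hVI v.2⟩ = (β : J → ℂ) 1 * (θ : R → ℂ) ⟨v, hVR v.2⟩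
    have h1 := hρR ⟨⟨v, hVI v.2⟩, hVRi v⟩
    have h2 := hχtext ⟨⟨v, hVI v.2⟩, hVRi v⟩
    rw [show ρ ⟨v, hVI v.2⟩ = 1 from h1, show χt ⟨v, hVI v.2⟩ = θi ⟨⟨v, hVI v.2⟩, hVRi v⟩ from h2]
    rfl
  have hne : classInner (CliffordCorr.resT V I hVI (βi * χt)) ϑ ≠ 0 := by
    rw [hres, Ortho.classInner_smul_left]
    exact mul_ne_zero (Ortho.irr_apply_one_ne_zero β.2) hθ1
  have hχ := CliffordCorr.isIrr_indFun V ϑ I hVI hϑ hT hψ hne
  refine ⟨⟨_, hχ⟩, ?_⟩
  have hrange : r₀.range = S := by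
    apply le_antisymm
    · rintro _ ⟨g, rfl⟩
      exact (hr₀ g).1
    · intro m hm
      exact ⟨m, hr₀S m hm⟩
  have hidx : I.index = J.relIndex S := by
    rw [Subgroup.index_comap, hrange]
  have hdeg : charDegree (indFun I (βi * χt)) =
      J.relIndex S * (charDegree (β : J → ℂ) * r ^ (a' + 1)) := by
    apply Values.IsCharacter.charDegree_eq (Values.IsIrrCharacter.isCharacter hχ)
    rw [Induced.indFun_one I _, ← hidx]
    have h6 : (βi * χt) 1 = (β : J → ℂ) 1 * ((r ^ (a' + 1) : ℕ) : ℂ) := by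
      show (β : J → ℂ) (ρ 1) * χt 1 = _
      have h7 := hχtext 1
      have h8 : χt 1 = (θ : R → ℂ) 1 := by
        have h9 : ((1 : Ri) : I) = 1 := rfl
        rw [← h9, h7]
        show (θ : R → ℂ) (eR 1) = _
        rw [map_one]
      rw [map_one, h8, hd]
    rw [h6, ← Values.IsCharacter.charDegree_cast (Values.IsIrrCharacter.isCharacter β.2)]
    push_cast
    rfl
  show r * (J.relIndex S * charDegree (β : J → ℂ)) ∣ charDegree (indFun I (βi * χt))
  rw [hdeg]
  refine ⟨r ^ a', ?_⟩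
  rw [pow_succ]
  ring

end Cfsg.Agent.Lib.Palfy
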