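import Mathlib
import Cfsg.Agent.Lib.Palfy.Defs

/-!
# Spreads: counting vectors by their unique fixing Sylow subgroup
-/

set_option autoImplicit false

namespace Cfsg.Agent.Lib.Palfy

open Cfsg
open scoped commutatorElement

universe u v

private theorem spread_aux {r a e n : ℕ} (hr : 2 ≤ r) (he : 1 ≤ e) (hea : e < a)
    (h1 : r ^ a - 1 = n * (r ^ e - 1)) :
    ∃ m : ℤ, (n : ℤ) - 1 = (r : ℤ) ^ e * m ∧ ¬ (r : ℤ) ∣ m := by
  have h1a : 1 ≤ r ^ a := Nat.one_le_pow _ _ (by omega)
  have h1e : 1 ≤ r ^ e := Nat.one_le_pow _ _ (by omega)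
  have hz : ((r : ℤ) ^ a - 1) = (n : ℤ) * ((r : ℤ) ^ e - 1) := by
    have := congrArg (fun x : ℕ => (x : ℤ)) h1
    simp only [Nat.cast_sub h1a, Nat.cast_mul, Nat.cast_sub h1e, Nat.cast_pow, Nat.cast_one] at this
    exact this
  obtain ⟨c, rfl⟩ : ∃ c, a = e + (c + 1) := ⟨a - e - 1, by omega⟩
  have hm : (n : ℤ) - 1 = (r : ℤ) ^ e * ((n : ℤ) - (r : ℤ) ^ (c + 1)) := by
    rw [pow_add] at hz
    linear_combination hz
  refine ⟨(n : ℤ) - (r : ℤ) ^ (c + 1), hm, ?_⟩
  intro hdvd
  have hrn : (r : ℤ) ∣ (n : ℤ) := by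
    have h2 : (r : ℤ) ∣ (r : ℤ) ^ (c + 1) := dvd_pow_self _ (by omega)
    have := dvd_add hdvd h2
    simpa using this
  have hr1 : (r : ℤ) ∣ (r : ℤ) ^ e * ((n : ℤ) - (r : ℤ) ^ (c + 1)) :=
    (dvd_pow_self _ (by omega)).trans (dvd_mul_right _ _)
  have h3 : (r : ℤ) ∣ 1 := by
    have := dvd_sub hrn (hm ▸ hr1)
    simpa using this
  have h4 := Int.le_of_dvd (by norm_num) h3
  have h5 : (2 : ℤ) ≤ r := by exact_mod_cast hr
  omega

private theorem spread_aux2 {r e d : ℕ} {m m' : ℤ} (hlt : e < d)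
    (h : (r : ℤ) ^ e * m = (r : ℤ) ^ d * m') (hr : 2 ≤ r) (hm : ¬ (r : ℤ) ∣ m) : False := by
  obtain ⟨c, rfl⟩ : ∃ c, d = e + (c + 1) := ⟨d - e - 1, by omega⟩
  have h0 : (r : ℤ) ^ e ≠ 0 := pow_ne_zero _ (by
    have : (2 : ℤ) ≤ r := by exact_mod_cast hr
    omega)
  have h1 : m = (r : ℤ) ^ (c + 1) * m' := by
    apply mul_left_cancel₀ h0
    rw [h, pow_add]
    ring
  apply hm
  rw [h1]
  exact (dvd_pow_self _ (by omega)).trans (dvd_mul_right _ _)

private theorem card_ne_zero_aux {A : Type*} [Zero A] [Finite A] :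
    Nat.card {w : A // w ≠ 0} = Nat.card A - 1 := by
  classical
  have hone : Nat.card {w : A // w = 0} = 1 := by
    have : Fintype {w : A // w = 0} := Fintype.ofFinite _
    rw [Nat.card_eq_fintype_card, Fintype.card_eq_one_iff]
    exact ⟨⟨0, rfl⟩, fun w => Subtype.ext w.2⟩
  have hsum := Nat.card_congr (Equiv.sumCompl (fun w : A => w = 0))
  rw [Nat.card_sum, hone] at hsum
  have h2 : Nat.card {w : A // w ≠ 0} = Nat.card {w : A // ¬ w = 0} := rfl
  omega

theorem eq_of_spread {r a e w d n : ℕ} (hr : 2 ≤ r) (he : 1 ≤ e) (hea : e < a) (hd : 1 ≤ d)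
    (hdw : d < w) (h1 : r ^ a - 1 = n * (r ^ e - 1)) (h2 : r ^ w - 1 = n * (r ^ d - 1)) : a = w := by
  obtain ⟨m, hm1, hm2⟩ := spread_aux hr he hea h1
  obtain ⟨m', hm1', hm2'⟩ := spread_aux hr hd hdw h2
  have hed : e = d := by
    rcases lt_trichotomy e d with h | h | h
    · exact (spread_aux2 h (hm1.symm.trans hm1') hr hm2).elim
    · exact h
    · exact (spread_aux2 h (hm1'.symm.trans hm1) hr hm2').elim
  subst hed
  have h3 : r ^ a - 1 = r ^ w - 1 := h1.trans h2.symm
  have h4 : 1 ≤ r ^ a := Nat.one_le_pow _ _ (by omega)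
  have h5 : 1 ≤ r ^ w := Nat.one_le_pow _ _ (by omega)
  have h6 : r ^ a = r ^ w := by omega
  exact Nat.pow_right_injective hr h6

theorem spread_card {K : Type u} [Group K] [Finite K] {t : ℕ} {V : Type v} [AddCommGroup V]
    [Module (ZMod t) V] [Finite V] (ρ : Representation (ZMod t) K V) {x : ℕ} [Fact x.Prime]
    (hx : ∀ v : V, v ≠ 0 → ∃! X : Sylow x K, ∀ y ∈ (X : Subgroup K), ρ y v = v)
    (X : Sylow x K) :
    Nat.card (Sylow x K) * (Nat.card (fixSub ρ (X : Subgroup K)) - 1) = Nat.card V - 1 := by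
  classical
  have : Fintype V := Fintype.ofFinite V
  have : Fintype (Sylow x K) := Fintype.ofFinite _
  choose f hf hf' using hx
  -- the map from nonzero vectors to Sylow subgroups
  let F : {v : V // v ≠ 0} → Sylow x K := fun v => f v.1 v.2
  -- the fibre of `Y` has the size of `fixSub Y` minus one
  have hfib : ∀ Y : Sylow x K, Nat.card {v : {v : V // v ≠ 0} // F v = Y} =
      Nat.card (fixSub ρ (Y : Subgroup K)) - 1 := by
    intro Y
    have e : {v : {v : V // v ≠ 0} // F v = Y} ≃ {w : fixSub ρ (Y : Subgroup K) // w ≠ 0} :=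
      { toFun := fun v => ⟨⟨v.1.1, by
            intro y hy
            have := hf v.1.1 v.1.2 y
            rw [show f v.1.1 v.1.2 = Y from v.2] at this
            exact this hy⟩, fun h => v.1.2 (congrArg Subtype.val h)⟩
        invFun := fun w => ⟨⟨w.1.1, fun h => w.2 (Subtype.ext h)⟩, by
            symm
            exact hf' w.1.1 _ Y w.1.2⟩
        left_inv := fun v => rfl
        right_inv := fun w => rfl }
    rw [Nat.card_congr e]
    exact card_ne_zero_aux
  -- all fixed spaces have the same size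
  have hconj : ∀ Y : Sylow x K, Nat.card (fixSub ρ (Y : Subgroup K)) =
      Nat.card (fixSub ρ (X : Subgroup K)) := by
    intro Y
    obtain ⟨g, hg⟩ := MulAction.exists_smul_eq K X Y
    have e : fixSub ρ (X : Subgroup K) ≃ fixSub ρ (Y : Subgroup K) :=
      { toFun := fun w => ⟨ρ g w.1, by
            intro y hy
            rw [← hg] at hy
            rw [Sylow.coe_subgroup_smul, Subgroup.mem_pointwise_smul_iff_inv_smul_mem] at hy
            have h3 : (MulAut.conj g)⁻¹ • y = g⁻¹ * y * g := by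
              simp [MulAut.smul_def, MulAut.conj_inv_apply]
            rw [h3] at hy
            have h1 := w.2 _ hy
            have h2 : ρ y (ρ g w.1) = ρ g (ρ (g⁻¹ * y * g) w.1) := by
              rw [← Module.End.mul_apply, ← Module.End.mul_apply, ← map_mul, ← map_mul]
              congr 2
              group
            rw [h2, h1]⟩
        invFun := fun w => ⟨ρ g⁻¹ w.1, by
            intro y hy
            have hy' : MulAut.conj g • y ∈ (Y : Subgroup K) := by
              rw [← hg, Sylow.coe_subgroup_smul]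
              exact Subgroup.smul_mem_pointwise_smul _ _ _ hy
            have h1 := w.2 _ hy'
            have h3 : MulAut.conj g • y = g * y * g⁻¹ := by
              simp [MulAut.smul_def, MulAut.conj_apply]
            rw [h3] at h1
            have h2 : ρ y (ρ g⁻¹ w.1) = ρ g⁻¹ (ρ (g * y * g⁻¹) w.1) := by
              rw [← Module.End.mul_apply, ← Module.End.mul_apply, ← map_mul, ← map_mul]
              congr 2
              group
            rw [h2, h1]⟩
        left_inv := fun w => by
          apply Subtype.ext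
          change ρ g⁻¹ (ρ g w.1) = w.1
          rw [← Module.End.mul_apply, ← map_mul]
          simp
        right_inv := fun w => by
          apply Subtype.ext
          change ρ g (ρ g⁻¹ w.1) = w.1
          rw [← Module.End.mul_apply, ← map_mul]
          simp }
    exact (Nat.card_congr e).symm
  -- total count
  have htot : Nat.card {v : V // v ≠ 0} = Nat.card V - 1 := card_ne_zero_aux
  rw [← htot]
  have hsig := Nat.card_congr (Equiv.sigmaFiberEquiv F)
  rw [Nat.card_sigma] at hsig
  rw [← hsig]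
  rw [Finset.sum_congr rfl (fun Y _ => (hfib Y).trans (by rw [hconj Y]))]
  simp [Nat.card_eq_fintype_card]

end Cfsg.Agent.Lib.Palfy
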