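import Mathlib
import Cfsg.Agent.Lib.Palfy.Defs
import Cfsg.Agent.Lib.Palfy.HomRep
import Cfsg.Agent.Lib.Char.ItoMichler
import Cfsg.Agent.Lib.Char.Burnside2

set_option autoImplicit false

namespace Cfsg.Agent.Lib.Palfy

open Cfsg Cfsg.Agent.Lib.Char.ItoMichler Cfsg.Agent.Lib.Coprime.PSolvable

universe u

theorem sylow_of_degrees {G : Type u} [Group G] [Finite G] {x : ℕ} [Fact x.Prime] (M J : Subgroup G)
    [Group.IsSolvable M] (hJM : J ≤ M)
    (h : ∀ β : IrrCharacter J, ¬ x ∣ J.relIndex M * charDegree (β : J → ℂ)) :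
    ∃ X : Sylow x M, (∀ y ∈ (X : Subgroup M), (y : G) ∈ J) ∧
      (∀ y : M, (∃ k : ℕ, orderOf y = x ^ k) → (y : G) ∈ J → y ∈ (X : Subgroup M)) ∧
      IsMulCommutative (X : Subgroup M) := by
  classical
  have hx : x.Prime := Fact.out
  -- degrees prime to `x`
  have hD : DegPrime x J := fun β hd => h β (Dvd.dvd.mul_left hd _)
  -- solvable, hence p-solvable
  haveI hJs : Group.IsSolvable J := by
    have : J ≃* J.subgroupOf M := (Subgroup.subgroupOfEquivOfLe hJM).symm
    exact solvable_of_solvable_injective (f := (J.subgroupOf M).subtype.comp this.toMonoidHom)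
      ((Subgroup.subtype_injective _).comp this.injective)
  have hPS : IsPSolvable x J := isPSolvable_of_isSolvable hx hJs
  -- a Sylow subgroup of `J`, normal and abelian
  obtain ⟨S⟩ : Nonempty (Sylow x J) := inferInstance
  have hSp : IsPGroup x (S : Subgroup J) := S.isPGroup'
  have hSi : ¬ x ∣ (S : Subgroup J).index := S.not_dvd_index
  haveI hSn : (S : Subgroup J).Normal := normal_of_degPrime hx _ J rfl hPS hD _ hSp hSi
  have hSc : ∀ a b : (S : Subgroup J), a * b = b * a := mul_comm_of_degPrime hx hD hSp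
  -- a nontrivial irreducible `β` exists, so the index is prime to `x`
  obtain ⟨β⟩ : Nonempty (IrrCharacter J) := by
    cases nonempty_fintype J
    exact ⟨⟨_, Cfsg.Agent.Lib.Char.Burnside2.isIrrCharacter_one⟩⟩
  have hrel : ¬ x ∣ J.relIndex M := fun hd => h β (Dvd.dvd.mul_right hd _)
  set T : Subgroup G := (S : Subgroup J).map J.subtype with hT
  have hTJ : T ≤ J := by
    rintro _ ⟨a, -, rfl⟩
    exact a.2
  have hTM : T ≤ M := hTJ.trans hJM
  have hTrel : T.relIndex J = (S : Subgroup J).index := by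
    rw [hT, Subgroup.relIndex, Subgroup.subgroupOf]
    rw [Subgroup.comap_map_eq_self_of_injective (Subgroup.subtype_injective J)]
  have hidx : ¬ x ∣ (T.subgroupOf M).index := by
    change ¬ x ∣ T.relIndex M
    rw [← Subgroup.relIndex_mul_relIndex T J M hTJ hJM, hTrel]
    intro hd
    rcases (Nat.Prime.dvd_mul hx).mp hd with h1 | h1
    · exact hSi h1
    · exact hrel h1
  have hTp : IsPGroup x T := hSp.map J.subtype
  have hT0p : IsPGroup x (T.subgroupOf M) := hTp.comap_of_injective M.subtype (Subgroup.subtype_injective M)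
  refine ⟨hT0p.toSylow hidx, ?_, ?_, ?_⟩
  · intro y hy
    have hy' : y ∈ T.subgroupOf M := by simpa using hy
    exact hTJ (Subgroup.mem_subgroupOf.mp hy')
  · rintro y ⟨k, hk⟩ hyJ
    have hy' : y ∈ T.subgroupOf M := by
      rw [Subgroup.mem_subgroupOf]
      let y' : J := ⟨y, hyJ⟩
      have hord : orderOf y' = x ^ k := by
        rw [← hk]
        have h1 : orderOf (y' : G) = orderOf y' := Subgroup.orderOf_coe y'
        have h2 : orderOf ((y : M) : G) = orderOf y := Subgroup.orderOf_coe y
        rw [← h1, ← h2]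
      have hzp : IsPGroup x (Subgroup.zpowers y') := by
        refine IsPGroup.of_card (n := k) ?_
        rw [Nat.card_zpowers, hord]
      have hle : Subgroup.zpowers y' ≤ (S : Subgroup J) := le_of_isPGroup_of_normal hx hSp hSi hzp
      exact ⟨y', hle (Subgroup.mem_zpowers y'), rfl⟩
    simpa using hy'
  · refine ⟨⟨?_⟩⟩
    rintro ⟨a, ha⟩ ⟨b, hb⟩
    have ha' : a ∈ T.subgroupOf M := by simpa using ha
    have hb' : b ∈ T.subgroupOf M := by simpa using hb
    obtain ⟨a', ha1, ha2⟩ := Subgroup.mem_subgroupOf.mp ha'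
    obtain ⟨b', hb1, hb2⟩ := Subgroup.mem_subgroupOf.mp hb'
    have hc := hSc ⟨a', ha1⟩ ⟨b', hb1⟩
    have hc' : (a' : G) * b' = b' * a' := by
      have := congrArg (fun z : (S : Subgroup J) => ((z : J) : G)) hc
      simpa using this
    apply Subtype.ext
    apply Subtype.ext
    simp only [MulMemClass.coe_mul]
    rw [show (a : G) = a' from ha2.symm, show (b : G) = b' from hb2.symm]
    exact hc'

theorem sylFix_homRep {G : Type u} [Group G] [Finite G] {x : ℕ} [Fact x.Prime] (N M : Subgroup G)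
    [N.Normal] [Group.IsSolvable M] (t : ℕ) [Fact t.Prime]
    (h : ∀ w : HomW N t, w ≠ 0 → ∀ β : IrrCharacter (stabIn N M (homChar t w)),
      ¬ x ∣ (stabIn N M (homChar t w)).relIndex M *
        charDegree (β : stabIn N M (homChar t w) → ℂ)) :
    SylFix (homRep N M t) x := by
  intro w hw
  obtain ⟨X, h1, h2, -⟩ := sylow_of_degrees M (stabIn N M (homChar t w))
    (stabIn_le N M (homChar t w)) (h w hw)
  exact ⟨X, fun y hy => (homRep_fix_iff N M t y w).mpr (h1 y hy),
    fun y hy hfix => h2 y hy ((homRep_fix_iff N M t y w).mp hfix)⟩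

end Cfsg.Agent.Lib.Palfy
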