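import Mathlib
import Cfsg.Agent.Lib.Palfy.Defs
import Cfsg.Agent.Lib.Palfy.HomRep
import Cfsg.Agent.Lib.Palfy.CompDeg
import Cfsg.Agent.Lib.Palfy.Camina
import Cfsg.Agent.Lib.Palfy.Spread
import Cfsg.Agent.Lib.Palfy.SylOf
import Cfsg.Agent.Lib.Palfy.InvDeg
import Cfsg.Agent.Lib.Coprime.FrattiniAct
import Cfsg.Agent.Lib.Coprime.KGV
import Cfsg.Agent.Lib.Char.CliffordCorr
import Cfsg.Agent.Lib.Char.ItoMichler
import Cfsg.Agent.Lib.Char.Monomial
import Cfsg.Agent.Lib.Char.Burnside2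
import Cfsg.Agent.Lib.Blocks.HeightZero

/-!
# The case of a `q`-group acting trivially on `V = R'` (piece M1)
-/

set_option autoImplicit false
set_option linter.style.haveILetI false
set_option linter.unusedSectionVars false
set_option linter.deprecated false

namespace Cfsg.Agent.Lib.Palfy

open Cfsg
open scoped commutatorElement

universe u v

/-! ### Additive evaluation of functionals -/

section ev
variable {N : Type u} [Group N] {t : ℕ}

/-- Additive evaluation of a functional. -/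
def ev (w : HomW N t) (c : N) : ZMod t := Multiplicative.toAdd (Additive.toMul w c)

theorem ev_add (w w' : HomW N t) (c : N) : ev (w + w') c = ev w c + ev w' c := rfl

theorem ev_zero (c : N) : ev (0 : HomW N t) c = 0 := rfl

theorem ev_mul (w : HomW N t) (c d : N) : ev w (c * d) = ev w c + ev w d := by
  unfold ev
  rw [map_mul]
  rfl

theorem ev_one (w : HomW N t) : ev w (1 : N) = 0 := by
  unfold ev
  rw [map_one]
  rfl

theorem ev_inv (w : HomW N t) (c : N) : ev w c⁻¹ = - ev w c := by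
  have h := ev_mul w c c⁻¹
  rw [mul_inv_cancel, ev_one] at h
  exact (eq_neg_of_add_eq_zero_right h.symm)

theorem ev_sub (w w' : HomW N t) (c : N) : ev (w - w') c = ev w c - ev w' c := by
  have h : w - w' + w' = w := sub_add_cancel w w'
  have h2 := ev_add (w - w') w' c
  rw [h] at h2
  rw [h2]
  ring

theorem ev_mul_inv (w : HomW N t) (c d : N) : ev w (c * d⁻¹) = ev w c - ev w d := by
  rw [ev_mul, ev_inv]
  ring

theorem ev_ext {w w' : HomW N t} (h : ∀ c, ev w c = ev w' c) : w = w' := by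
  apply Additive.toMul.injective
  ext c
  exact h c

theorem ev_sum {ι : Type*} (s : Finset ι) (f : ι → HomW N t) (c : N) :
    ev (∑ i ∈ s, f i) c = ∑ i ∈ s, ev (f i) c := by
  classical
  induction s using Finset.induction_on with
  | empty => simp [ev_zero]
  | insert a s ha ih => rw [Finset.sum_insert ha, Finset.sum_insert ha, ev_add, ih]

end ev

/-! ### Generic group lemmas -/

section generic
variable {K : Type u} [Group K] [Finite K]

theorem exists_conj_le_of_not_dvd_index {x : ℕ} [Fact x.Prime] (X J : Subgroup K)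
    (hX : IsPGroup x X) (h : ¬ x ∣ J.index) : ∃ g : K, ∀ y ∈ X, g⁻¹ * y * g ∈ J := by
  have hcard : ¬ x ∣ Nat.card (K ⧸ J) := by
    rwa [Subgroup.index] at h
  obtain ⟨a, ha⟩ := hX.nonempty_fixed_point_of_prime_not_dvd_card (K ⧸ J) hcard
  obtain ⟨g, rfl⟩ := QuotientGroup.mk_surjective a
  refine ⟨g, fun y hy => ?_⟩
  have h1 := ha ⟨y, hy⟩
  have h2 : ((y * g : K) : K ⧸ J) = (g : K ⧸ J) := h1
  rw [QuotientGroup.eq] at h2
  have h3 : (y * g)⁻¹ * g ∈ J := h2
  have h4 := J.inv_mem h3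
  simpa [mul_assoc] using h4

theorem le_of_not_dvd_index_of_normal {x : ℕ} [Fact x.Prime] (X J : Subgroup K) [hn : X.Normal]
    (hX : IsPGroup x X) (h : ¬ x ∣ J.index) : X ≤ J := by
  obtain ⟨g, hg⟩ := exists_conj_le_of_not_dvd_index X J hX h
  intro y hy
  have h1 := hg (g * y * g⁻¹) (hn.conj_mem y hy g)
  simpa [mul_assoc] using h1

end generic

/-- Ito: the degree divides the index of an abelian normal subgroup. -/
theorem not_dvd_of_abelian_normal {G : Type u} [Group G] [Finite G] (A : Subgroup G) [A.Normal]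
    (hab : ∀ a ∈ A, ∀ b ∈ A, a * b = b * a) {x : ℕ} (hxi : ¬ x ∣ A.index) (χ : IrrCharacter G) :
    ¬ x ∣ charDegree (χ : G → ℂ) := by
  obtain ⟨e, he, hd⟩ := Cfsg.Agent.Lib.Coprime.KGV.exists_degree_dvd_index A hab χ.2
  have h2 : charDegree (χ : G → ℂ) = e :=
    Cfsg.Agent.Lib.Char.Values.IsCharacter.charDegree_eq
      (Cfsg.Agent.Lib.Char.Basic.isCharacter_of_isIrrCharacter χ.2) he
  rw [h2]
  exact fun h => hxi (h.trans hd)

/-! ### Stable kernels of the average -/

section avg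
variable {K : Type u} [Group K] {U : Type v} [AddCommGroup U] {r : ℕ} [Fact r.Prime]
  [Module (ZMod r) U] (ρ : Representation (ZMod r) K U) (Q : Subgroup K) [Fintype Q]

/-- The kernel of the sum over `Q`. -/
noncomputable def avgKer : Submodule (ZMod r) U := LinearMap.ker (∑ x : Q, ρ (x : K))

theorem mem_avgKer {w : U} : w ∈ avgKer ρ Q ↔ ∑ x : Q, ρ (x : K) w = 0 := by
  unfold avgKer
  rw [LinearMap.mem_ker, LinearMap.sum_apply]

theorem sub_mem_avgKer (x : K) (hx : x ∈ Q) (w : U) : ρ x w - w ∈ avgKer ρ Q := by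
  rw [mem_avgKer]
  simp only [map_sub]
  rw [Finset.sum_sub_distrib, sub_eq_zero]
  have : ∀ y : Q, ρ (y : K) (ρ x w) = ρ (((Equiv.mulRight (⟨x, hx⟩ : Q)) y : Q) : K) w := by
    intro y
    simp [map_mul]
  simp only [this]
  exact Equiv.sum_comp (Equiv.mulRight (⟨x, hx⟩ : Q)) (fun y : Q => ρ (y : K) w)

theorem avgKer_inv [hn : Q.Normal] (g : K) {w : U} (hw : w ∈ avgKer ρ Q) : ρ g w ∈ avgKer ρ Q := by
  rw [mem_avgKer] at hw ⊢
  let e : Q ≃ Q := (MulAut.conjNormal (g⁻¹ : K)).toEquiv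
  have h1 : ∀ y : Q, ρ (y : K) (ρ g w) = ρ g (ρ ((e y : Q) : K) w) := by
    intro y
    have h2 : ((e y : Q) : K) = g⁻¹ * y * g := by
      simp [e]
    rw [h2, ← Module.End.mul_apply, ← Module.End.mul_apply, ← map_mul, ← map_mul]
    congr 2
    group
  simp only [h1]
  rw [← map_sum, e.sum_comp (fun y : Q => ρ (y : K) w), hw, map_zero]

theorem eq_zero_of_fixed (hcop : (Nat.card Q).Coprime r) {w : U} (hw : w ∈ avgKer ρ Q)
    (h : ∀ x ∈ Q, ρ x w = w) : w = 0 := by
  rw [mem_avgKer] at hw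
  have h1 : ∑ x : Q, ρ (x : K) w = (Nat.card Q) • w := by
    rw [Finset.sum_congr rfl (fun (x : Q) _ => h (x : K) x.2), Finset.sum_const,
      Nat.card_eq_fintype_card]
    rfl
  rw [h1] at hw
  have h2 : (r : ℕ) • w = 0 := by
    have : ((r : ZMod r)) • w = 0 := by simp
    rwa [Nat.cast_smul_eq_nsmul] at this
  obtain ⟨a, b, hab⟩ : ∃ a b : ℤ, (Nat.card Q : ℤ) * a + (r : ℤ) * b = 1 := by
    have := Nat.isCoprime_iff_coprime.mpr hcop
    obtain ⟨a, b, hab⟩ := this
    exact ⟨a, b, by linarith⟩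
  have h3 : ((Nat.card Q : ℤ) * a + (r : ℤ) * b) • w = 0 := by
    rw [add_smul, mul_comm (Nat.card Q : ℤ), mul_comm (r : ℤ), mul_smul, mul_smul,
      natCast_zsmul, natCast_zsmul, hw, h2, smul_zero, smul_zero, add_zero]
  rwa [hab, one_smul] at h3

/-- The subrepresentation on the kernel of the average. -/
noncomputable def avgRep [Q.Normal] : Representation (ZMod r) K (avgKer ρ Q) where
  toFun g := (ρ g).restrict (fun w hw => avgKer_inv ρ Q g hw)
  map_one' := by
    ext w
    simp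
  map_mul' a b := by
    ext w
    simp

theorem avgRep_coe [Q.Normal] (g : K) (w : avgKer ρ Q) : ((avgRep ρ Q g w : avgKer ρ Q) : U) = ρ g w :=
  rfl

end avg

/-! ### Counting -/

section spread
variable {K : Type u} [Group K] [Finite K] {r : ℕ} [Fact r.Prime]

theorem existsUnique_of_sylFix {U : Type v} [AddCommGroup U] [Module (ZMod r) U]
    (ρ : Representation (ZMod r) K U) {x : ℕ} [Fact x.Prime] {v : U} (X : Sylow x K)
    (h1 : ∀ y ∈ (X : Subgroup K), ρ y v = v)
    (h2 : ∀ y : K, (∃ k : ℕ, orderOf y = x ^ k) → ρ y v = v → y ∈ (X : Subgroup K)) :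
    ∃! X : Sylow x K, ∀ y ∈ (X : Subgroup K), ρ y v = v := by
  refine ⟨X, h1, fun X' h' => ?_⟩
  have hle : (X' : Subgroup K) ≤ X := by
    intro y hy
    refine h2 y ?_ (h' y hy)
    obtain ⟨k, hk⟩ := IsPGroup.iff_orderOf.1 X'.isPGroup' ⟨y, hy⟩
    exact ⟨k, by rwa [Subgroup.orderOf_mk] at hk⟩
  exact Sylow.ext (X'.is_maximal' X.isPGroup' hle).symm

theorem card_eq_of_spread {U₁ U₂ : Type v} [AddCommGroup U₁] [AddCommGroup U₂]
    [Module (ZMod r) U₁] [Module (ZMod r) U₂] [Finite U₁] [Finite U₂] [Nontrivial U₁] [Nontrivial U₂]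
    (ρ₁ : Representation (ZMod r) K U₁) (ρ₂ : Representation (ZMod r) K U₂) {x : ℕ} [Fact x.Prime]
    (h₁ : ∀ v : U₁, v ≠ 0 → ∃! X : Sylow x K, ∀ y ∈ (X : Subgroup K), ρ₁ y v = v)
    (h₂ : ∀ v : U₂, v ≠ 0 → ∃! X : Sylow x K, ∀ y ∈ (X : Subgroup K), ρ₂ y v = v)
    (hn : 1 < Nat.card (Sylow x K)) : Nat.card U₁ = Nat.card U₂ := by
  have hr2 : 2 ≤ r := (Fact.out : r.Prime).two_le
  obtain ⟨X⟩ : Nonempty (Sylow x K) := inferInstance
  have s₁ := spread_card ρ₁ h₁ X
  have s₂ := spread_card ρ₂ h₂ X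
  have hfin₁ : Module.Finite (ZMod r) U₁ := Module.Finite.of_finite
  have hfin₂ : Module.Finite (ZMod r) U₂ := Module.Finite.of_finite
  have cU : ∀ (U : Type v) [AddCommGroup U] [Module (ZMod r) U] [Finite U],
      Nat.card U = r ^ Module.finrank (ZMod r) U := by
    intro U _ _ _
    have : Module.Finite (ZMod r) U := Module.Finite.of_finite
    rw [Module.natCard_eq_pow_finrank (K := ZMod r), Nat.card_zmod]
  rw [cU U₁, cU (fixSub ρ₁ (X : Subgroup K))] at s₁
  rw [cU U₂, cU (fixSub ρ₂ (X : Subgroup K))] at s₂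
  have hU₁ : 0 < Module.finrank (ZMod r) U₁ := Module.finrank_pos
  have hU₂ : 0 < Module.finrank (ZMod r) U₂ := Module.finrank_pos
  set a := Module.finrank (ZMod r) U₁
  set w := Module.finrank (ZMod r) U₂
  set e := Module.finrank (ZMod r) (fixSub ρ₁ (X : Subgroup K))
  set d := Module.finrank (ZMod r) (fixSub ρ₂ (X : Subgroup K))
  set n := Nat.card (Sylow x K)
  have key : ∀ a e : ℕ, 0 < a → n * (r ^ e - 1) = r ^ a - 1 → 1 ≤ e ∧ e < a := by
    intro a e ha h
    have h1 : 2 ≤ r ^ a := by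
      calc 2 ≤ r ^ 1 := by simpa using hr2
        _ ≤ r ^ a := Nat.pow_le_pow_right (by omega) ha
    have h2 : 0 < n * (r ^ e - 1) := by omega
    have h3 : 0 < r ^ e - 1 := Nat.pos_of_mul_pos_left h2 |> fun _ => by
      rcases Nat.eq_zero_or_pos (r ^ e - 1) with h0 | h0
      · rw [h0] at h2
        simp at h2
      · exact h0
    have he : 1 ≤ e := by
      rcases Nat.eq_zero_or_pos e with h0 | h0
      · rw [h0] at h3
        simp at h3
      · exact h0
    refine ⟨he, ?_⟩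
    have h4 : r ^ e - 1 < r ^ a - 1 := by
      rw [← h]
      nlinarith
    have h5 : r ^ e < r ^ a := by omega
    exact (Nat.pow_lt_pow_iff_right (by omega)).1 h5
  obtain ⟨he, hea⟩ := key a e hU₁ s₁
  obtain ⟨hd, hdw⟩ := key w d hU₂ s₂
  have := eq_of_spread hr2 he hea hd hdw s₁.symm s₂.symm
  rw [cU U₁, cU U₂]
  exact congrArg _ this

end spread

/-! ### Moved functionals -/

section moved
variable {G : Type u} [Group G] [Finite G] {r : ℕ} [Fact r.Prime] (R S : Subgroup G) [hRn : R.Normal]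

/-- A functional from a normal subgroup of index `r`. -/
theorem exists_functional {N : Type u} [Group N] (M : Subgroup N) [M.Normal] (hM : M.index = r)
    {c : N} (hc : c ∉ M) : ∃ w : HomW N r, ev w c ≠ 0 := by
  classical
  have hcard : Nat.card (N ⧸ M) = r := hM
  have hcyc : IsCyclic (N ⧸ M) := by
    apply isCyclic_of_prime_card (p := r)
    exact hcard
  let e0 := zmodCyclicMulEquiv hcyc
  have hfin : Finite (N ⧸ M) := Nat.finite_of_card_ne_zero (by rw [hcard]; exact (Fact.out : r.Prime).ne_zero)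
  rw [hcard] at e0
  let f : N →* Multiplicative (ZMod r) := e0.symm.toMonoidHom.comp (QuotientGroup.mk' M)
  refine ⟨Additive.ofMul f, ?_⟩
  intro h0
  have h1 : f c = 1 := by
    exact h0
  have h2 : e0.symm ((c : N ⧸ M)) = 1 := h1
  have h3 : ((c : N ⧸ M)) = 1 := by
    simpa using h2
  exact hc ((QuotientGroup.eq_one_iff c).1 h3)

theorem ev_homRep (m : S) (w : HomW R r) (c : R) :
    ev (homRep R S r m w) c = ev w (MulAut.conjNormal ((m : G)⁻¹) c) := by
  unfold ev
  rw [homRep_apply R S r m w c (hRn.conj_mem (c : G) c.2 (m : G)⁻¹)]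
  congr 2

theorem homRep_pow_fixed (y : S) (k : ℕ) {w : HomW R r} (h : homRep R S r y w = w) :
    homRep R S r (y ^ k) w = w := by
  induction k with
  | zero => simp
  | succ k ih =>
    rw [pow_succ, map_mul, Module.End.mul_apply, h, ih]

/-- An element of order prime to `r` moving `R` moves a functional on `R`. -/
theorem exists_moved (hr : IsPGroup r R) (y : S) (hy : (orderOf y).Coprime r) (b : G) (hb : b ∈ R)
    (h : (y : G) * b ≠ b * y) : ∃ w : HomW R r, homRep R S r y w ≠ w := by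
  by_contra hcon
  push Not at hcon
  have hall : Subgroup.zpowers (y : G) ≤ Subgroup.centralizer (R : Set G) := by
    apply Cfsg.Agent.Lib.Coprime.FrattiniAct.le_centralizer_of_frattini (p := r) hr
    · intro a _
      rw [Subgroup.mem_normalizer_iff]
      intro n
      constructor
      · intro hn
        exact hRn.conj_mem n hn a
      · intro hn
        have := hRn.conj_mem _ hn a⁻¹
        simpa [mul_assoc] using this
    · rw [Nat.card_zpowers, Subgroup.orderOf_coe]
      exact hy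
    · intro t ht a ha
      obtain ⟨k, rfl⟩ := (mem_powers_iff_mem_zpowers.2 ha)
      by_contra hnot
      have hnot' : (⟨t, ht⟩ : R)⁻¹ * MulAut.conjNormal (((y : G) ^ k)) ⟨t, ht⟩ ∉ frattini R := by
        intro hmem
        apply hnot
        refine ⟨_, hmem, ?_⟩
        simp only [Subgroup.coe_subtype, Subgroup.coe_mul, Subgroup.coe_inv,
          MulAut.conjNormal_apply]
      have hRp : IsPGroup r R := hr
      obtain ⟨M, hMn, hMi, -, hMc⟩ :=
        Cfsg.Agent.Lib.PGroup.Basic.exists_normal_index_notMem_of_notMem_frattini hRp hnot'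
      obtain ⟨w, hw⟩ := exists_functional (r := r) M hMi hMc
      apply hw
      rw [ev_mul, ev_inv]
      have h1 : homRep R S r (y ^ k)⁻¹ w = w := by
        have h2 : ∀ z : S, homRep R S r z w = w → homRep R S r z⁻¹ w = w := by
          intro z hz
          have h3 : homRep R S r z⁻¹ (homRep R S r z w) = w := by
            rw [← Module.End.mul_apply, ← map_mul]
            simp
          rwa [hz] at h3
        exact h2 _ (homRep_pow_fixed R S y k (hcon w))
      have h2 := ev_homRep R S (y ^ k)⁻¹ w ⟨t, ht⟩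
      rw [h1] at h2
      rw [h2]
      have h3 : MulAut.conjNormal ((((y ^ k)⁻¹ : S) : G)⁻¹) (⟨t, ht⟩ : R) =
          MulAut.conjNormal (((y : G) ^ k)) ⟨t, ht⟩ := by
        congr 2
        simp
      rw [h3]
      ring
  apply h
  have := hall (Subgroup.mem_zpowers (y : G)) b hb
  exact this.symm

end moved

/-! ### Sylow subgroups in `S` -/

section main
variable {G : Type u} [Group G] [Finite G] {r : ℕ} [Fact r.Prime] (R S V : Subgroup G)
  [hRn : R.Normal] [hVn : V.Normal]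

theorem exists_decomp (hc : R.IsComplement' S) (g : G) : ∃ a ∈ R, ∃ s ∈ S, g = a * s := by
  obtain ⟨⟨a, s⟩, h⟩ := hc.2 g
  exact ⟨a, a.2, s, s.2, h.symm⟩

theorem exists_decomp' (hc : R.IsComplement' S) (g : G) : ∃ s ∈ S, ∃ a ∈ R, g = s * a := by
  obtain ⟨a, ha, s, hs, h⟩ := exists_decomp R S hc g
  refine ⟨s, hs, s⁻¹ * a * s, ?_, ?_⟩
  · have := hRn.conj_mem a ha s⁻¹
    simpa using this
  · rw [h]
    group

theorem exists_ne_zero_homW (hV : V ≠ ⊥) (hab : IsMulCommutative V) (hexp : ∀ v ∈ V, v ^ r = 1) :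
    ∃ w : HomW V r, w ≠ 0 := by
  obtain ⟨n, hn⟩ := (Subgroup.ne_bot_iff_exists_ne_one).1 hV
  by_contra hcon
  push Not at hcon
  apply hn
  apply homW_sep V r hab hexp n
  intro w
  rw [hcon w]
  rfl

theorem isXelt_of_mem {K : Type u} [Group K] {x : ℕ} [Fact x.Prime] (X : Sylow x K) {y : K}
    (hy : y ∈ (X : Subgroup K)) : ∃ k : ℕ, orderOf y = x ^ k := by
  obtain ⟨k, hk⟩ := IsPGroup.iff_orderOf.1 X.isPGroup' ⟨y, hy⟩
  exact ⟨k, by rwa [Subgroup.orderOf_mk] at hk⟩

theorem orderOf_conj' {K : Type u} [Group K] (g y : K) : orderOf (g * y * g⁻¹) = orderOf y := by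
  have := orderOf_injective (MulAut.conj g).toMonoidHom (MulAut.conj g).injective y
  simpa using this

/-- A normal abelian Sylow subgroup of `S` which cannot centralize `R`. -/
theorem normal_sylow_of_central [Group.IsSolvable S] {x : ℕ} [Fact x.Prime] (hxr : x ≠ r)
    (hc : R.IsComplement' S) (hr : IsPGroup r R) (hV : V ≠ ⊥) (hVab : IsMulCommutative V)
    (hexp : ∀ v ∈ V, v ^ r = 1)
    (hdeg : ∀ w : HomW V r, w ≠ 0 → ∀ β : IrrCharacter (stabIn V S (homChar r w)),
      ¬ x ∣ (stabIn V S (homChar r w)).relIndex S * charDegree (β : stabIn V S (homChar r w) → ℂ))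
    (htriv : ∀ y ∈ S, (∃ k : ℕ, orderOf y = x ^ k) → ∀ v ∈ V, y * v = v * y)
    (hχ : ∃ χ : IrrCharacter G, x ∣ charDegree (χ : G → ℂ)) :
    ∃ X : Sylow x S, (X : Subgroup S).Normal ∧
      (∀ y : S, (∃ k : ℕ, orderOf y = x ^ k) → y ∈ (X : Subgroup S)) ∧
      IsMulCommutative (X : Subgroup S) ∧ ∃ y ∈ (X : Subgroup S), ∃ b ∈ R, (y : G) * b ≠ b * y := by
  obtain ⟨w₀, hw₀⟩ := exists_ne_zero_homW V hV hVab hexp
  obtain ⟨X, -, h2, h3⟩ := sylow_of_degrees S (stabIn V S (homChar r w₀)) (stabIn_le V S _) (hdeg w₀ hw₀)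
  have hall : ∀ y : S, (∃ k : ℕ, orderOf y = x ^ k) → y ∈ (X : Subgroup S) := by
    intro y hy
    apply h2 y hy
    refine ⟨y.2, fun n => ?_⟩
    congr 1
    apply Subtype.ext
    have : (y : G) * n = n * y := htriv y y.2 (by rwa [Subgroup.orderOf_coe]) n n.2
    change (y : G) * n * (y : G)⁻¹ = n
    rw [this]
    group
  have hnorm : (X : Subgroup S).Normal := by
    refine ⟨fun y hy g => hall _ ?_⟩
    obtain ⟨k, hk⟩ := isXelt_of_mem X hy
    exact ⟨k, by rw [orderOf_conj', hk]⟩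
  refine ⟨X, hnorm, hall, h3, ?_⟩
  by_contra hcon
  push Not at hcon
  obtain ⟨χ, hxχ⟩ := hχ
  let X' : Subgroup G := (X : Subgroup S).map S.subtype
  have hX'n : X'.Normal := by
    refine ⟨?_⟩
    rintro _ ⟨y, hy, rfl⟩ g
    obtain ⟨a, ha, s, hs, rfl⟩ := exists_decomp R S hc g
    have h1 : a * s * (y : G) * (a * s)⁻¹ = s * y * s⁻¹ := by
      have h4 := hnorm.conj_mem y hy ⟨s, hs⟩
      have h5 := hcon _ h4 a ha
      have h6 : (((⟨s, hs⟩ : S) * y * (⟨s, hs⟩ : S)⁻¹ : S) : G) = s * y * s⁻¹ := by simp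
      rw [h6] at h5
      calc a * s * (y : G) * (a * s)⁻¹ = a * (s * y * s⁻¹) * a⁻¹ := by group
        _ = (s * y * s⁻¹) * a * a⁻¹ := by rw [← h5]
        _ = s * y * s⁻¹ := by group
    have h7 : a * s * (y : G) * (a * s)⁻¹ = S.subtype ((⟨s, hs⟩ : S) * y * (⟨s, hs⟩ : S)⁻¹) := by
      rw [h1]
      simp
    simp only [Subgroup.subtype_apply]
    rw [h7]
    exact ⟨_, hnorm.conj_mem y hy ⟨s, hs⟩, rfl⟩
  have hX'ab : ∀ a ∈ X', ∀ b ∈ X', a * b = b * a := by
    rintro _ ⟨a, ha, rfl⟩ _ ⟨b, hb, rfl⟩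
    have := h3.is_comm.comm ⟨a, ha⟩ ⟨b, hb⟩
    have h8 := congrArg (fun z : (X : Subgroup S) => ((z : S) : G)) this
    simpa using h8
  have hxi : ¬ x ∣ X'.index := by
    have h1 : X'.index = (X : Subgroup S).index * S.index := Subgroup.index_map_subtype _
    have h2 : S.index = Nat.card R := hc.index_eq_card
    rw [h1, h2]
    have h3 : ¬ x ∣ (X : Subgroup S).index := X.not_dvd_index
    intro h4
    rcases (Nat.Prime.dvd_mul Fact.out).1 h4 with h5 | h5
    · exact h3 h5
    · obtain ⟨k, hk⟩ := IsPGroup.iff_card.1 hr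
      rw [hk] at h5
      have h6 := (Nat.prime_dvd_prime_iff_eq Fact.out Fact.out).1 (Nat.Prime.dvd_of_dvd_pow Fact.out h5)
      exact hxr h6
  exact not_dvd_of_abelian_normal X' hX'ab hxi χ hxχ

/-- Elements of the normal `q`-subgroup fix all nonlinear characters of `R`. -/
theorem fixes_nonlinear {q : ℕ} [Fact q.Prime] (hc : R.IsComplement' S) (hr : IsPGroup r R)
    (Q : Subgroup S) [hQn : Q.Normal] (hQ : IsPGroup q Q)
    (H : ∀ χ : IrrCharacter G, ¬ q * r ∣ charDegree (χ : G → ℂ))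
    (θ : IrrCharacter R) (hθ : charDegree (θ : R → ℂ) ≠ 1) (x₁ : S) (hx₁ : x₁ ∈ Q) (c : R) :
    (θ : R → ℂ) (MulAut.conjNormal (x₁ : G) c) = (θ : R → ℂ) c := by
  classical
  cases nonempty_fintype G
  letI : Fintype R := Fintype.ofFinite _
  let T : Subgroup G := Cfsg.Agent.Lib.Char.Monomial.inertiaOf R (θ : R → ℂ)
  letI : Fintype T := Fintype.ofFinite _
  have hT : ∀ g : G, g ∈ T ↔ ∀ n : R,
      (θ : R → ℂ) ⟨g * n * g⁻¹, hRn.conj_mem (n : G) n.2 g⟩ = (θ : R → ℂ) n :=
    fun g => Cfsg.Agent.Lib.Char.Monomial.mem_inertiaOf R _ g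
  have hcl := Cfsg.Agent.Lib.Char.Basic.isClassFunction_of_isCharacter
    (Cfsg.Agent.Lib.Char.Basic.isCharacter_of_isIrrCharacter θ.2)
  have hRT : R ≤ T := by
    intro h hh
    refine (hT h).mpr (fun m => ?_)
    exact hcl m ⟨h, hh⟩
  obtain ⟨χ, hχ, hne⟩ := Cfsg.Agent.Lib.Char.ItoMichler.exists_irr_over R θ.2
  have hdeg := Cfsg.Agent.Lib.Char.CliffordCorr.apply_one_eq R (θ : R → ℂ) T θ.2 hT hχ hne
  obtain ⟨e, he⟩ := Cfsg.Agent.Lib.Char.Ortho.exists_nat_classInner_of_isCharacter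
    (Cfsg.Agent.Lib.Char.Basic.isCharacter_restrict
      (Cfsg.Agent.Lib.Char.Basic.isCharacter_of_isIrrCharacter hχ) R)
    (Cfsg.Agent.Lib.Char.Basic.isCharacter_of_isIrrCharacter θ.2)
  obtain ⟨d, hd⟩ := Cfsg.Agent.Lib.Char.Basic.exists_degree_of_isCharacter
    (Cfsg.Agent.Lib.Char.Basic.isCharacter_of_isIrrCharacter θ.2)
  have hθd : charDegree (θ : R → ℂ) = d :=
    Cfsg.Agent.Lib.Char.Values.IsCharacter.charDegree_eq
      (Cfsg.Agent.Lib.Char.Basic.isCharacter_of_isIrrCharacter θ.2) hd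
  rw [he, hd] at hdeg
  have hcd : charDegree χ = e * (T.index * d) := by
    apply Cfsg.Agent.Lib.Char.Values.IsCharacter.charDegree_eq
      (Cfsg.Agent.Lib.Char.Basic.isCharacter_of_isIrrCharacter hχ)
    rw [hdeg]
    push_cast
    ring
  have hrd : r ∣ d := by
    have h1 := Cfsg.Agent.Lib.Blocks.HeightZero.charDegree_dvd_card θ.2
    rw [hθd] at h1 hθ
    obtain ⟨k, hk⟩ := IsPGroup.iff_card.1 hr
    rw [hk] at h1
    obtain ⟨j, -, hj⟩ := (Nat.dvd_prime_pow Fact.out).1 h1
    rcases Nat.eq_zero_or_pos j with h0 | h0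
    · rw [h0, pow_zero] at hj
      exact (hθ hj).elim
    · rw [hj]
      exact dvd_pow_self r (by omega)
  have hTi : ¬ q ∣ T.index := by
    intro h
    apply H ⟨χ, hχ⟩
    change q * r ∣ charDegree χ
    rw [hcd]
    exact Dvd.dvd.mul_left (mul_dvd_mul h hrd) _
  let QG : Subgroup G := Q.map S.subtype
  have hQG : IsPGroup q QG := hQ.map S.subtype
  obtain ⟨g, hg⟩ := exists_conj_le_of_not_dvd_index QG T hQG hTi
  obtain ⟨s, hs, a, ha, rfl⟩ := exists_decomp' R S hc g
  have hx₁T : (x₁ : G) ∈ T := by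
    have h1 : (⟨s, hs⟩ : S) * x₁ * (⟨s, hs⟩ : S)⁻¹ ∈ Q := hQn.conj_mem x₁ hx₁ ⟨s, hs⟩
    have h2 := hg (s * x₁ * s⁻¹) ⟨_, h1, by simp⟩
    have h3 : (s * a)⁻¹ * (s * x₁ * s⁻¹) * (s * a) = a⁻¹ * x₁ * a := by group
    rw [h3] at h2
    have h4 := T.mul_mem (T.mul_mem (hRT ha) h2) (T.inv_mem (hRT ha))
    have h5 : a * (a⁻¹ * x₁ * a) * a⁻¹ = x₁ := by group
    rwa [h5] at h4
  have := (hT x₁).1 hx₁T c
  rw [← this]
  congr 1

/-- The application of Camina's lemma. -/
theorem comm_onto_of_moved {q : ℕ} [Fact q.Prime] (hc : R.IsComplement' S) (hr : IsPGroup r R)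
    (Q : Subgroup S) [hQn : Q.Normal] (hQ : IsPGroup q Q)
    (H : ∀ χ : IrrCharacter G, ¬ q * r ∣ charDegree (χ : G → ℂ))
    (x₁ : S) (hx₁ : x₁ ∈ Q) (y : R)
    (hy : (MulAut.conjNormal (x₁ : G) y) * y⁻¹ ∉ commutator R) :
    ∀ v ∈ commutator R, ∃ u : R, ⁅u, y⁆ = v :=
  camina_of_fixing_nonlinear (MulAut.conjNormal (x₁ : G))
    (fun θ hθ c => fixes_nonlinear R S hc hr Q hQ H θ hθ x₁ hx₁ c) y hy

end main

/-! ### Class two computations -/

section classTwo
variable {G : Type u} [Group G] {r : ℕ} (R V : Subgroup G) [hRn : R.Normal]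

theorem comm_mul_left_eq {a b c : G} (h : ⁅b, c⁆ * a = a * ⁅b, c⁆) : ⁅a * b, c⁆ = ⁅b, c⁆ * ⁅a, c⁆ := by
  have h1 : ⁅a * b, c⁆ = a * ⁅b, c⁆ * (c * a⁻¹ * c⁻¹) := by
    simp only [commutatorElement_def]
    group
  rw [h1, ← h, commutatorElement_def a c]
  group

theorem comm_mul_right_eq {a b c : G} (h : ⁅a, c⁆ * b = b * ⁅a, c⁆) : ⁅a, b * c⁆ = ⁅a, b⁆ * ⁅a, c⁆ := by
  have h1 : ⁅a, b * c⁆ = ⁅a, b⁆ * (b * ⁅a, c⁆ * b⁻¹) := by
    simp only [commutatorElement_def]
    group
  rw [h1, ← h]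
  group

variable (hcomm : ⁅R, R⁆ = V)

/-- The commutator as an element of `V`. -/
def cm (c d : R) : V := ⟨⁅(c : G), (d : G)⁆, hcomm ▸ Subgroup.commutator_mem_commutator c.2 d.2⟩

theorem cm_coe (c d : R) : ((cm R V hcomm c d : V) : G) = ⁅(c : G), (d : G)⁆ := rfl

theorem cm_self (c : R) : cm R V hcomm c c = 1 := by
  apply Subtype.ext
  simp [cm_coe]

variable (hcen : ∀ v ∈ V, ∀ x ∈ R, v * x = x * v)
include hcen

theorem ev_cm_mul_left (μ : HomW V r) (c c' d : R) :
    ev μ (cm R V hcomm (c * c') d) = ev μ (cm R V hcomm c d) + ev μ (cm R V hcomm c' d) := by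
  have h : cm R V hcomm (c * c') d = cm R V hcomm c' d * cm R V hcomm c d := by
    apply Subtype.ext
    simp only [Subgroup.coe_mul, cm_coe]
    exact comm_mul_left_eq (hcen _ (cm R V hcomm c' d).2 _ c.2)
  rw [h, ev_mul, add_comm]

theorem ev_cm_mul_right (μ : HomW V r) (c d d' : R) :
    ev μ (cm R V hcomm c (d * d')) = ev μ (cm R V hcomm c d) + ev μ (cm R V hcomm c d') := by
  have h : cm R V hcomm c (d * d') = cm R V hcomm c d * cm R V hcomm c d' := by
    apply Subtype.ext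
    simp only [Subgroup.coe_mul, cm_coe]
    exact comm_mul_right_eq (hcen _ (cm R V hcomm c d').2 _ d.2)
  rw [h, ev_mul]

theorem ev_cm_one_right (μ : HomW V r) (c : R) : ev μ (cm R V hcomm c 1) = 0 := by
  have h : cm R V hcomm c 1 = 1 := by
    apply Subtype.ext
    simp [cm_coe]
  rw [h, ev_one]

theorem ev_cm_one_left (μ : HomW V r) (c : R) : ev μ (cm R V hcomm 1 c) = 0 := by
  have h : cm R V hcomm 1 c = 1 := by
    apply Subtype.ext
    simp [cm_coe]
  rw [h, ev_one]

theorem ev_cm_mul_inv_right (μ : HomW V r) (c d d' : R) :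
    ev μ (cm R V hcomm c (d * d'⁻¹)) = ev μ (cm R V hcomm c d) - ev μ (cm R V hcomm c d') := by
  rw [ev_cm_mul_right R V hcomm hcen]
  have h := ev_cm_mul_right R V hcomm hcen μ c d' d'⁻¹
  rw [mul_inv_cancel, ev_cm_one_right R V hcomm hcen] at h
  have h2 : ev μ (cm R V hcomm c d'⁻¹) = - ev μ (cm R V hcomm c d') :=
    (eq_neg_of_add_eq_zero_right h.symm)
  rw [h2]
  ring

/-- The functional `c ↦ μ ⁅c, y⁆`. -/
def psi (μ : HomW V r) (y : R) : HomW R r :=
  Additive.ofMul
    { toFun := fun c => Additive.toMul μ (cm R V hcomm c y)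
      map_one' := by
        apply Multiplicative.toAdd.injective
        exact ev_cm_one_left R V hcomm hcen μ y
      map_mul' := fun c c' => by
        apply Multiplicative.toAdd.injective
        exact ev_cm_mul_left R V hcomm hcen μ c c' y }

theorem ev_psi (μ : HomW V r) (y c : R) :
    ev (psi R V hcomm hcen μ y) c = ev μ (cm R V hcomm c y) := rfl

end classTwo

/-! ### The final contradiction -/

section final
variable {G : Type u} [Group G] [Finite G] {r : ℕ} [Fact r.Prime] (R S V : Subgroup G)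
  [hRn : R.Normal] [hVn : V.Normal]

theorem eq_zero_of_coprime_nsmul {U : Type v} [AddCommGroup U] [Module (ZMod r) U] {k : ℕ}
    (hk : k.Coprime r) {u : U} (h : k • u = 0) : u = 0 := by
  have h2 : (r : ℕ) • u = 0 := by
    have : ((r : ZMod r)) • u = 0 := by simp
    rwa [Nat.cast_smul_eq_nsmul] at this
  obtain ⟨a, b, hab⟩ : ∃ a b : ℤ, (k : ℤ) * a + (r : ℤ) * b = 1 := by
    have := Nat.isCoprime_iff_coprime.mpr hk
    obtain ⟨a, b, hab⟩ := this
    exact ⟨a, b, by linarith⟩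
  have h3 : ((k : ℤ) * a + (r : ℤ) * b) • u = 0 := by
    rw [add_smul, mul_comm (k : ℤ), mul_comm (r : ℤ), mul_smul, mul_smul,
      natCast_zsmul, natCast_zsmul, h, h2, smul_zero, smul_zero, add_zero]
  rwa [hab, one_smul] at h3

theorem ev_eq_zero_of_mem_commutator {N : Type u} [Group N] (w : HomW N r) {z : N}
    (hz : z ∈ commutator N) : ev w z = 0 := by
  have h := Abelianization.commutator_subset_ker (Additive.toMul w) hz
  have h2 : Additive.toMul w z = 1 := h
  unfold ev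
  rw [h2]
  rfl

theorem homW_finite (N : Type u) [Group N] [Finite N] (t : ℕ) [Fact t.Prime] : Finite (HomW N t) := by
  have : Finite (N →* Multiplicative (ZMod t)) :=
    Finite.of_injective (fun f => (f : N → Multiplicative (ZMod t))) DFunLike.coe_injective
  exact Finite.of_equiv _ Additive.ofMul

/-- The contradiction from `|W₂| ≤ |Hom(V, F_r)|`. -/
theorem false_of_card_le {q : ℕ} [Fact q.Prime] (hc : R.IsComplement' S) (hr : IsPGroup r R)
    (hScop : (Nat.card S).Coprime r) (hVR : V ≤ R)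
    (hcen : ∀ v ∈ V, ∀ x ∈ R, v * x = x * v) (hcomm : ⁅R, R⁆ = V)
    (Q : Subgroup S) [hQn : Q.Normal] [Fintype Q] (hQ : IsPGroup q Q)
    (hQcen : ∀ x ∈ Q, ∀ v ∈ V, ((x : S) : G) * v = v * (x : S))
    (H : ∀ χ : IrrCharacter G, ¬ q * r ∣ charDegree (χ : G → ℂ))
    (x : S) (hx : x ∈ Q) (w' : HomW R r) (hw' : homRep R S r x w' ≠ w')
    (hcard : Nat.card (avgKer (homRep R S r) Q) ≤ Nat.card (HomW V r)) : False := by
  classical
  letI := homW_finite R r
  letI := homW_finite V r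
  set ρ := homRep R S r with hρ
  have hxcop : (orderOf x).Coprime r := Nat.Coprime.coprime_dvd_left (orderOf_dvd_natCard x) hScop
  -- the vectors `u = (x - 1) w'` and `(x - 1) u`
  set u : HomW R r := ρ x w' - w' with hu
  have hu0 : u ≠ 0 := sub_ne_zero.2 hw'
  have hTu : ρ x u - u ≠ 0 := by
    intro h0
    have hfix : ρ x u = u := sub_eq_zero.1 h0
    have hpow : ∀ k : ℕ, ρ (x ^ k) w' = w' + k • u := by
      intro k
      induction k with
      | zero => simp
      | succ k ih =>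
        rw [pow_succ', map_mul, Module.End.mul_apply, ih, map_add, map_nsmul, hfix, add_smul, one_smul]
        have : ρ x w' = w' + u := by rw [hu]; abel
        rw [this]
        abel
    have h1 := hpow (orderOf x)
    rw [pow_orderOf_eq_one, map_one, Module.End.one_apply] at h1
    have h2 : orderOf x • u = 0 := by
      have := h1.symm
      simpa using this
    exact hu0 (eq_zero_of_coprime_nsmul hxcop h2)
  obtain ⟨b, hb⟩ : ∃ b : R, ev (ρ x u - u) b ≠ 0 := by
    by_contra hcon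
    push Not at hcon
    exact hTu (ev_ext (fun c => by rw [hcon c]; rfl))
  -- the element `y`
  let α : MulAut R := MulAut.conjNormal ((x : G)⁻¹)
  have hevρ : ∀ (w : HomW R r) (c : R), ev (ρ x w) c = ev w (α c) := fun w c => ev_homRep R S x w c
  let y : R := α b * b⁻¹
  have hevTu : ev (ρ x u - u) b = ev u y := by
    rw [ev_sub, hevρ, ev_mul_inv]
  have hevu : ev u y = ev w' (α y * y⁻¹) := by
    rw [ev_mul_inv w' (α y) y, hu, ev_sub, hevρ]
  have huy : ev u y ≠ 0 := by rwa [hevTu] at hb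
  have hcomm' : (α y * y⁻¹) ∉ commutator R := by
    intro hmem
    apply huy
    rw [hevu]
    exact ev_eq_zero_of_mem_commutator w' hmem
  have hxinv : x⁻¹ ∈ Q := Q.inv_mem hx
  have honto := comm_onto_of_moved R S hc hr Q hQ H x⁻¹ hxinv y hcomm'
  -- the map `Ψ`
  have hpsi : ∀ μ : HomW V r, psi R V hcomm hcen μ y ∈ avgKer ρ Q := by
    intro μ
    rw [mem_avgKer]
    apply ev_ext
    intro c
    rw [ev_sum]
    have hterm : ∀ x' : Q, ev (ρ (x' : S) (psi R V hcomm hcen μ y)) c =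
        ev μ (cm R V hcomm c (MulAut.conjNormal (((x' * ⟨x⁻¹, hxinv⟩ : Q) : S) : G) b)) -
          ev μ (cm R V hcomm c (MulAut.conjNormal (((x' : Q) : S) : G) b)) := by
      intro x'
      have h1 : ev (ρ (x' : S) (psi R V hcomm hcen μ y)) c =
          ev μ (cm R V hcomm (MulAut.conjNormal ((((x' : Q) : S) : G)⁻¹) c) y) := by
        rw [hρ, ev_homRep, ev_psi]
      have h2 : cm R V hcomm (MulAut.conjNormal ((((x' : Q) : S) : G)⁻¹) c) y =
          cm R V hcomm c (MulAut.conjNormal (((x' : Q) : S) : G) y) := by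
        apply Subtype.ext
        simp only [cm_coe, MulAut.conjNormal_apply]
        set g : G := (((x' : Q) : S) : G)
        have hcentral := hQcen x' x'.2 ⁅(c : G), g * (y : G) * g⁻¹⁆ (by
          rw [← hcomm]
          exact Subgroup.commutator_mem_commutator c.2 (hRn.conj_mem _ y.2 g))
        have h3 : ⁅g⁻¹ * (c : G) * g⁻¹⁻¹, (y : G)⁆ = g⁻¹ * ⁅(c : G), g * (y : G) * g⁻¹⁆ * g := by
          simp only [commutatorElement_def]
          group
        change g * _ = _ * g at hcentral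
        rw [h3, mul_assoc, ← hcentral]
        group
      have h4 : (MulAut.conjNormal (((x' : Q) : S) : G) y) =
          (MulAut.conjNormal (((x' * ⟨x⁻¹, hxinv⟩ : Q) : S) : G) b) *
            (MulAut.conjNormal (((x' : Q) : S) : G) b)⁻¹ := by
        apply Subtype.ext
        simp only [y, α, MulAut.conjNormal_apply, InvMemClass.coe_inv, MulMemClass.coe_mul]
        group
      rw [h1, h2, h4, ev_cm_mul_inv_right R V hcomm hcen]
    rw [Finset.sum_congr rfl (fun x' _ => hterm x'), Finset.sum_sub_distrib, ev_zero, sub_eq_zero]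
    · exact Equiv.sum_comp (Equiv.mulRight (⟨x⁻¹, hxinv⟩ : Q))
        (fun x' : Q => ev μ (cm R V hcomm c (MulAut.conjNormal (((x' : Q) : S) : G) b)))
  let Ψ : HomW V r → avgKer ρ Q := fun μ => ⟨psi R V hcomm hcen μ y, hpsi μ⟩
  have hinj : Function.Injective Ψ := by
    intro μ μ' h
    apply ev_ext
    intro v
    have hvc : (⟨(v : G), hVR v.2⟩ : R) ∈ commutator R := by
      have h1 : (v : G) ∈ (commutator R).map R.subtype := by
        rw [Subgroup.map_subtype_commutator, hcomm]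
        exact v.2
      obtain ⟨z, hz, hzv⟩ := h1
      have : z = ⟨(v : G), hVR v.2⟩ := Subtype.ext hzv
      rwa [← this]
    obtain ⟨c, hc'⟩ := honto _ hvc
    have hv : cm R V hcomm c y = v := by
      apply Subtype.ext
      have h9 : ((⁅c, y⁆ : R) : G) = v := congrArg (fun z : R => (z : G)) hc'
      exact h9
    have h2 : ev (psi R V hcomm hcen μ y) c = ev (psi R V hcomm hcen μ' y) c := by
      have := congrArg Subtype.val h
      exact congrFun (congrArg (fun z => ev z) this) c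
    rw [ev_psi, ev_psi, hv] at h2
    exact h2
  have hbij := hinj.bijective_of_nat_card_le hcard
  obtain ⟨μ, hμ⟩ := hbij.2 ⟨u, sub_mem_avgKer ρ Q (x : S) hx w'⟩
  apply huy
  have h5 : psi R V hcomm hcen μ y = u := congrArg Subtype.val hμ
  rw [← h5, ev_psi, cm_self, ev_one]

/-- An irreducible character exists. -/
theorem exists_irr {K : Type u} [Group K] [Finite K] : Nonempty (IrrCharacter K) :=
  ⟨⟨fun _ => 1, Cfsg.Agent.Lib.Char.Burnside2.isIrrCharacter_one⟩⟩

theorem dvd_relIndex_of_moved {x : ℕ} [Fact x.Prime] (J : Subgroup G) (X : Subgroup S) [X.Normal]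
    (hX : IsPGroup x X) (y : S) (hy : y ∈ X) (hyJ : (y : G) ∉ J) : x ∣ J.relIndex S := by
  by_contra hcon
  have h1 : ¬ x ∣ (J.subgroupOf S).index := hcon
  have h2 := le_of_not_dvd_index_of_normal X (J.subgroupOf S) hX h1
  exact hyJ (Subgroup.mem_subgroupOf.1 (h2 hy))

theorem exists_moved_both {U : Type v} [AddCommGroup U] (f g : U →+ U) {a b : U} (ha : f a ≠ a)
    (hb : g b ≠ b) : ∃ w : U, f w ≠ w ∧ g w ≠ w := by
  by_cases h1 : g a ≠ a
  · exact ⟨a, ha, h1⟩
  by_cases h2 : f b ≠ b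
  · exact ⟨b, h2, hb⟩
  push Not at h1 h2
  refine ⟨a + b, ?_, ?_⟩
  · rw [map_add, h2]
    intro h
    exact ha (add_right_cancel h)
  · rw [map_add, h1]
    intro h
    exact hb (add_left_cancel h)

end final

theorem false_of_q_trivial {G : Type u} [Group G] [Finite G] [Group.IsSolvable G] {p q r : ℕ}
    [Fact p.Prime] [Fact q.Prime] [Fact r.Prime] (hpq : p ≠ q) (hqr : q ≠ r) (hpr : p ≠ r)
    (R S V : Subgroup G) [hRn : R.Normal] [hVn : V.Normal] (hc : R.IsComplement' S) (hr : IsPGroup r R)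
    (hcop : Nat.Coprime (Nat.card R) (Nat.card S)) (hVR : V ≤ R) (hcen : ∀ v ∈ V, ∀ x ∈ R, v * x = x * v)
    (hcomm : ⁅R, R⁆ = V) (hV : V ≠ ⊥) (hexp : ∀ v ∈ V, v ^ r = 1)
    (hmin : ∀ U : Subgroup G, U ≤ V → (∀ m ∈ S, ∀ u ∈ U, m * u * m⁻¹ ∈ U) → U = ⊥ ∨ U = V)
    (hp : ∃ χ : IrrCharacter G, p ∣ charDegree (χ : G → ℂ))
    (hq : ∃ χ : IrrCharacter G, q ∣ charDegree (χ : G → ℂ))
    (H : NoTwo G p q r)
    (hQtriv : ∀ y ∈ S, (∃ k : ℕ, orderOf y = q ^ k) → ∀ v ∈ V, y * v = v * y) : False := by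
  classical
  have hVab : IsMulCommutative V := ⟨⟨fun a b => Subtype.ext (hcen a a.2 b (hVR b.2))⟩⟩
  haveI : Group.IsSolvable S := inferInstance
  letI := homW_finite R r
  letI := homW_finite V r
  have hVc : V ≤ ⁅R, R⁆ := hcomm.ge
  have hc2 : ⁅R, R⁆ ≤ V := hcomm.le
  -- coprimality of `|S|` and `r`
  have hScop : (Nat.card S).Coprime r := by
    have hRnt : r ∣ Nat.card R := by
      obtain ⟨n, hn⟩ := (Subgroup.ne_bot_iff_exists_ne_one).1 hV
      have h1 : Nontrivial R := ⟨⟨⟨n, hVR n.2⟩, 1, fun h => hn (Subtype.ext (congrArg (fun z : R => (z : G)) h))⟩⟩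
      obtain ⟨k, hk⟩ := IsPGroup.iff_card.1 hr
      have hk0 : k ≠ 0 := by
        rintro rfl
        have : Nat.card R = 1 := by simpa using hk
        exact (Finite.one_lt_card (α := R)).ne' this
      rw [hk]
      exact dvd_pow_self r hk0
    exact (Nat.Coprime.coprime_dvd_left hRnt hcop).symm
  have hRcop : ∀ {x k : ℕ}, x.Prime → x ≠ r → (x ^ k).Coprime r := by
    intro x k hx hxr
    exact Nat.Coprime.pow_left k ((Nat.coprime_primes hx Fact.out).2 hxr)
  -- step 1 : degree conditions over `V`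
  have hdeg : ∀ (x : ℕ) (_ : ∀ χ : IrrCharacter G, ¬ x * r ∣ charDegree (χ : G → ℂ)) (w : HomW V r),
      w ≠ 0 → ∀ β : IrrCharacter (stabIn V S (homChar r w)),
      ¬ x ∣ (stabIn V S (homChar r w)).relIndex S * charDegree (β : stabIn V S (homChar r w) → ℂ) := by
    intro x hx w hw β hdvd
    obtain ⟨χ, hχ⟩ := exists_irr_over_inv R S V hc hr hcop hVR hcen hVc hc2 (homChar r w)
      (homChar_ne r w hw) β
    apply hx χ
    refine dvd_trans ?_ hχ
    rw [mul_comm x r]
    exact mul_dvd_mul_left r hdvd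
  have hdegp := hdeg p (fun χ => (H χ).2.2)
  have hdegq := hdeg q (fun χ => (H χ).2.1)
  obtain ⟨Q, hQn, hQall, hQab, yq, hyq, bq, hbq, hmq⟩ :=
    normal_sylow_of_central R S V hqr hc hr hV hVab hexp hdegq hQtriv hq
  have hyqcop : (orderOf yq).Coprime r := by
    obtain ⟨k, hk⟩ := isXelt_of_mem Q hyq
    rw [hk]
    exact hRcop Fact.out hqr
  obtain ⟨wq, hwq⟩ := exists_moved R S hr yq hyqcop bq hbq hmq
  by_cases hPtriv : ∀ y ∈ S, (∃ k : ℕ, orderOf y = p ^ k) → ∀ v ∈ V, y * v = v * y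
  · -- both act trivially on `V`
    obtain ⟨P, hPn, hPall, hPab, yp, hyp, bp, hbp, hmp⟩ :=
      normal_sylow_of_central R S V hpr hc hr hV hVab hexp hdegp hPtriv hp
    have hypcop : (orderOf yp).Coprime r := by
      obtain ⟨k, hk⟩ := isXelt_of_mem P hyp
      rw [hk]
      exact hRcop Fact.out hpr
    obtain ⟨wp, hwp⟩ := exists_moved R S hr yp hypcop bp hbp hmp
    obtain ⟨w, hw1, hw2⟩ := exists_moved_both
      (homRep R S r yp).toAddMonoidHom (homRep R S r yq).toAddMonoidHom (a := wp) (b := wq) hwp hwq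
    have hw1' : homRep R S r yp w ≠ w := hw1
    have hw2' : homRep R S r yq w ≠ w := hw2
    rw [Ne, homRep_fix_iff] at hw1' hw2'
    have h1 := dvd_relIndex_of_moved S (stabIn R S (homChar r w)) (P : Subgroup S) P.isPGroup' yp hyp hw1'
    have h2 := dvd_relIndex_of_moved S (stabIn R S (homChar r w)) (Q : Subgroup S) Q.isPGroup' yq hyq hw2'
    obtain ⟨β⟩ := exists_irr (K := stabIn R S (homChar r w))
    obtain ⟨χ, hχ⟩ := exists_irr_degree_of_complement R S hc (homChar r w) β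
    apply (H χ).1
    rw [hχ]
    exact Dvd.dvd.mul_right (Nat.Coprime.mul_dvd_of_dvd_of_dvd
      ((Nat.coprime_primes Fact.out Fact.out).2 hpq) h1 h2) _
  · push Not at hPtriv
    obtain ⟨y₀, hy₀S, hy₀p, v₀, hv₀, hne⟩ := hPtriv
    letI : Fintype (Q : Subgroup S) := Fintype.ofFinite _
    set ρ := homRep R S r with hρ
    -- nontriviality
    have hW₂ne : ρ yq wq - wq ≠ 0 := sub_ne_zero.2 hwq
    let u₀ : avgKer ρ (Q : Subgroup S) := ⟨ρ yq wq - wq, sub_mem_avgKer ρ _ yq hyq wq⟩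
    haveI hnt₂ : Nontrivial (avgKer ρ (Q : Subgroup S)) :=
      ⟨⟨u₀, 0, fun h => hW₂ne (congrArg Subtype.val h)⟩⟩
    obtain ⟨w₀, hw₀⟩ := exists_ne_zero_homW V hV hVab hexp
    haveI hnt₁ : Nontrivial (HomW V r) := ⟨⟨w₀, 0, hw₀⟩⟩
    have hQcard : (Nat.card (Q : Subgroup S)).Coprime r := by
      obtain ⟨k, hk⟩ := IsPGroup.iff_card.1 Q.isPGroup'
      rw [hk]
      exact hRcop Fact.out hqr
    -- unique Sylow subgroups on `W₂`
    have hU₂ : ∀ v : avgKer ρ (Q : Subgroup S), v ≠ 0 →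
        ∃! X : Sylow p S, ∀ y ∈ (X : Subgroup S), avgRep ρ (Q : Subgroup S) y v = v := by
      rintro ⟨w, hw⟩ hv
      have hw0 : w ≠ 0 := fun h => hv (Subtype.ext h)
      have hmov : ∃ x ∈ (Q : Subgroup S), ρ x w ≠ w := by
        by_contra hcon
        push Not at hcon
        exact hw0 (eq_zero_of_fixed ρ _ hQcard hw hcon)
      obtain ⟨x, hx, hxw⟩ := hmov
      rw [Ne, hρ, homRep_fix_iff] at hxw
      have hqdvd := dvd_relIndex_of_moved S (stabIn R S (homChar r w)) (Q : Subgroup S) Q.isPGroup' x hx hxw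
      have hβ : ∀ β : IrrCharacter (stabIn R S (homChar r w)),
          ¬ p ∣ (stabIn R S (homChar r w)).relIndex S *
            charDegree (β : stabIn R S (homChar r w) → ℂ) := by
        intro β hdvd
        obtain ⟨χ, hχ⟩ := exists_irr_degree_of_complement R S hc (homChar r w) β
        apply (H χ).1
        rw [hχ]
        exact Nat.Coprime.mul_dvd_of_dvd_of_dvd
          ((Nat.coprime_primes Fact.out Fact.out).2 hpq) hdvd (Dvd.dvd.mul_right hqdvd _)
      obtain ⟨X, h1, h2, -⟩ := sylow_of_degrees S _ (stabIn_le R S _) hβ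
      refine existsUnique_of_sylFix (avgRep ρ (Q : Subgroup S)) X ?_ ?_
      · intro y hy
        apply Subtype.ext
        exact (homRep_fix_iff R S r y w).2 (h1 y hy)
      · intro y hy hfix
        exact h2 y hy ((homRep_fix_iff R S r y w).1 (congrArg Subtype.val hfix))
    have hU₁ : ∀ v : HomW V r, v ≠ 0 →
        ∃! X : Sylow p S, ∀ y ∈ (X : Subgroup S), homRep V S r y v = v := by
      intro v hv
      obtain ⟨X, h1, h2⟩ := sylFix_homRep V S r hdegp v hv
      exact existsUnique_of_sylFix (homRep V S r) X h1 h2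
    -- more than one Sylow subgroup
    have hnp : 1 < Nat.card (Sylow p S) := by
      by_contra hcon
      have hpos : 0 < Nat.card (Sylow p S) := Nat.card_pos
      have h1 : Nat.card (Sylow p S) = 1 := by omega
      have hsub : Subsingleton (Sylow p S) := (Nat.card_eq_one_iff_unique.1 h1).1
      let y₀' : S := ⟨y₀, hy₀S⟩
      have hzp : IsPGroup p (Subgroup.zpowers y₀') := by
        obtain ⟨k, hk⟩ := hy₀p
        apply IsPGroup.of_card (n := k)
        rw [Nat.card_zpowers, ← hk]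
        exact (Subgroup.orderOf_mk _ _)
      obtain ⟨X, hX⟩ := hzp.exists_le_sylow
      have hy₀X : y₀' ∈ (X : Subgroup S) := hX (Subgroup.mem_zpowers y₀')
      have hfix : ∀ w : HomW V r, homRep V S r y₀' w = w := by
        intro w
        by_cases hw : w = 0
        · rw [hw, map_zero]
        obtain ⟨X', hX', -⟩ := hU₁ w hw
        rw [Subsingleton.elim X' X] at hX'
        exact hX' y₀' hy₀X
      apply hne
      let vv : V := ⟨v₀, hv₀⟩
      have h2 := homW_sep V r hVab hexp ((MulAut.conjNormal ((y₀' : G)⁻¹) vv) * vv⁻¹) (by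
        intro w
        apply Multiplicative.toAdd.injective
        change ev w _ = 0
        rw [ev_mul_inv]
        have h3 := ev_homRep V S y₀' w vv
        rw [hfix w] at h3
        rw [← h3]
        ring)
      have h3 : (MulAut.conjNormal ((y₀' : G)⁻¹) vv) = vv := mul_inv_eq_one.1 h2
      have h4 := congrArg Subtype.val h3
      rw [MulAut.conjNormal_apply] at h4
      have h5 : y₀⁻¹ * v₀ * y₀⁻¹⁻¹ = v₀ := h4
      rw [inv_inv] at h5
      calc y₀ * v₀ = y₀ * (y₀⁻¹ * v₀ * y₀) := by rw [h5]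
        _ = v₀ * y₀ := by group
    have hcardeq := card_eq_of_spread (avgRep ρ (Q : Subgroup S)) (homRep V S r) hU₂ hU₁ hnp
    have hQcen : ∀ x ∈ (Q : Subgroup S), ∀ v ∈ V, ((x : S) : G) * v = v * (x : S) := by
      intro x hx v hv
      exact hQtriv x x.2 (by
        obtain ⟨k, hk⟩ := isXelt_of_mem Q hx
        exact ⟨k, by rw [Subgroup.orderOf_coe, hk]⟩) v hv
    exact false_of_card_le R S V hc hr hScop hVR hcen hcomm (Q : Subgroup S) Q.isPGroup'
      hQcen (fun χ => (H χ).2.1) yq hyq wq hwq hcardeq.le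

end Cfsg.Agent.Lib.Palfy
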