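import Mathlib
import Cfsg.Agent.Lib.Palfy.Defs
import Cfsg.Agent.Lib.Char.ItoMichler
import Cfsg.Agent.Lib.Char.CliffordCorr
import Cfsg.Agent.Lib.Char.LinearChars
import Cfsg.Agent.Lib.Char.PDerived
import Cfsg.Agent.Lib.Char.Values

/-!
# A degree divisible by `p q` from an abelian normal subgroup (piece A)
-/

set_option autoImplicit false
set_option linter.style.haveILetI false
set_option linter.unusedSectionVars false
set_option linter.deprecated false

namespace Cfsg.Agent.Lib.Palfy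

open Cfsg Cfsg.Agent.Lib.Char
open scoped commutatorElement

universe u

private theorem mem_of_pow_of_not_dvd_index {K : Type u} [Group K] [Finite K] (T : Subgroup K)
    [T.Normal] {p : ℕ} (hp : p.Prime) {y : K} {k : ℕ} (hy : y ^ (p ^ k) = 1)
    (hnd : ¬ p ∣ T.index) : y ∈ T := by
  have hc : Nat.Coprime (p ^ k) T.index := Nat.Coprime.pow_left k ((Nat.Prime.coprime_iff_not_dvd hp).2 hnd)
  have h1 : y ^ T.index ∈ T := Subgroup.pow_index_mem T y
  have h2 := Int.gcd_eq_gcd_ab ((p ^ k : ℕ) : ℤ) (T.index : ℤ)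
  have h3 : Int.gcd ((p ^ k : ℕ) : ℤ) (T.index : ℤ) = 1 := by
    rw [Int.gcd_natCast_natCast]; exact hc
  rw [h3] at h2
  have h4 : y = (y ^ (p ^ k)) ^ (Int.gcdA ((p ^ k : ℕ) : ℤ) (T.index : ℤ)) *
      (y ^ T.index) ^ (Int.gcdB ((p ^ k : ℕ) : ℤ) (T.index : ℤ)) := by
    rw [← zpow_natCast y (p ^ k), ← zpow_natCast y T.index, ← zpow_mul, ← zpow_mul, ← zpow_add,
      ← h2]
    simp
  rw [h4, hy, one_zpow, one_mul]
  exact T.zpow_mem h1 _

theorem exists_degree_of_abelian_normal {K : Type u} [Group K] [Finite K] {p q : ℕ} [Fact p.Prime]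
    [Fact q.Prime] (hpq : p ≠ q) (A : Subgroup K) [hN : A.Normal] (hA : IsMulCommutative A)
    (hcomm : ∀ g h : K, ∀ a ∈ A, ⁅g, h⁆ * a = a * ⁅g, h⁆) (P : Sylow p K) (Q : Sylow q K)
    (y₁ y₂ a₁ a₂ : K) (hy₁ : y₁ ∈ (P : Subgroup K)) (hy₂ : y₂ ∈ (Q : Subgroup K)) (ha₁ : a₁ ∈ A)
    (ha₂ : a₂ ∈ A) (h₁ : y₁ * a₁ ≠ a₁ * y₁) (h₂ : y₂ * a₂ ≠ a₂ * y₂) :
    ∃ χ : IrrCharacter K, p * q ∣ charDegree (χ : K → ℂ) := by
  classical
  cases nonempty_fintype K
  -- linear characters of `A` separate the points of `A`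
  let Fx : K → (A →* ℂˣ) → Prop := fun y μ =>
    ∀ n : A, μ ⟨y * n * y⁻¹, hN.conj_mem n n.2 y⟩ = μ n
  have hbot : ∀ z : A, z ≠ 1 → z ∉ commutator A := by
    intro z hz hmem
    have hle : commutator A ≤ ⊥ := by
      rw [commutator_def, Subgroup.commutator_le]
      intro g₁ _ g₂ _
      rw [Subgroup.mem_bot, commutatorElement_eq_one_iff_commute]
      exact hA.is_comm.comm g₁ g₂
    exact hz (Subgroup.mem_bot.1 (hle hmem))
  have hsep : ∀ (y a : K), a ∈ A → y * a ≠ a * y → ∃ μ : A →* ℂˣ, ¬ Fx y μ := by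
    intro y a ha hya
    let b : A := ⟨a, ha⟩
    let c : A := ⟨y * a * y⁻¹, hN.conj_mem a ha y⟩
    have hz : c * b⁻¹ ≠ 1 := by
      intro h
      have h1 : c = b := mul_inv_eq_one.1 h
      have h2 : y * a * y⁻¹ = a := congrArg Subtype.val h1
      apply hya
      calc y * a = y * a * y⁻¹ * y := by group
        _ = a * y := by rw [h2]
    obtain ⟨μ, hμ⟩ := PDerived.exists_lin_ne_one (hbot _ hz)
    refine ⟨μ, fun hf => hμ ?_⟩
    rw [map_mul, map_inv, mul_inv_eq_one]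
    exact hf b
  obtain ⟨μ₁, hμ₁⟩ := hsep y₁ a₁ ha₁ h₁
  obtain ⟨μ₂, hμ₂⟩ := hsep y₂ a₂ ha₂ h₂
  have hboth : ∃ μ : A →* ℂˣ, ¬ Fx y₁ μ ∧ ¬ Fx y₂ μ := by
    by_cases h : Fx y₂ μ₁
    · by_cases h' : Fx y₁ μ₂
      · refine ⟨μ₁ * μ₂, ?_, ?_⟩
        · intro hh
          apply hμ₁
          intro n
          have h3 := hh n
          have h4 := h' n
          simp only [MonoidHom.mul_apply] at h3
          rw [h4] at h3
          exact mul_right_cancel h3
        · intro hh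
          apply hμ₂
          intro n
          have h3 := hh n
          have h4 := h n
          simp only [MonoidHom.mul_apply] at h3
          rw [h4] at h3
          exact mul_left_cancel h3
      · exact ⟨μ₂, h', hμ₂⟩
    · exact ⟨μ₁, hμ₁, h⟩
  obtain ⟨μ, hm₁, hm₂⟩ := hboth
  let T : Subgroup K := stabIn A ⊤ μ
  have hTmem : ∀ g : K, g ∈ T ↔ Fx g μ := fun g =>
    ⟨fun h => h.2, fun h => ⟨Subgroup.mem_top g, h⟩⟩
  have hcT : ∀ g h : K, ⁅g, h⁆ ∈ T := by
    intro g h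
    rw [hTmem]
    intro n
    congr 1
    apply Subtype.ext
    show ⁅g, h⁆ * (n : K) * ⁅g, h⁆⁻¹ = n
    rw [hcomm g h n n.2]
    group
  have hTn : T.Normal := by
    refine ⟨fun t ht g => ?_⟩
    have h1 : g * t * g⁻¹ = ⁅g, t⁆ * t := by
      rw [commutatorElement_def]
      group
    rw [h1]
    exact T.mul_mem (hcT g t) ht
  have hdvd : ∀ {r : ℕ} [Fact r.Prime] (R : Sylow r K) (y : K), y ∈ (R : Subgroup K) → ¬ Fx y μ →
      r ∣ T.index := by
    intro r _ R y hy hF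
    by_contra hnd
    obtain ⟨k, hk⟩ := R.isPGroup' ⟨y, hy⟩
    have hk' : y ^ (r ^ k) = 1 := by
      have := congrArg Subtype.val hk
      simpa using this
    exact hF ((hTmem y).1 (mem_of_pow_of_not_dvd_index T (Fact.out : r.Prime) hk' hnd))
  have hp : p ∣ T.index := hdvd P y₁ hy₁ hm₁
  have hq : q ∣ T.index := hdvd Q y₂ hy₂ hm₂
  have hpqd : p * q ∣ T.index :=
    Nat.Coprime.mul_dvd_of_dvd_of_dvd
      ((Nat.coprime_primes Fact.out Fact.out).2 hpq) hp hq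
  -- the character
  letI : Fintype A := Fintype.ofFinite _
  let ϑ : A → ℂ := fun n => ((μ n : ℂˣ) : ℂ)
  have hϑ : IsIrrCharacter A ϑ := LinearChars.isIrr_of_hom μ
  obtain ⟨χ, hχ, hne⟩ := ItoMichler.exists_irr_over A hϑ
  have hT : ∀ g : K, g ∈ T ↔ ∀ n : A, ϑ ⟨g * n * g⁻¹, hN.conj_mem (n : K) n.2 g⟩ = ϑ n := by
    intro g
    rw [hTmem]
    exact ⟨fun h n => congrArg Units.val (h n), fun h n => Units.ext (h n)⟩
  have h1 := CliffordCorr.apply_one_eq A ϑ T hϑ hT hχ hne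
  have hϑ1 : ϑ 1 = 1 := by simp [ϑ]
  obtain ⟨e, he⟩ := Ortho.exists_nat_classInner_of_isCharacter
    (Basic.isCharacter_restrict (Basic.isCharacter_of_isIrrCharacter hχ) A)
    (Basic.isCharacter_of_isIrrCharacter hϑ)
  refine ⟨⟨χ, hχ⟩, ?_⟩
  have hdeg : charDegree χ = e * T.index := by
    apply Values.IsCharacter.charDegree_eq (Values.IsIrrCharacter.isCharacter hχ)
    rw [h1, hϑ1, show classInner (fun n : A => χ n) ϑ = (e : ℂ) from he]
    push_cast
    ring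
  show p * q ∣ charDegree χ
  rw [hdeg]
  exact Dvd.dvd.mul_left hpqd e

end Cfsg.Agent.Lib.Palfy
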