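import Mathlib
import Cfsg.Agent.Lib.Palfy.Defs

/-!
# Class two groups with cyclic commutator: the index of the centre

`card_quot_center_le_sq`: if the generator of the commutators acts fixed point freely, then coset
representatives of the centre act linearly independently, so `|D : Z(D)| ≤ (dim U)²`.
`isSquare_card_quot_center`: `|D : Z(D)|` is a square.
-/

set_option autoImplicit false

namespace Cfsg.Agent.Lib.Palfy

open Cfsg
open scoped commutatorElement

universe u v

section Square

variable {D : Type u} [Group D]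

private theorem comm_mul_aux {a b y : D} (hb : ⁅b, y⁆ ∈ Subgroup.center D) :
    ⁅a * b, y⁆ = ⁅a, y⁆ * ⁅b, y⁆ := by
  have h1 : b * y * b⁻¹ = ⁅b, y⁆ * y := by
    simp [commutatorElement_def, mul_assoc]
  have h2 : ∀ x : D, x * ⁅b, y⁆ = ⁅b, y⁆ * x := fun x => (Subgroup.mem_center_iff.1 hb x)
  rw [commutatorElement_def a y]
  have h3 : ⁅a * b, y⁆ = a * (b * y * b⁻¹) * a⁻¹ * y⁻¹ := by
    rw [commutatorElement_def]; group
  rw [h3, h1, ← mul_assoc a, h2 a, h2 (a * y * a⁻¹ * y⁻¹)]
  group

private theorem relIndex_centralizer_aux [Finite D] (z : D) (hzc : z ∈ Subgroup.center D)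
    (hz : (orderOf z).Prime) (hcomm : ∀ u x : D, ⁅u, x⁆ ∈ Subgroup.zpowers z) (H : Subgroup D)
    (y k : D) (hk : k ∈ H) (hne : k * y ≠ y * k) :
    (H ⊓ Subgroup.centralizer {y}).relIndex H = orderOf z := by
  have hcen : ∀ a : D, ⁅a, y⁆ ∈ Subgroup.center D := fun a =>
    (Subgroup.zpowers_le.2 hzc) (hcomm a y)
  let f : H →* Subgroup.zpowers z := MonoidHom.mk' (fun g => ⟨⁅(g : D), y⁆, hcomm _ _⟩) (by
    intro a b
    apply Subtype.ext
    exact comm_mul_aux (hcen _))
  have hker : (Subgroup.centralizer {y}).subgroupOf H = f.ker := by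
    ext g
    rw [Subgroup.mem_subgroupOf, MonoidHom.mem_ker, Subgroup.mem_centralizer_singleton_iff]
    constructor
    · intro h
      apply Subtype.ext
      change ⁅(g : D), y⁆ = 1
      rw [commutatorElement_eq_one_iff_mul_comm]
      exact h
    · intro h
      have h1 : ⁅(g : D), y⁆ = 1 := congrArg Subtype.val h
      rw [commutatorElement_eq_one_iff_mul_comm] at h1
      exact h1
  have : Fact (Nat.card (Subgroup.zpowers z)).Prime := ⟨by rwa [Nat.card_zpowers]⟩
  have hrange : f.range = ⊤ := by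
    rcases Subgroup.eq_bot_or_eq_top_of_prime_card f.range with h | h
    · exfalso
      have h1 : f ⟨k, hk⟩ ∈ f.range := ⟨_, rfl⟩
      rw [h, Subgroup.mem_bot] at h1
      have h2 : ⁅k, y⁆ = 1 := congrArg Subtype.val h1
      rw [commutatorElement_eq_one_iff_mul_comm] at h2
      exact hne h2
    · exact h
  rw [Subgroup.inf_relIndex_left, Subgroup.relIndex, hker, Subgroup.index_ker, hrange,
    Subgroup.card_top, Nat.card_zpowers]

private theorem eq_of_prime_relIndex {A B C : Subgroup D} (hAB : A ≤ B) (hBC : B ≤ C)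
    (hp : (A.relIndex C).Prime) {y : D} (hy : y ∈ B) (hyA : y ∉ A) : C ≤ B := by
  have h1 := Subgroup.relIndex_mul_relIndex A B C hAB hBC
  rw [← h1] at hp
  rcases Nat.prime_mul_iff.1 hp with ⟨_, h2⟩ | ⟨_, h2⟩
  · exact Subgroup.relIndex_eq_one.1 h2
  · exact absurd (Subgroup.relIndex_eq_one.1 h2 hy) hyA

private theorem isSquare_relIndex_aux [Finite D] (z : D) (hzc : z ∈ Subgroup.center D)
    (hz : (orderOf z).Prime) (hcomm : ∀ u x : D, ⁅u, x⁆ ∈ Subgroup.zpowers z) :
    ∀ (n : ℕ) (H : Subgroup D), Nat.card H = n →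
      IsSquare ((H ⊓ Subgroup.centralizer (H : Set D)).relIndex H) := by
  intro n
  induction n using Nat.strong_induction_on with
  | _ n ih =>
    intro H hH
    by_cases hab : ∀ u ∈ H, ∀ x ∈ H, u * x = x * u
    · have : H ≤ Subgroup.centralizer (H : Set D) := fun g hg =>
        Subgroup.mem_centralizer_iff.2 (fun h hh => hab h hh g hg)
      rw [Subgroup.relIndex_eq_one.2 (le_inf le_rfl this)]
      exact ⟨1, rfl⟩
    · push Not at hab
      obtain ⟨u, hu, x, hx, hne⟩ := hab
      set H₁ := H ⊓ Subgroup.centralizer {u} with hH₁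
      set H₂ := H₁ ⊓ Subgroup.centralizer {x} with hH₂
      have h1 : H₁.relIndex H = orderOf z :=
        relIndex_centralizer_aux z hzc hz hcomm H u x hx hne.symm
      have huH₁ : u ∈ H₁ := ⟨hu, Subgroup.mem_centralizer_singleton_iff.2 rfl⟩
      have h2 : H₂.relIndex H₁ = orderOf z :=
        relIndex_centralizer_aux z hzc hz hcomm H₁ x u huH₁ hne
      have hH₂H₁ : H₂ ≤ H₁ := inf_le_left
      have hH₁H : H₁ ≤ H := inf_le_left
      have huH₂ : u ∉ H₂ := fun h => hne (Subgroup.mem_centralizer_singleton_iff.1 h.2)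
      have hxH₁ : x ∉ H₁ := fun h => hne (Subgroup.mem_centralizer_singleton_iff.1 h.2).symm
      have hcard : Nat.card H₂ < Nat.card H := by
        have hle : H₂ ≤ H := hH₂H₁.trans hH₁H
        have hlt : H₂ < H := lt_of_le_of_ne hle (fun h => huH₂ (h ▸ hu))
        have h3 := Set.ncard_lt_ncard (s := (H₂ : Set D)) (t := (H : Set D))
          (SetLike.coe_ssubset_coe.2 hlt) (Set.toFinite _)
        simpa [Set.ncard_coe_finset, ← Nat.card_coe_set_eq] using h3
      have hZ : H₂ ⊓ Subgroup.centralizer (H₂ : Set D) = H ⊓ Subgroup.centralizer (H : Set D) := by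
        apply le_antisymm
        · rintro g ⟨hg, hgc⟩
          have hgc' := Subgroup.mem_centralizer_iff.1 hgc
          have hgH₁ : g ∈ H₁ := hH₂H₁ hg
          have hgu : g * u = u * g := Subgroup.mem_centralizer_singleton_iff.1 hgH₁.2
          have hgx : g * x = x * g := Subgroup.mem_centralizer_singleton_iff.1 hg.2
          have hK₁ : H₁ ≤ H₁ ⊓ Subgroup.centralizer {g} := by
            refine eq_of_prime_relIndex (A := H₂) (y := u) ?_ inf_le_left ?_ ?_ huH₂
            · exact le_inf hH₂H₁ (fun h hh =>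
                Subgroup.mem_centralizer_singleton_iff.2 (hgc' h hh))
            · rw [h2]; exact hz
            · exact ⟨huH₁, Subgroup.mem_centralizer_singleton_iff.2 hgu.symm⟩
          have hK : H ≤ H ⊓ Subgroup.centralizer {g} := by
            refine eq_of_prime_relIndex (A := H₁) (y := x) ?_ inf_le_left ?_ ?_ hxH₁
            · exact le_inf hH₁H (fun h hh => (hK₁ hh).2)
            · rw [h1]; exact hz
            · exact ⟨hx, Subgroup.mem_centralizer_singleton_iff.2 hgx.symm⟩
          refine ⟨hH₁H hgH₁, Subgroup.mem_centralizer_iff.2 (fun h hh => ?_)⟩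
          exact Subgroup.mem_centralizer_singleton_iff.1 (hK hh).2
        · rintro g ⟨hg, hgc⟩
          have hgc' := Subgroup.mem_centralizer_iff.1 hgc
          refine ⟨⟨⟨hg, ?_⟩, ?_⟩, Subgroup.mem_centralizer_iff.2 (fun h hh => ?_)⟩
          · exact Subgroup.mem_centralizer_singleton_iff.2 (hgc' u hu).symm
          · exact Subgroup.mem_centralizer_singleton_iff.2 (hgc' x hx).symm
          · exact hgc' h (hH₁H (hH₂H₁ hh))
      obtain ⟨m, hm⟩ := ih _ (hH ▸ hcard) H₂ rfl
      rw [hZ] at hm
      have hZH₂ : H ⊓ Subgroup.centralizer (H : Set D) ≤ H₂ := by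
        rw [← hZ]; exact inf_le_left
      rw [← Subgroup.relIndex_mul_relIndex _ H₂ H hZH₂ (hH₂H₁.trans hH₁H),
        ← Subgroup.relIndex_mul_relIndex H₂ H₁ H hH₂H₁ hH₁H, hm, h1, h2]
      exact ⟨m * orderOf z, by ring⟩

theorem isSquare_card_quot_center {D : Type u} [Group D] [Finite D] (z : D)
    (hzc : z ∈ Subgroup.center D) (hz : (orderOf z).Prime)
    (hcomm : ∀ u x : D, ⁅u, x⁆ ∈ Subgroup.zpowers z) :
    IsSquare (Nat.card (D ⧸ Subgroup.center D)) := by
  have h := isSquare_relIndex_aux z hzc hz hcomm _ ⊤ rfl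
  have h2 : (⊤ : Subgroup D) ⊓ Subgroup.centralizer ((⊤ : Subgroup D) : Set D) = Subgroup.center D := by
    rw [top_inf_eq, Subgroup.coe_top, Subgroup.centralizer_univ]
  rw [h2, Subgroup.relIndex_top_right] at h
  exact h

end Square

section Indep

variable {D : Type u} [Group D] [Finite D] {t : ℕ} [Fact t.Prime] {U : Type v} [AddCommGroup U]
  [Module (ZMod t) U] [Finite U]

/-- Independence over the commutant of the elements `σ (e i)`, when `e i ⁻¹ * e j` is not central
for `i ≠ j`. -/
private theorem indep_aux (σ : Representation (ZMod t) D U) (z : D) (hzc : z ∈ Subgroup.center D)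
    (hcomm : ∀ u x : D, ⁅u, x⁆ ∈ Subgroup.zpowers z)
    (hfpf : ∀ i : ℕ, z ^ i ≠ 1 → ∀ w : U, σ (z ^ i) w = w → w = 0)
    {ι : Type*} (e : ι → D)
    (he : ∀ i j, i ≠ j → (e j)⁻¹ * e i ∉ Subgroup.center D) (S : Finset ι) :
    ∀ r : ι → Module.End (ZMod t) U, (∀ k (g : D), r k * σ g = σ g * r k) →
      ∑ k ∈ S, r k * σ (e k) = 0 → ∀ k ∈ S, r k = 0 := by
  classical
  have hcen : ∀ a b : D, ⁅a, b⁆ ∈ Subgroup.center D := fun a b =>
    (Subgroup.zpowers_le.2 hzc) (hcomm a b)
  have hcenσ : ∀ c ∈ Subgroup.center D, ∀ g : D, σ c * σ g = σ g * σ c := by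
    intro c hc g
    rw [← map_mul, ← map_mul, Subgroup.mem_center_iff.1 hc g]
  have hinv : ∀ g : D, σ g⁻¹ * σ g = 1 := fun g => by rw [← map_mul]; simp
  have hinv' : ∀ g : D, σ g * σ g⁻¹ = 1 := fun g => by rw [← map_mul]; simp
  induction S using Finset.induction_on with
  | empty => intro r _ _ k hk; simp at hk
  | insert j S hj ih =>
    intro r hr hsum
    rw [Finset.sum_insert hj] at hsum
    have hS : ∀ i ∈ S, r i = 0 := by
      intro i hi
      have hij : i ≠ j := fun h => hj (h ▸ hi)
      -- find `u` separating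
      have hnc := he i j hij
      rw [Subgroup.mem_center_iff] at hnc
      push Not at hnc
      obtain ⟨v, hv⟩ := hnc
      set u := v⁻¹ with hu
      have hne : ⁅u, e i⁆ ≠ ⁅u, e j⁆ := by
        intro h
        apply hv
        rw [commutatorElement_def, commutatorElement_def] at h
        have h1 : e i * u⁻¹ * (e i)⁻¹ = e j * u⁻¹ * (e j)⁻¹ := by
          have h2 : u * (e i * u⁻¹ * (e i)⁻¹) = u * (e j * u⁻¹ * (e j)⁻¹) := by
            calc u * (e i * u⁻¹ * (e i)⁻¹) = (u * e i * u⁻¹ * (e i)⁻¹) := by group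
              _ = u * e j * u⁻¹ * (e j)⁻¹ := h
              _ = _ := by group
          exact mul_left_cancel h2
        have hvu : u⁻¹ = v := by simp [hu]
        rw [hvu] at h1
        calc v * ((e j)⁻¹ * e i) = (e j)⁻¹ * (e j * v * (e j)⁻¹) * e i := by group
          _ = (e j)⁻¹ * (e i * v * (e i)⁻¹) * e i := by rw [h1]
          _ = (e j)⁻¹ * e i * v := by group
      set c : ι → Module.End (ZMod t) U := fun k => σ ⁅u, e k⁆ with hc
      have hconj : ∀ k, σ u * (r k * σ (e k)) * σ u⁻¹ = r k * (c k * σ (e k)) := by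
        intro k
        have h1 : σ u * r k = r k * σ u := (hr k u).symm
        have h2 : u * e k * u⁻¹ = ⁅u, e k⁆ * e k := by
          simp [commutatorElement_def, mul_assoc]
        calc σ u * (r k * σ (e k)) * σ u⁻¹ = (σ u * r k) * σ (e k) * σ u⁻¹ := by noncomm_ring
          _ = r k * (σ u * σ (e k) * σ u⁻¹) := by rw [h1]; noncomm_ring
          _ = r k * (c k * σ (e k)) := by
              rw [← map_mul, ← map_mul, h2, map_mul]
      have hcc : ∀ k (g : D), c k * σ g = σ g * c k := fun k g => hcenσ _ (hcen _ _) g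
      have hrc : ∀ k l, r k * c l = c l * r k := fun k l => hr k _
      -- the new relation
      have hnew : ∑ k ∈ S, (r k * (c k - c j)) * σ (e k) = 0 := by
        have h1 : r j * (c j * σ (e j)) + ∑ k ∈ S, r k * (c k * σ (e k)) = 0 := by
          have h2 := congrArg (fun a => σ u * a * σ u⁻¹) hsum
          simp only [mul_add, add_mul, Finset.mul_sum, Finset.sum_mul, hconj, mul_zero, zero_mul] at h2
          exact h2
        have h3 : c j * (r j * σ (e j)) + ∑ k ∈ S, c j * (r k * σ (e k)) = 0 := by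
          rw [← Finset.mul_sum, ← mul_add, hsum, mul_zero]
        have h4 : ∑ k ∈ S, (r k * (c k - c j)) * σ (e k) =
            (r j * (c j * σ (e j)) + ∑ k ∈ S, r k * (c k * σ (e k))) -
            (c j * (r j * σ (e j)) + ∑ k ∈ S, c j * (r k * σ (e k))) := by
          have h5 : c j * (r j * σ (e j)) = r j * (c j * σ (e j)) := by
            rw [← mul_assoc, ← hrc j j, mul_assoc]
          rw [h5, add_sub_add_left_eq_sub, ← Finset.sum_sub_distrib]
          refine Finset.sum_congr rfl (fun k _ => ?_)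
          rw [mul_sub, sub_mul, mul_assoc, ← mul_assoc (c j), ← hrc k j, mul_assoc (r k) (c j)]
        rw [h4, h1, h3, sub_zero]
      have h0 := ih (fun k => r k * (c k - c j)) (by
        intro k g
        change r k * (c k - c j) * σ g = σ g * (r k * (c k - c j))
        rw [mul_assoc, sub_mul, hcc k g, hcc j g, ← mul_sub, ← mul_assoc, hr k g, mul_sub,
          mul_sub, mul_assoc, mul_sub]
        simp only [mul_assoc]) hnew i hi
      change r i * (c i - c j) = 0 at h0
      -- invertibility
      have hw : ⁅u, e i⁆ * ⁅u, e j⁆⁻¹ ∈ Subgroup.zpowers z :=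
        Subgroup.mul_mem _ (hcomm _ _) (Subgroup.inv_mem _ (hcomm _ _))
      rw [← mem_powers_iff_mem_zpowers] at hw
      obtain ⟨a, ha⟩ := hw
      change z ^ a = _ at ha
      have hane : z ^ a ≠ 1 := by
        intro h
        rw [h] at ha
        exact hne (mul_inv_eq_one.1 ha.symm)
      have h5 : z ^ a * ⁅u, e j⁆ = ⁅u, e i⁆ := by rw [ha]; group
      have hfact : c i - c j = (σ (z ^ a) - 1) * c j := by
        rw [sub_mul, one_mul]
        change σ ⁅u, e i⁆ - σ ⁅u, e j⁆ = σ (z ^ a) * σ ⁅u, e j⁆ - σ ⁅u, e j⁆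
        rw [← map_mul, h5]
      set L : Module.End (ZMod t) U := σ (z ^ a) - 1 with hL
      have hinj : Function.Injective L := by
        rw [injective_iff_map_eq_zero]
        intro w hw
        apply hfpf a hane w
        have : σ (z ^ a) w - w = 0 := hw
        exact sub_eq_zero.1 this
      have hsurj : Function.Surjective L := Finite.surjective_of_injective hinj
      rw [hfact, ← mul_assoc] at h0
      have h1 : r i * L = 0 := by
        have h2 : c j * σ (⁅u, e j⁆⁻¹) = 1 := by
          rw [hc]; exact hinv' _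
        calc r i * L = r i * L * (c j * σ (⁅u, e j⁆⁻¹)) := by
              rw [h2, mul_one]
          _ = _ := by rw [← mul_assoc, h0, zero_mul]
      ext w
      obtain ⟨w', rfl⟩ := hsurj w
      have := congrArg (fun a => a w') h1
      simpa using this
    intro k hk
    rw [Finset.mem_insert] at hk
    rcases hk with rfl | hk
    · have h1 : r k * σ (e k) = 0 := by
        rw [Finset.sum_eq_zero (fun i hi => by rw [hS i hi, zero_mul]), add_zero] at hsum
        exact hsum
      calc r k = r k * (σ (e k) * σ (e k)⁻¹) := by rw [hinv', mul_one]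
        _ = 0 := by rw [← mul_assoc, h1, zero_mul]
    · exact hS k hk

theorem card_quot_center_le_sq {D : Type u} [Group D] [Finite D] {t : ℕ} [Fact t.Prime]
    {U : Type v} [AddCommGroup U] [Module (ZMod t) U] [Finite U] [Nontrivial U]
    (σ : Representation (ZMod t) D U) (z : D) (hzc : z ∈ Subgroup.center D)
    (hcomm : ∀ u x : D, ⁅u, x⁆ ∈ Subgroup.zpowers z)
    (hfpf : ∀ i : ℕ, z ^ i ≠ 1 → ∀ w : U, σ (z ^ i) w = w → w = 0) :
    Nat.card (D ⧸ Subgroup.center D) ≤ (Module.finrank (ZMod t) U) ^ 2 := by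
  classical
  have : Fintype (D ⧸ Subgroup.center D) := Fintype.ofFinite _
  have : Module.Finite (ZMod t) U := Module.Finite.of_finite
  let e : D ⧸ Subgroup.center D → D := Quotient.out
  have he : ∀ i j, i ≠ j → (e j)⁻¹ * e i ∉ Subgroup.center D := by
    intro i j hij h
    apply hij
    have h1 : (e j : D ⧸ Subgroup.center D) = e i := QuotientGroup.eq.2 h
    have h2 : ((e i : D) : D ⧸ Subgroup.center D) = i := QuotientGroup.out_eq' i
    have h3 : ((e j : D) : D ⧸ Subgroup.center D) = j := QuotientGroup.out_eq' j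
    rw [← h2, ← h3, h1]
  have hli : LinearIndependent (ZMod t) (fun i => σ (e i)) := by
    rw [Fintype.linearIndependent_iff]
    intro c hc i
    have h0 := indep_aux σ z hzc hcomm hfpf e he Finset.univ
      (fun k => c k • (1 : Module.End (ZMod t) U))
      (by intro k g; simp [smul_mul_assoc, mul_smul_comm])
      (by simpa [smul_mul_assoc] using hc) i (Finset.mem_univ _)
    by_contra hne
    have := congrArg (fun a => (c i)⁻¹ • a) h0
    simp [smul_smul, inv_mul_cancel₀ hne] at this
  have h1 := hli.fintype_card_le_finrank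
  rw [Nat.card_eq_fintype_card]
  refine h1.trans (le_of_eq ?_)
  have h2 : Module.finrank (ZMod t) (U →ₗ[ZMod t] U) =
      Module.finrank (ZMod t) U * Module.finrank (ZMod t) U := Module.finrank_linearMap _ _ _ _
  rw [sq]
  exact h2

end Indep

end Cfsg.Agent.Lib.Palfy
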