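import Mathlib
import Cfsg.Agent.Lib.Classical.Spectra.Ppd
import Cfsg.Agent.Lib.Zsig.PrimCore

/-!
# Primitive prime divisors of `t ^ n - 1` for a prime `t`, `n ≥ 3`, `(t, n) ≠ (2, 6)`
-/

set_option autoImplicit false

namespace Cfsg.Agent.Lib.Palfy

theorem exists_ppd_prime {t n : ℕ} (ht : t.Prime) (hn : 3 ≤ n) (hex : ¬ (t = 2 ∧ n = 6)) :
    ∃ l : ℕ, l.Prime ∧ l ∣ t ^ n - 1 ∧ ∀ d : ℕ, 0 < d → d < n → ¬ l ∣ t ^ d - 1 := by
  rcases Nat.lt_or_ge t 3 with h3 | h3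
  · have ht2 : t = 2 := by have := ht.two_le; omega
    subst ht2
    by_cases hL : (2, n) ∈ Cfsg.Agent.Lib.Zsig.PrimCore.L13
    · have hn' : n = 6 ∨ n = 4 ∨ n = 10 ∨ n = 12 ∨ n = 18 ∨ n = 3 ∨ n = 8 ∨ n = 20 := by
        simp [Cfsg.Agent.Lib.Zsig.PrimCore.L13] at hL
        omega
      have hsmall : ∀ {n l : ℕ}, l.Prime → l ∣ 2 ^ n - 1 →
          (∀ d ∈ List.range n, d = 0 ∨ ¬ l ∣ 2 ^ d - 1) →
          ∃ l : ℕ, l.Prime ∧ l ∣ 2 ^ n - 1 ∧ ∀ d : ℕ, 0 < d → d < n → ¬ l ∣ 2 ^ d - 1 := by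
        intro n l hl h1 h2
        refine ⟨l, hl, h1, fun d hd hdn => ?_⟩
        rcases h2 d (List.mem_range.2 hdn) with h | h
        · omega
        · exact h
      rcases hn' with rfl | rfl | rfl | rfl | rfl | rfl | rfl | rfl
      · exact absurd ⟨rfl, rfl⟩ hex
      · exact hsmall (l := 5) (by norm_num) (by norm_num) (by decide)
      · exact hsmall (l := 11) (by norm_num) (by norm_num) (by decide)
      · exact hsmall (l := 13) (by norm_num) (by norm_num) (by decide)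
      · exact hsmall (l := 19) (by norm_num) (by norm_num) (by decide)
      · exact hsmall (l := 7) (by norm_num) (by norm_num) (by decide)
      · exact hsmall (l := 17) (by norm_num) (by norm_num) (by decide)
      · exact hsmall (l := 41) (by norm_num) (by norm_num) (by decide)
    · obtain ⟨m, ⟨hm1, hm2⟩, hm3⟩ := Cfsg.Agent.Lib.Zsig.PrimCore.core (q := 2) (e := n) le_rfl hn hL
      have hm1' : m ≠ 1 := by omega
      obtain ⟨l, hl, hlm⟩ := Nat.exists_prime_and_dvd hm1'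
      refine ⟨l, hl, hlm.trans hm1, fun d hd hdn hdvd => ?_⟩
      have := Nat.Coprime.eq_one_of_dvd (Nat.Coprime.coprime_dvd_left hlm (hm2 d hd hdn)) hdvd
      exact hl.one_lt.ne' this
  · obtain ⟨l, hl, hprim⟩ := Cfsg.Agent.Lib.Classical.Spectra.Ppd.exists_ppd (m := n) (q := t) (by omega) h3
    have hfl : Fact l.Prime := ⟨hl⟩
    have key : ∀ k : ℕ, l ∣ t ^ k - 1 ↔ (t : ZMod l) ^ k = 1 := by
      intro k
      have h1 : 1 ≤ t ^ k := Nat.one_le_pow _ _ (by omega)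
      rw [← ZMod.natCast_eq_zero_iff, Nat.cast_sub h1]
      push_cast
      exact sub_eq_zero
    refine ⟨l, hl, (key n).2 hprim.pow_eq_one, fun d hd hdn hdvd => ?_⟩
    have := hprim.dvd_of_pow_eq_one d ((key d).1 hdvd)
    exact absurd (Nat.le_of_dvd hd this) (by omega)

end Cfsg.Agent.Lib.Palfy
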