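import Mathlib
import Cfsg.Agent.Lib.Palfy.Defs
import Cfsg.Agent.Lib.Palfy.Indep

/-!
# An element of primitive prime divisor order acting on a class two normal subgroup
-/

set_option autoImplicit false

namespace Cfsg.Agent.Lib.Palfy

open Cfsg
open scoped commutatorElement

universe u v

/-- Counting modulo a prime. -/
theorem card_modEq_fix_of_iterate {α : Type*} [Finite α] {l : ℕ} [Fact l.Prime] (f : α → α)
    (hf : f^[l] = id) : Nat.card α ≡ Nat.card {a // f a = a} [MOD l] := by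
  classical
  have : Fintype α := Fintype.ofFinite α
  let F : Function.End α := f
  have hF : F ^ l ^ 1 = 1 := by
    rw [pow_one]
    exact (hom_coe_pow (fun g : Function.End α ↦ (g : α → α)) rfl (fun g h ↦ rfl) F l).trans hf
  have h := Equiv.Perm.card_fixedPoints_modEq hF
  have h1 : Nat.card α = Fintype.card α := Nat.card_eq_fintype_card
  have h2 : Nat.card {a // f a = a} = Fintype.card (Function.fixedPoints F) := by
    rw [← Nat.card_eq_fintype_card]
    rfl
  rw [h1, h2]
  exact h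

section Vec

variable {K : Type u} [Group K] {t : ℕ} [Fact t.Prime] {V : Type v} [AddCommGroup V]
  [Module (ZMod t) V] [Finite V] (ρ : Representation (ZMod t) K V) {g : K} {l : ℕ}

private theorem iter_rep (W : Submodule (ZMod t) V) (hW : ∀ v ∈ W, ρ g v ∈ W) (k : ℕ) (w : W) :
    (((fun w : W => (⟨ρ g w.1, hW _ w.2⟩ : W))^[k] w : W) : V) = ρ (g ^ k) w.1 := by
  induction k with
  | zero => simp
  | succ k ih =>
    rw [Function.iterate_succ_apply', pow_succ']
    simp [ih]

/-- `t ^ (dim W) ≡ #fixed vectors`. -/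
private theorem sub_modEq (hl : l.Prime) (hg : orderOf g = l) (W : Submodule (ZMod t) V)
    (hW : ∀ v ∈ W, ρ g v ∈ W) :
    t ^ Module.finrank (ZMod t) W ≡ Nat.card {w : W // ρ g w.1 = w.1} [MOD l] := by
  have : Fact l.Prime := ⟨hl⟩
  have : Module.Finite (ZMod t) W := Module.Finite.of_finite
  have h := card_modEq_fix_of_iterate (l := l) (fun w : W => (⟨ρ g w.1, hW _ w.2⟩ : W)) (by
    funext w
    apply Subtype.ext
    rw [iter_rep ρ W hW l w, ← hg, pow_orderOf_eq_one, map_one]
    rfl)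
  rw [Module.natCard_eq_pow_finrank (K := ZMod t), Nat.card_zmod] at h
  refine h.trans ?_
  rw [Nat.card_congr]
  exact Equiv.subtypeEquivRight (fun w => Subtype.ext_iff)

private theorem l_ne_t (hd : l ∣ t ^ Module.finrank (ZMod t) V - 1) (hn : 0 < Module.finrank (ZMod t) V) :
    l ≠ t := by
  rintro rfl
  have ht := (Fact.out : l.Prime)
  have h1 : l ∣ l ^ Module.finrank (ZMod l) V := dvd_pow_self _ hn.ne'
  have h2 : 1 ≤ l ^ Module.finrank (ZMod l) V := Nat.one_le_pow _ _ ht.pos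
  have h3 := (Nat.dvd_sub h1 hd)
  rw [show l ^ Module.finrank (ZMod l) V - (l ^ Module.finrank (ZMod l) V - 1) = 1 by omega] at h3
  exact ht.one_lt.ne' (Nat.dvd_one.1 h3)

/-- Fixed point freeness of `g`. -/
private theorem fix_zero (hinj : Function.Injective ρ) (hl : l.Prime) (hg : orderOf g = l)
    (hn3 : 0 < Module.finrank (ZMod t) V)
    (hd : l ∣ t ^ Module.finrank (ZMod t) V - 1)
    (hmin : ∀ d : ℕ, 0 < d → d < Module.finrank (ZMod t) V → ¬ l ∣ t ^ d - 1) :
    ∀ v, ρ g v = v → v = 0 := by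
  have : Fact l.Prime := ⟨hl⟩
  have hne := l_ne_t (t := t) (V := V) hd hn3
  have ht : t.Prime := Fact.out
  have hcop : Nat.Coprime l t := (Nat.coprime_primes hl ht).2 hne
  have : Module.Finite (ZMod t) V := Module.Finite.of_finite
  let F : Submodule (ZMod t) V := LinearMap.ker (ρ g - 1)
  have hF : ∀ {v}, v ∈ F ↔ ρ g v = v := by
    intro v
    change (ρ g - 1) v = 0 ↔ _
    simp [sub_eq_zero]
  have h := sub_modEq ρ hl hg (⊤ : Submodule (ZMod t) V) (fun _ _ => trivial)
  rw [finrank_top] at h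
  have hcard : Nat.card {w : (⊤ : Submodule (ZMod t) V) // ρ g w.1 = w.1} = Nat.card F := by
    refine Nat.card_congr ⟨fun w => ⟨w.1.1, hF.2 w.2⟩, fun w => ⟨⟨w.1, trivial⟩, hF.1 w.2⟩, ?_, ?_⟩
    · intro w; rfl
    · intro w; rfl
  rw [hcard, Module.natCard_eq_pow_finrank (K := ZMod t), Nat.card_zmod] at h
  set f := Module.finrank (ZMod t) F with hf
  set n := Module.finrank (ZMod t) V with hn
  have hfn : f ≤ n := Submodule.finrank_le F
  have hfeq : f = 0 := by
    by_contra hf0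
    have hne' : f ≠ n := by
      intro h1
      have h2 : F = ⊤ := Submodule.eq_top_of_finrank_eq h1
      have h3 : ρ g = 1 := by
        ext v
        have : v ∈ F := h2 ▸ Submodule.mem_top
        simpa using hF.1 this
      have h4 : g = 1 := hinj (by rw [h3, map_one])
      rw [h4, orderOf_one] at hg
      exact hl.one_lt.ne hg
    have hlt : f < n := lt_of_le_of_ne hfn hne'
    apply hmin (n - f) (by omega) (by omega)
    have h1 : t ^ f * t ^ (n - f) ≡ t ^ f * 1 [MOD l] := by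
      rw [← pow_add, mul_one, show f + (n - f) = n by omega]
      exact h
    have h2 : t ^ (n - f) ≡ 1 [MOD l] :=
      Nat.ModEq.cancel_left_of_coprime (hcop.pow_right f) h1
    exact (Nat.modEq_iff_dvd' (Nat.one_le_pow _ _ ht.pos)).1 h2.symm
  intro v hv
  have h0 : F = ⊥ := by
    rw [← Submodule.finrank_eq_zero]
    exact hfeq
  have : v ∈ F := hF.2 hv
  rw [h0] at this
  simpa using this

/-- Stable subspaces are trivial. -/
private theorem stable_trivial (hinj : Function.Injective ρ) (hl : l.Prime) (hg : orderOf g = l)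
    (hn3 : 0 < Module.finrank (ZMod t) V)
    (hd : l ∣ t ^ Module.finrank (ZMod t) V - 1)
    (hmin : ∀ d : ℕ, 0 < d → d < Module.finrank (ZMod t) V → ¬ l ∣ t ^ d - 1)
    (W : Submodule (ZMod t) V) (hW : ∀ v ∈ W, ρ g v ∈ W) : W = ⊥ ∨ W = ⊤ := by
  have : Module.Finite (ZMod t) V := Module.Finite.of_finite
  have hfix := fix_zero ρ hinj hl hg hn3 hd hmin
  have ht : t.Prime := Fact.out
  have h := sub_modEq ρ hl hg W hW
  have hone : Nat.card {w : W // ρ g w.1 = w.1} = 1 := by
    rw [Nat.card_eq_one_iff_unique]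
    refine ⟨⟨fun a b => ?_⟩, ⟨⟨0, by simp⟩⟩⟩
    apply Subtype.ext
    apply Subtype.ext
    rw [hfix _ a.2, hfix _ b.2]
  rw [hone] at h
  by_cases h0 : Module.finrank (ZMod t) W = 0
  · left
    exact Submodule.finrank_eq_zero.1 h0
  · right
    apply Submodule.eq_top_of_finrank_eq
    by_contra hne
    have hlt : Module.finrank (ZMod t) W < Module.finrank (ZMod t) V :=
      lt_of_le_of_ne (Submodule.finrank_le W) hne
    exact hmin _ (Nat.pos_of_ne_zero h0) hlt
      ((Nat.modEq_iff_dvd' (Nat.one_le_pow _ _ ht.pos)).1 h.symm)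

/-- Endomorphisms commuting with `g` commute. -/
private theorem commute_of_commute_g (hinj : Function.Injective ρ) (hl : l.Prime) (hg : orderOf g = l)
    (hn3 : 0 < Module.finrank (ZMod t) V)
    (hd : l ∣ t ^ Module.finrank (ZMod t) V - 1)
    (hmin : ∀ d : ℕ, 0 < d → d < Module.finrank (ZMod t) V → ¬ l ∣ t ^ d - 1)
    (a b : Module.End (ZMod t) V) (ha : ρ g * a = a * ρ g) (hb : ρ g * b = b * ρ g) :
    a * b = b * a := by
  have hnt : Nontrivial V := Module.nontrivial_of_finrank_pos hn3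
  obtain ⟨v, hv⟩ := exists_ne (0 : V)
  let A : Subalgebra (ZMod t) (Module.End (ZMod t) V) := Algebra.adjoin (ZMod t) {ρ g}
  let ev : A →ₗ[ZMod t] V :=
    { toFun := fun x => x.1 v
      map_add' := fun x y => rfl
      map_smul' := fun c x => rfl }
  have hgA : ρ g ∈ A := Algebra.subset_adjoin rfl
  have hW : LinearMap.range ev = ⊤ := by
    rcases stable_trivial ρ hinj hl hg hn3 hd hmin (LinearMap.range ev) (by
      rintro _ ⟨x, rfl⟩
      refine ⟨⟨ρ g * x.1, A.mul_mem hgA x.2⟩, rfl⟩) with h | h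
    · exfalso
      have h1 : ev 1 ∈ LinearMap.range ev := ⟨1, rfl⟩
      rw [h, Submodule.mem_bot] at h1
      exact hv h1
    · exact h
  have hAcen : ∀ c : Module.End (ZMod t) V, ρ g * c = c * ρ g → ∀ x ∈ A, c * x = x * c := by
    intro c hc x hx
    have h1 := Algebra.adjoin_le_centralizer_centralizer (ZMod t) ({ρ g} : Set (Module.End (ZMod t) V)) hx
    rw [Subalgebra.mem_centralizer_iff] at h1
    exact h1 c (by
      rw [SetLike.mem_coe, Subalgebra.mem_centralizer_iff]
      intro g' hg'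
      rw [Set.mem_singleton_iff] at hg'
      rw [hg']
      exact hc)
  have hrep : ∀ c : Module.End (ZMod t) V, ρ g * c = c * ρ g → ∃ x ∈ A, c = x := by
    intro c hc
    have h1 : c v ∈ LinearMap.range ev := hW ▸ Submodule.mem_top
    obtain ⟨x, hx⟩ := h1
    refine ⟨x.1, x.2, ?_⟩
    ext w
    have h2 : w ∈ LinearMap.range ev := hW ▸ Submodule.mem_top
    obtain ⟨y, rfl⟩ := h2
    change c (y.1 v) = x.1 (y.1 v)
    have h3 : c * y.1 = y.1 * c := hAcen c hc y.1 y.2
    have h4 : x.1 * y.1 = y.1 * x.1 := by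
      have h5 : ρ g * x.1 = x.1 * ρ g := (hAcen (ρ g) rfl x.1 x.2)
      have h6 := hAcen x.1 h5.symm.symm y.1 y.2
      exact h6
    calc c (y.1 v) = (c * y.1) v := rfl
      _ = (y.1 * c) v := by rw [h3]
      _ = y.1 (c v) := rfl
      _ = y.1 (x.1 v) := by rw [← show ev x = x.1 v from rfl, hx]
      _ = (y.1 * x.1) v := rfl
      _ = (x.1 * y.1) v := by rw [h4]
  obtain ⟨y, hy, hby⟩ := hrep b hb
  rw [hby]
  exact hAcen a ha y hy

end Vec

section Grp

variable {K : Type u} [Group K] [Finite K]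

/-- The centre of `C` as a subgroup of the ambient group. -/
private def zC (C : Subgroup K) : Subgroup K := C ⊓ Subgroup.centralizer (C : Set K)

private theorem mem_zC {C : Subgroup K} {y : K} : y ∈ zC C ↔ y ∈ C ∧ ∀ u ∈ C, u * y = y * u := by
  rw [zC, Subgroup.mem_inf, Subgroup.mem_centralizer_iff]
  rfl

private theorem conj_mem_zC {C : Subgroup K} (hC : C.Normal) {y : K} (hy : y ∈ zC C) (g : K) :
    g * y * g⁻¹ ∈ zC C := by
  rw [mem_zC] at hy ⊢
  refine ⟨hC.conj_mem _ hy.1 g, fun u hu => ?_⟩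
  have h1 : g⁻¹ * u * g ∈ C := by
    have := hC.conj_mem u hu g⁻¹
    simpa using this
  have h2 := hy.2 _ h1
  calc u * (g * y * g⁻¹) = g * ((g⁻¹ * u * g) * y) * g⁻¹ := by group
    _ = g * (y * (g⁻¹ * u * g)) * g⁻¹ := by rw [h2]
    _ = _ := by group

/-- A coset of the centre which is stable under `g` (of order prime to the centre) has a fixed point. -/
private theorem exists_fixed_in_coset {C : Subgroup K} (hC : C.Normal) {g : K} {l s : ℕ}
    (hl : l.Prime) (hg : orderOf g = l) (hsl : s ≠ l) (hs : s.Prime) (hps : IsPGroup s C)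
    {c : K} (hc : c ∈ C) (hcen : ∀ u ∈ C, u * (g * c * g⁻¹ * c⁻¹) = (g * c * g⁻¹ * c⁻¹) * u) :
    ∃ y ∈ zC C, g * (c * y) * g⁻¹ = c * y := by
  have : Fact l.Prime := ⟨hl⟩
  have : Fact s.Prime := ⟨hs⟩
  set a := g * c * g⁻¹ * c⁻¹ with ha
  have haC : a ∈ C := C.mul_mem (hC.conj_mem _ hc g) (C.inv_mem hc)
  have haZ : a ∈ zC C := mem_zC.2 ⟨haC, hcen⟩
  have hform : ∀ y : K, c⁻¹ * (g * (c * y) * g⁻¹) = a * (g * y * g⁻¹) := by
    intro y
    have h1 : a * c = c * a := (hcen c hc).symm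
    have h2 : g * c * g⁻¹ = a * c := by simp [ha]
    calc c⁻¹ * (g * (c * y) * g⁻¹) = c⁻¹ * (g * c * g⁻¹) * (g * y * g⁻¹) := by group
      _ = c⁻¹ * (a * c) * (g * y * g⁻¹) := by rw [h2]
      _ = c⁻¹ * (c * a) * (g * y * g⁻¹) := by rw [h1]
      _ = a * (g * y * g⁻¹) := by group
  let f : zC C → zC C := fun y => ⟨c⁻¹ * (g * (c * y.1) * g⁻¹), by
    rw [hform]
    exact (zC C).mul_mem haZ (conj_mem_zC hC y.2 g)⟩
  have hiter : ∀ (k : ℕ) (y : zC C), c * (f^[k] y).1 = g ^ k * (c * y.1) * (g ^ k)⁻¹ := by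
    intro k y
    induction k with
    | zero => simp
    | succ k ih =>
      rw [Function.iterate_succ_apply']
      change c * (c⁻¹ * (g * (c * (f^[k] y).1) * g⁻¹)) = _
      rw [ih, pow_succ']
      group
  have hfl : f^[l] = id := by
    funext y
    apply Subtype.ext
    apply mul_left_cancel (a := c)
    rw [hiter, ← hg, pow_orderOf_eq_one]
    simp
  have h := card_modEq_fix_of_iterate f hfl
  have hcard : ¬ l ∣ Nat.card (zC C) := by
    have hZ : IsPGroup s (zC C) := hps.to_le (by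
      intro y hy
      exact (mem_zC.1 hy).1)
    obtain ⟨m, hm⟩ := IsPGroup.iff_card.1 hZ
    rw [hm]
    intro h1
    exact hsl ((Nat.prime_dvd_prime_iff_eq hl hs).1 (hl.dvd_of_dvd_pow h1)).symm
  by_cases hne : Nonempty {a // f a = a}
  · obtain ⟨⟨y, hy⟩⟩ := hne
    refine ⟨y.1, y.2, ?_⟩
    have h1 : c⁻¹ * (g * (c * y.1) * g⁻¹) = y.1 := congrArg Subtype.val hy
    calc g * (c * y.1) * g⁻¹ = c * (c⁻¹ * (g * (c * y.1) * g⁻¹)) := by group
      _ = c * y.1 := by rw [h1]
  · exfalso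
    rw [not_nonempty_iff] at hne
    rw [show Nat.card {a // f a = a} = 0 from Nat.card_of_isEmpty] at h
    exact hcard ((Nat.modEq_zero_iff_dvd).1 h)

/-- The iterated norm. -/
private def nProd (g u : K) : ℕ → K
  | 0 => 1
  | k + 1 => nProd g u k * (g ^ k * u * (g ^ k)⁻¹)

private theorem nProd_conj (g u : K) (k : ℕ) :
    g * nProd g u k * g⁻¹ = u⁻¹ * nProd g u k * (g ^ k * u * (g ^ k)⁻¹) := by
  induction k with
  | zero => simp [nProd]
  | succ k ih =>
    have h1 : g * nProd g u (k + 1) * g⁻¹ =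
        (g * nProd g u k * g⁻¹) * (g ^ (k + 1) * u * (g ^ (k + 1))⁻¹) := by
      simp only [nProd, pow_succ']
      group
    rw [h1, ih]
    simp only [nProd, mul_assoc]

private theorem nProd_mem {C : Subgroup K} (hC : C.Normal) (g : K) {u : K} (hu : u ∈ C) (k : ℕ) :
    nProd g u k ∈ C := by
  induction k with
  | zero => exact C.one_mem
  | succ k ih => exact C.mul_mem ih (hC.conj_mem _ hu _)

private theorem comm_mul_right {c x y : K} (h : x * ⁅c, y⁆ = ⁅c, y⁆ * x) :
    ⁅c, x * y⁆ = ⁅c, x⁆ * ⁅c, y⁆ := by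
  have h1 : ⁅c, x * y⁆ = ⁅c, x⁆ * (x * ⁅c, y⁆ * x⁻¹) := by
    simp only [commutatorElement_def]
    group
  rw [h1, h]
  simp

end Grp

section Main

variable {K : Type u} [Group K] [Finite K] {t : ℕ} [Fact t.Prime] {V : Type v} [AddCommGroup V]
  [Module (ZMod t) V] [Finite V] {ρ : Representation (ZMod t) K V} {C : Subgroup K} {s : ℕ}
  [Fact s.Prime] {z : K}

private theorem comm_central (hC : ClassTwo ρ C s z) {a b u : K} (ha : a ∈ C) (hb : b ∈ C)
    (hu : u ∈ C) : u * ⁅a, b⁆ = ⁅a, b⁆ * u := by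
  obtain ⟨k, hk⟩ := hC.comm_mem a ha b hb
  rw [← hk]
  have h1 : Commute u z := hC.z_central u hu
  exact (h1.zpow_right k).eq

private theorem g_comm_z (hC : ClassTwo ρ C s z) {g : K} {l : ℕ} (hl : l.Prime) (hg : orderOf g = l)
    (hsl : s < l) : g * z = z * g := by
  classical
  have hs : s.Prime := Fact.out
  have : Fact l.Prime := ⟨hl⟩
  have hN := hC.normal
  obtain ⟨u, hu, x, hx, hne⟩ := hC.noncomm
  have hcardP : Nat.card (Subgroup.zpowers z) = s := by
    rw [Nat.card_zpowers, hC.z_order]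
  have hw : ⁅u, x⁆ ∈ Subgroup.zpowers z := hC.comm_mem u hu x hx
  have hw1 : ⁅u, x⁆ ≠ 1 := fun h => hne (commutatorElement_eq_one_iff_mul_comm.1 h)
  have : Fintype (Subgroup.zpowers z) := Fintype.ofFinite _
  have hzw : (⟨z, Subgroup.mem_zpowers z⟩ : Subgroup.zpowers z) ∈
      Subgroup.zpowers (⟨⁅u, x⁆, hw⟩ : Subgroup.zpowers z) :=
    mem_zpowers_of_prime_card hcardP (fun h => hw1 (congrArg Subtype.val h))
  obtain ⟨k, hk⟩ := hzw
  have hk' : ⁅u, x⁆ ^ k = z := congrArg Subtype.val hk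
  have hgz : g * z * g⁻¹ ∈ Subgroup.zpowers z := by
    have h1 : g * z * g⁻¹ = (g * ⁅u, x⁆ * g⁻¹) ^ k := by
      conv_lhs => rw [← hk']
      simp
    rw [h1]
    refine Subgroup.zpow_mem _ ?_ k
    have h2 : g * ⁅u, x⁆ * g⁻¹ = ⁅g * u * g⁻¹, g * x * g⁻¹⁆ := by
      simp only [commutatorElement_def]
      group
    rw [h2]
    exact hC.comm_mem _ (hN.conj_mem _ hu g) _ (hN.conj_mem _ hx g)
  have hgP : ∀ y ∈ Subgroup.zpowers z, g * y * g⁻¹ ∈ Subgroup.zpowers z := by
    rintro _ ⟨j, rfl⟩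
    have h1 : g * (fun x => z ^ x) j * g⁻¹ = (g * z * g⁻¹) ^ j := by
      simp
    rw [h1]
    exact Subgroup.zpow_mem _ hgz j
  let f : Subgroup.zpowers z → Subgroup.zpowers z := fun y => ⟨g * y.1 * g⁻¹, hgP _ y.2⟩
  have hiter : ∀ (k : ℕ) (y : Subgroup.zpowers z), (f^[k] y).1 = g ^ k * y.1 * (g ^ k)⁻¹ := by
    intro k y
    induction k with
    | zero => simp
    | succ k ih =>
      rw [Function.iterate_succ_apply']
      change g * (f^[k] y).1 * g⁻¹ = _
      rw [ih, pow_succ']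
      group
  have hfl : f^[l] = id := by
    funext y
    apply Subtype.ext
    rw [hiter, ← hg, pow_orderOf_eq_one]
    simp
  have h := card_modEq_fix_of_iterate f hfl
  by_contra hcon
  have h1 : Nat.card {a // f a = a} < Nat.card (Subgroup.zpowers z) :=
    Finite.card_subtype_lt (x := ⟨z, Subgroup.mem_zpowers z⟩) (fun hfix => hcon (by
      have h2 : g * z * g⁻¹ = z := congrArg Subtype.val hfix
      calc g * z = g * z * g⁻¹ * g := by group
        _ = z * g := by rw [h2]))
  rw [hcardP] at h h1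
  have h2 := Nat.ModEq.eq_of_lt_of_lt h hsl (h1.trans hsl)
  omega

/-- Elements of `C` commuting with `g` are central in `C`. -/
private theorem central_of_fixed (hC : ClassTwo ρ C s z) {g : K} {l : ℕ} (hl : l.Prime)
    (hg : orderOf g = l) (hsl : s ≠ l)
    (hgz : g * z = z * g)
    (hab : ∀ a b : K, g * a = a * g → g * b = b * g → a * b = b * a)
    {c : K} (hc : c ∈ C) (hcg : g * c = c * g) {u : K} (hu : u ∈ C) : c * u = u * c := by
  have hs : s.Prime := Fact.out
  have hN := hC.normal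
  set w := ⁅c, u⁆ with hw
  have hwz : w ∈ Subgroup.zpowers z := hC.comm_mem c hc u hu
  have hgw : Commute g w := by
    obtain ⟨j, hj⟩ := hwz
    rw [← hj]
    exact (Commute.zpow_right hgz j)
  -- the norm computation
  have hstep : ∀ k, ⁅c, nProd g u k⁆ = w ^ k := by
    intro k
    induction k with
    | zero => simp [nProd]
    | succ k ih =>
      have hx : g ^ k * u * (g ^ k)⁻¹ ∈ C := hN.conj_mem _ hu _
      have hN' := nProd_mem hN g hu k
      rw [nProd, comm_mul_right (comm_central hC hc hx hN'), ih, pow_succ]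
      congr 1
      have hck : Commute c (g ^ k) := (Commute.symm hcg).pow_right k
      have hwk : Commute (g ^ k) w := hgw.pow_left k
      have e1 : g ^ k * ⁅c, u⁆ * (g ^ k)⁻¹ = ⁅g ^ k * c * (g ^ k)⁻¹, g ^ k * u * (g ^ k)⁻¹⁆ := by
        simp only [commutatorElement_def]
        group
      have e2 : g ^ k * c * (g ^ k)⁻¹ = c := by rw [← hck.eq]; simp
      rw [e2] at e1
      rw [← e1, ← hw, hwk.eq]
      simp
  set N := nProd g u l with hNdef
  have hNC : N ∈ C := nProd_mem hN g hu l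
  have hconj : g * N * g⁻¹ = u⁻¹ * N * u := by
    rw [hNdef, nProd_conj, ← hg, pow_orderOf_eq_one]
    simp
  have hcen : ∀ v ∈ C, v * (g * N * g⁻¹ * N⁻¹) = (g * N * g⁻¹ * N⁻¹) * v := by
    intro v hv
    have h1 : g * N * g⁻¹ * N⁻¹ = ⁅u⁻¹, N⁆ := by
      rw [hconj, commutatorElement_def]
      group
    rw [h1]
    exact comm_central hC (C.inv_mem hu) hNC hv
  obtain ⟨y, hy, hfix⟩ := exists_fixed_in_coset hN hl hg hsl hs hC.isP hNC hcen
  have hyc := (mem_zC.1 hy).2 c hc
  have h1 : c * (N * y) = (N * y) * c := by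
    apply hab c (N * y) hcg
    calc g * (N * y) = g * (N * y) * g⁻¹ * g := by group
      _ = (N * y) * g := by rw [hfix]
  have h2 : c * N = N * c := by
    apply mul_right_cancel (b := y)
    calc c * N * y = (N * y) * c := by rw [mul_assoc, h1]
      _ = N * (y * c) := by rw [mul_assoc]
      _ = N * c * y := by rw [← hyc, mul_assoc]
  have h3 : w ^ l = 1 := by
    rw [← hstep, ← hNdef]
    exact commutatorElement_eq_one_iff_mul_comm.2 h2
  have h4 : orderOf w ∣ l := orderOf_dvd_of_pow_eq_one h3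
  have h5 : orderOf w ∣ s := by
    rw [← hC.z_order]
    exact orderOf_dvd_of_mem_zpowers hwz
  have h6 : Nat.Coprime l s := (Nat.coprime_primes hl hs).2 hsl.symm
  have h7 : orderOf w = 1 := Nat.eq_one_of_dvd_coprimes h6 h4 h5
  exact commutatorElement_eq_one_iff_mul_comm.1 (orderOf_eq_one_iff.1 h7)

private theorem card_modEq_conj (S : Subgroup K) {g : K} {l : ℕ} [Fact l.Prime] (hg : orderOf g = l)
    (hS : ∀ y ∈ S, g * y * g⁻¹ ∈ S) :
    Nat.card S ≡ Nat.card {y : S // g * y.1 * g⁻¹ = y.1} [MOD l] := by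
  let f : S → S := fun y => ⟨g * y.1 * g⁻¹, hS _ y.2⟩
  have hiter : ∀ (k : ℕ) (y : S), (f^[k] y).1 = g ^ k * y.1 * (g ^ k)⁻¹ := by
    intro k y
    induction k with
    | zero => simp
    | succ k ih =>
      rw [Function.iterate_succ_apply']
      change g * (f^[k] y).1 * g⁻¹ = _
      rw [ih, pow_succ']
      group
  have hfl : f^[l] = id := by
    funext y
    apply Subtype.ext
    rw [hiter, ← hg, pow_orderOf_eq_one]
    simp
  have h := card_modEq_fix_of_iterate f hfl
  refine h.trans ?_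
  rw [Nat.card_congr]
  exact Equiv.subtypeEquivRight (fun w => Subtype.ext_iff)

theorem ppd_action {K : Type u} [Group K] [Finite K] {t : ℕ} [Fact t.Prime] {V : Type v}
    [AddCommGroup V] [Module (ZMod t) V] [Finite V] (ρ : Representation (ZMod t) K V)
    (hinj : Function.Injective ρ) (hirr : IrrRep ρ) {C : Subgroup K} {s : ℕ} [Fact s.Prime] {z : K}
    (hC : ClassTwo ρ C s z) {g : K} {l : ℕ} (hl : l.Prime) (hg : orderOf g = l)
    (hn3 : 3 ≤ Module.finrank (ZMod t) V) (hd : l ∣ t ^ Module.finrank (ZMod t) V - 1)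
    (hmin : ∀ d : ℕ, 0 < d → d < Module.finrank (ZMod t) V → ¬ l ∣ t ^ d - 1) :
    s = 2 ∧ l = Module.finrank (ZMod t) V + 1 ∧
      Nat.card (C ⧸ Subgroup.center C) = (Module.finrank (ZMod t) V) ^ 2 ∧
      ∀ c ∈ C, (∀ u ∈ C, u * (g * c * g⁻¹ * c⁻¹) = (g * c * g⁻¹ * c⁻¹) * u) →
        ∀ u ∈ C, u * c = c * u := by
  classical
  have hs : s.Prime := Fact.out
  have ht : t.Prime := Fact.out
  have : Fact l.Prime := ⟨hl⟩
  have hn0 : 0 < Module.finrank (ZMod t) V := by omega
  have hnt : Nontrivial V := Module.nontrivial_of_finrank_pos hn0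
  have hne := l_ne_t (t := t) (V := V) hd hn0
  have hN := hC.normal
  -- the representation of `C`
  let σ : Representation (ZMod t) C V := ρ.comp C.subtype
  let z' : C := ⟨z, hC.z_mem⟩
  have hzc : z' ∈ Subgroup.center C := by
    rw [Subgroup.mem_center_iff]
    intro u
    apply Subtype.ext
    exact hC.z_central u.1 u.2
  have hcomm : ∀ u x : C, ⁅u, x⁆ ∈ Subgroup.zpowers z' := by
    intro u x
    obtain ⟨k, hk⟩ := hC.comm_mem u.1 u.2 x.1 x.2
    exact ⟨k, Subtype.ext hk⟩
  have hord : orderOf z' = s := by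
    rw [← hC.z_order]
    exact Subgroup.orderOf_mk z hC.z_mem
  have hfpf : ∀ i : ℕ, z' ^ i ≠ 1 → ∀ w : V, σ (z' ^ i) w = w → w = 0 := by
    intro i hi w hw
    have hsi : ¬ s ∣ i := fun h => hi (by rw [← hord] at h; exact orderOf_dvd_iff_pow_eq_one.1 h)
    have hcop : Nat.Coprime i s := ((Nat.Prime.coprime_iff_not_dvd hs).2 hsi).symm
    obtain ⟨j, hj⟩ := Nat.exists_mul_mod_eq_one_of_coprime hcop hs.one_lt
    have h1 : z' ^ (i * j) = z' := by
      rw [← pow_mod_orderOf, hord, hj.2, pow_one]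
    have h2 : ∀ j : ℕ, σ (z' ^ (i * j)) w = w := by
      intro j
      induction j with
      | zero => simp
      | succ j ih =>
        rw [mul_add, mul_one, pow_add, map_mul, Module.End.mul_apply, hw, ih]
    apply hC.z_fpf
    have h3 := h2 j
    rw [h1] at h3
    exact h3
  have hE := card_quot_center_le_sq σ z' hzc hcomm hfpf
  obtain ⟨e, he⟩ := isSquare_card_quot_center z' hzc (by rw [hord]; exact hs) hcomm
  set n := Module.finrank (ZMod t) V with hn
  have hen : e ≤ n := by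
    by_contra hcon
    push Not at hcon
    rw [he] at hE
    nlinarith
  have hcardpos : 0 < Nat.card (C ⧸ Subgroup.center C) := Nat.card_pos
  have he1 : e ≠ 1 := by
    rintro rfl
    have h1 : (Subgroup.center C).index = 1 := he
    rw [Subgroup.index_eq_one] at h1
    obtain ⟨u, hu, x, hx, hnc⟩ := hC.noncomm
    apply hnc
    have h2 : (⟨u, hu⟩ : C) ∈ Subgroup.center C := h1 ▸ Subgroup.mem_top _
    have h3 := Subgroup.mem_center_iff.1 h2 ⟨x, hx⟩
    exact (congrArg Subtype.val h3).symm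
  have he2 : 2 ≤ e := by
    have : e ≠ 0 := by
      rintro rfl
      omega
    omega
  obtain ⟨m, hm⟩ := IsPGroup.iff_card.1 (hC.isP.to_quotient (Subgroup.center C))
  have hes : e ∣ s ^ m := by
    rw [← hm, he]
    exact dvd_mul_right _ _
  obtain ⟨b, _, heb⟩ := (Nat.dvd_prime_pow hs).1 hes
  have hb : b ≠ 0 := by
    rintro rfl
    simp at heb
    omega
  have hse : s ≤ e := by
    rw [heb]
    exact Nat.le_self_pow hb s
  -- `n < l`
  have hnl : n ≤ l - 1 := by
    by_contra hcon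
    push Not at hcon
    have hcop : Nat.Coprime t l := (Nat.coprime_primes ht hl).2 hne.symm
    have h1 := Nat.ModEq.pow_totient hcop
    rw [Nat.totient_prime hl] at h1
    have hl2 := hl.two_le
    exact hmin (l - 1) (by omega) hcon ((Nat.modEq_iff_dvd' (Nat.one_le_pow _ _ ht.pos)).1 h1.symm)
  have hl2 := hl.two_le
  have hsl : s < l := by omega
  have hgz := g_comm_z hC hl hg hsl
  have hab : ∀ a b : K, g * a = a * g → g * b = b * g → a * b = b * a := by
    intro a b ha hb
    have h1 := commute_of_commute_g ρ hinj hl hg hn0 hd hmin (ρ a) (ρ b)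
      (by rw [← map_mul, ← map_mul, ha]) (by rw [← map_mul, ← map_mul, hb])
    apply hinj
    rw [map_mul, map_mul, h1]
  have hfixcen : ∀ c ∈ C, g * c = c * g → ∀ u ∈ C, c * u = u * c := fun c hc hcg u hu =>
    central_of_fixed hC hl hg hsl.ne hgz hab hc hcg hu
  have hlast : ∀ c ∈ C, (∀ u ∈ C, u * (g * c * g⁻¹ * c⁻¹) = (g * c * g⁻¹ * c⁻¹) * u) →
      ∀ u ∈ C, u * c = c * u := by
    intro c hc hcen u hu
    obtain ⟨y, hy, hfix⟩ := exists_fixed_in_coset hN hl hg hsl.ne hs hC.isP hc hcen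
    have hyC := mem_zC.1 hy
    have h1 : g * (c * y) = (c * y) * g := by
      calc g * (c * y) = g * (c * y) * g⁻¹ * g := by group
        _ = (c * y) * g := by rw [hfix]
    have h2 := hfixcen (c * y) (C.mul_mem hc hyC.1) h1 u hu
    apply mul_right_cancel (b := y)
    calc u * c * y = u * (c * y) := by rw [mul_assoc]
      _ = c * y * u := h2.symm
      _ = c * (y * u) := by rw [mul_assoc]
      _ = c * (u * y) := by rw [hyC.2 u hu]
      _ = c * u * y := by rw [mul_assoc]
  -- counting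
  have hc1 := card_modEq_conj C hg (fun y hy => hN.conj_mem y hy g)
  have hz1 := card_modEq_conj (zC C) hg (fun y hy => conj_mem_zC hN hy g)
  have hbij : Nat.card {y : C // g * y.1 * g⁻¹ = y.1} =
      Nat.card {y : zC C // g * y.1 * g⁻¹ = y.1} := by
    refine Nat.card_congr ⟨fun y => ⟨⟨y.1.1, mem_zC.2 ⟨y.1.2, fun u hu => ?_⟩⟩, y.2⟩,
      fun y => ⟨⟨y.1.1, (mem_zC.1 y.1.2).1⟩, y.2⟩, fun y => rfl, fun y => rfl⟩
    have h1 : g * y.1.1 = y.1.1 * g := by
      calc g * y.1.1 = g * y.1.1 * g⁻¹ * g := by group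
        _ = y.1.1 * g := by rw [y.2]
    exact (hfixcen _ y.1.2 h1 u hu).symm
  have hcz : Nat.card C ≡ Nat.card (zC C) [MOD l] := by
    refine hc1.trans ?_
    rw [hbij]
    exact hz1.symm
  have hcent : Nat.card (Subgroup.center C) = Nat.card (zC C) := by
    refine Nat.card_congr ⟨fun y => ⟨y.1.1, mem_zC.2 ⟨y.1.2, fun u hu => ?_⟩⟩,
      fun y => ⟨⟨y.1, (mem_zC.1 y.2).1⟩, ?_⟩, fun y => rfl, fun y => rfl⟩
    · have h3 := Subgroup.mem_center_iff.1 y.2 ⟨u, hu⟩
      exact congrArg Subtype.val h3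
    · rw [Subgroup.mem_center_iff]
      intro u
      apply Subtype.ext
      exact (mem_zC.1 y.2).2 u.1 u.2
  have hCcard : Nat.card C = e * e * Nat.card (zC C) := by
    rw [Subgroup.card_eq_card_quotient_mul_card_subgroup (Subgroup.center C), he, hcent]
  have hZcop : Nat.Coprime (Nat.card (zC C)) l := by
    have hZ : IsPGroup s (zC C) := hC.isP.to_le (fun y hy => (mem_zC.1 hy).1)
    obtain ⟨m', hm'⟩ := IsPGroup.iff_card.1 hZ
    rw [hm']
    exact ((Nat.coprime_primes hs hl).2 hsl.ne).pow_left m'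
  have hmod : e * e ≡ 1 [MOD l] := by
    rw [hCcard] at hcz
    have h1 : Nat.card (zC C) * (e * e) ≡ Nat.card (zC C) * 1 [MOD l] := by
      rw [mul_comm, mul_one]
      exact hcz
    exact Nat.ModEq.cancel_left_of_coprime (by rw [Nat.gcd_comm]; exact hZcop) h1
  have hdvd : l ∣ e * e - 1 := (Nat.modEq_iff_dvd' (by nlinarith)).1 hmod.symm
  obtain ⟨k, rfl⟩ : ∃ k, e = k + 1 := ⟨e - 1, by omega⟩
  have hfac : (k + 1) * (k + 1) - 1 = k * (k + 2) := by
    apply Nat.sub_eq_of_eq_add
    ring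
  rw [hfac] at hdvd
  have hk : ¬ l ∣ k := fun h => by
    have := Nat.le_of_dvd (by omega) h
    omega
  have hlk : l ∣ k + 2 := (hl.dvd_mul.1 hdvd).resolve_left hk
  have hle := Nat.le_of_dvd (by omega) hlk
  have hlval : l = n + 1 := by omega
  have hkval : k + 1 = n := by omega
  refine ⟨?_, hlval, ?_, hlast⟩
  · by_contra hs2
    have hsodd : Odd s := hs.odd_of_ne_two hs2
    have hlodd : Odd l := hl.odd_of_ne_two (by omega)
    have hnev : Even n := by
      rw [hlval] at hlodd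
      exact (Nat.odd_add_one.1 hlodd |> Nat.not_odd_iff_even.1)
    have hodd : Odd n := by
      rw [← hkval, heb]
      exact hsodd.pow
    exact (Nat.not_even_iff_odd.2 hodd) hnev
  · rw [he, hkval, sq]

end Main



end Cfsg.Agent.Lib.Palfy
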