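import Mathlib
import Cfsg.Agent.Lib.Palfy.Defs
import Cfsg.Agent.Lib.Palfy.PpdAct
import Cfsg.Agent.Lib.Palfy.Indep
import Cfsg.Agent.Lib.Palfy.Spread
import Cfsg.Agent.Lib.Palfy.Ppd
import Cfsg.Agent.Lib.Coprime.Coset

set_option autoImplicit false
set_option linter.unusedSectionVars false

namespace Cfsg.Agent.Lib.Palfy

open Cfsg
open scoped commutatorElement

universe u v

namespace FinalN

theorem card_modEq_fix {α : Type*} [Finite α] {w : ℕ} [Fact w.Prime] (f : α → α) (hf : f^[w] = id) :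
    Nat.card α ≡ Nat.card {a : α // f a = a} [MOD w] := by
  classical
  haveI := Fintype.ofFinite α
  let g : Function.End α := f
  have hfe : g ^ w ^ 1 = 1 := by
    rw [pow_one]
    exact hf
  have := Equiv.Perm.card_fixedPoints_modEq (f := g) (p := w) (n := 1) hfe
  rw [Nat.card_eq_fintype_card]
  convert this using 1
  rw [Nat.card_eq_fintype_card]
  exact Fintype.card_congr (Equiv.subtypeEquivRight (fun a => by simp [Function.fixedPoints, Function.IsFixedPt, g]))

theorem eq_of_iterate {A : Type*} [Group A] [Finite A] {s k w : ℕ} (hs : s.Prime) (hw : w.Prime)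
    (hA : Nat.card A = s ^ k) (f : A →* A) (hf : f^[w] = id)
    (hnd : ∀ j < k, ¬ w ∣ s ^ k - s ^ j) (a : A) : f a = a := by
  classical
  haveI : Fact w.Prime := ⟨hw⟩
  let A₀ : Subgroup A := MonoidHom.eqLocus f (MonoidHom.id A)
  have hA₀ : ∀ b, b ∈ A₀ ↔ f b = b := fun b => Iff.rfl
  obtain ⟨j, hj, hcard⟩ := (Nat.dvd_prime_pow hs).1 (hA ▸ Subgroup.card_subgroup_dvd_card A₀)
  by_cases hjk : j = k
  · have h1 : A₀ = ⊤ := Subgroup.eq_top_of_card_eq _ (by rw [hcard, hjk, hA])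
    have ha : a ∈ A₀ := by rw [h1]; trivial
    exact ha
  · exfalso
    have hjlt : j < k := lt_of_le_of_ne hj hjk
    apply hnd j hjlt
    have h2 := card_modEq_fix (w := w) (f : A → A) hf
    have h3 : Nat.card {a : A // f a = a} = s ^ j := by
      rw [← hcard]
      rfl
    rw [h3, hA] at h2
    exact (Nat.modEq_iff_dvd' (Nat.pow_le_pow_right hs.pos hj)).1 h2.symm

section Cent
variable {K : Type u} [Group K]

/-- The center of `C` as a subgroup of `K`. -/
def Zc (C : Subgroup K) : Subgroup K := C ⊓ Subgroup.centralizer (C : Set K)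

theorem mem_Zc {C : Subgroup K} {a : K} : a ∈ Zc C ↔ a ∈ C ∧ ∀ u ∈ C, u * a = a * u := by
  simp only [Zc, Subgroup.mem_inf, Subgroup.mem_centralizer_iff, SetLike.mem_coe]

instance Zc_normal (C : Subgroup K) [hC : C.Normal] : (Zc C).Normal := by
  constructor
  intro n hn g
  rw [mem_Zc] at hn ⊢
  refine ⟨hC.conj_mem n hn.1 g, fun u hu => ?_⟩
  have h := hn.2 (g⁻¹ * u * g) (by simpa using hC.conj_mem u hu g⁻¹)
  calc u * (g * n * g⁻¹) = g * ((g⁻¹ * u * g) * n) * g⁻¹ := by group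
    _ = g * (n * (g⁻¹ * u * g)) * g⁻¹ := by rw [h]
    _ = (g * n * g⁻¹) * u := by group

/-- `x` acts trivially on `C / Z(C)`. -/
def ActsTriv (C : Subgroup K) (x : K) : Prop := ∀ c ∈ C, c⁻¹ * (x * c * x⁻¹) ∈ Zc C

theorem ActsTriv.pow {C : Subgroup K} [hC : C.Normal] {x : K} (h : ActsTriv C x) (i : ℕ) :
    ActsTriv C (x ^ i) := by
  induction i with
  | zero =>
    intro c _
    simpa using (Zc C).one_mem
  | succ i ih =>
    intro c hc
    have h1 := ih c hc
    have h2 := h c hc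
    have h3 : x * (c⁻¹ * (x ^ i * c * (x ^ i)⁻¹)) * x⁻¹ ∈ Zc C := (Zc_normal C).conj_mem _ h1 x
    have h4 := (Zc C).mul_mem h2 h3
    convert h4 using 1
    rw [pow_succ']
    group

theorem ActsTriv.exists_fix {C : Subgroup K} [hC : C.Normal] [Finite K] {x : K} (h : ActsTriv C x)
    (hcop : (orderOf x).Coprime (Nat.card C)) {c : K} (hc : c ∈ C) :
    ∃ c₁ ∈ C, x * c₁ = c₁ * x ∧ c⁻¹ * c₁ ∈ Zc C := by
  have hA : Subgroup.zpowers x ≤ Subgroup.normalizer (C : Set K) := by
    rw [Subgroup.normalizer_eq_top]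
    exact le_top
  have hNA : Subgroup.zpowers x ≤ Subgroup.normalizer ((Zc C : Subgroup K) : Set K) := by
    rw [Subgroup.normalizer_eq_top]
    exact le_top
  have hco : (Nat.card (Subgroup.zpowers x)).Coprime (Nat.card C) := by
    rwa [Nat.card_zpowers]
  have ht : ∀ a ∈ Subgroup.zpowers x, c⁻¹ * (a * c * a⁻¹) ∈ Zc C := by
    intro a ha
    rw [← mem_powers_iff_mem_zpowers] at ha
    obtain ⟨i, rfl⟩ := ha
    exact (h.pow i) c hc
  obtain ⟨c₁, hc₁, hcc⟩ := Cfsg.Agent.Lib.Coprime.Coset.exists_centralizer_mem_coset hA hco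
    (Or.inl inferInstance) (inf_le_left : Zc C ≤ C) hNA c hc ht
  refine ⟨c₁, hc₁.1, ?_, hcc⟩
  exact (Subgroup.mem_centralizer_iff.mp hc₁.2) x (Subgroup.mem_zpowers x)

end Cent

section Quot
variable {K : Type u} [Group K] (C : Subgroup K) [hC : C.Normal]

/-- conjugation on `C / Z(C)` -/
noncomputable def conjQ (x : K) : (C ⧸ Subgroup.center C) →* (C ⧸ Subgroup.center C) :=
  QuotientGroup.map (Subgroup.center C) (Subgroup.center C)
    (MulAut.conjNormal x : MulAut C).toMonoidHom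
    (Subgroup.characteristic_iff_le_comap.mp inferInstance (MulAut.conjNormal x))

theorem conjQ_mk (x : K) (c : C) :
    conjQ C x (c : C ⧸ Subgroup.center C) = (((MulAut.conjNormal x : MulAut C) c : C) : C ⧸ Subgroup.center C) := rfl

theorem conjQ_iter (x : K) (j : ℕ) (c : C) :
    (conjQ C x)^[j] (c : C ⧸ Subgroup.center C) =
      (((MulAut.conjNormal (x ^ j) : MulAut C) c : C) : C ⧸ Subgroup.center C) := by
  induction j with
  | zero => simp
  | succ j ih =>
    rw [Function.iterate_succ_apply', ih, conjQ_mk, pow_succ', map_mul, MulAut.mul_apply]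

theorem conjQ_iterate_eq {x : K} {w : ℕ} (hx : x ^ w = 1) : (conjQ C x)^[w] = id := by
  funext a
  induction a using QuotientGroup.induction_on with
  | H c =>
    rw [conjQ_iter, hx, map_one]
    rfl

theorem actsTriv_of_conjQ [Finite K] {x : K} {s k w : ℕ} (hs : s.Prime) (hw : w.Prime)
    (hx : x ^ w = 1)
    (hA : Nat.card (C ⧸ Subgroup.center C) = s ^ k) (hnd : ∀ j < k, ¬ w ∣ s ^ k - s ^ j) :
    ActsTriv C x := by
  intro c hc
  have h1 := eq_of_iterate hs hw hA (conjQ C x) (conjQ_iterate_eq C hx) hnd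
    ((⟨c, hc⟩ : C) : C ⧸ Subgroup.center C)
  rw [conjQ_mk, eq_comm, QuotientGroup.eq] at h1
  rw [mem_Zc]
  have h2 := Subgroup.mem_center_iff.mp h1
  refine ⟨C.mul_mem (C.inv_mem hc) (hC.conj_mem c hc x), fun u hu => ?_⟩
  have h3 := h2 ⟨u, hu⟩
  simpa [MulAut.conjNormal_apply, Subtype.ext_iff] using h3

end Quot

section Rep
variable {K : Type u} [Group K] [Finite K] {t : ℕ} [Fact t.Prime] {V : Type v} [AddCommGroup V]
  [Module (ZMod t) V] [Finite V] {ρ : Representation (ZMod t) K V}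

/-- restriction of `ρ` to a subgroup on an invariant subspace -/
def subRep (ρ : Representation (ZMod t) K V) (D : Subgroup K) (U : Submodule (ZMod t) V)
    (hU : ∀ d ∈ D, ∀ u ∈ U, ρ d u ∈ U) : Representation (ZMod t) D U where
  toFun d := (ρ d).restrict (hU d d.2)
  map_one' := by ext; simp
  map_mul' := by intro a b; ext; simp

theorem pow_of_fix (g : K) (w : V) (h : ρ g w = w) (j : ℕ) : ρ (g ^ j) w = w := by
  induction j with
  | zero => simp
  | succ j ih =>
    rw [pow_succ, map_mul, Module.End.mul_apply, h, ih]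

theorem gen_of_pow {z : K} {s : ℕ} [hs : Fact s.Prime] (hz : orderOf z = s) {i : ℕ} (hi : z ^ i ≠ 1) :
    ∃ j : ℕ, (z ^ i) ^ j = z := by
  have h1 : ¬ s ∣ i := by
    intro h
    exact hi (orderOf_dvd_iff_pow_eq_one.mp (by rw [hz]; exact h))
  have h2 : Nat.Coprime i s := ((Nat.Prime.coprime_iff_not_dvd hs.out).2 h1).symm
  obtain ⟨j, hj⟩ := Nat.exists_mul_mod_eq_one_of_coprime h2 hs.out.one_lt
  refine ⟨j, ?_⟩
  rw [← pow_mul, ← pow_mod_orderOf, hz, hj.2, pow_one]

theorem fpf_pow {C : Subgroup K} {s : ℕ} [hs : Fact s.Prime] {z : K} (hC : ClassTwo ρ C s z) {i : ℕ}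
    (hi : z ^ i ≠ 1) (w : V) (hw : ρ (z ^ i) w = w) : w = 0 := by
  obtain ⟨j, hj⟩ := gen_of_pow hC.z_order hi
  apply hC.z_fpf
  have := pow_of_fix (z ^ i) w hw j
  rwa [hj] at this

theorem card_le_sub {C : Subgroup K} {s : ℕ} [hs : Fact s.Prime] {z : K} (hC : ClassTwo ρ C s z)
    (D : Subgroup K) (hDC : D ≤ C) (hzD : z ∈ D) (U : Submodule (ZMod t) V)
    (hU : ∀ d ∈ D, ∀ u ∈ U, ρ d u ∈ U) (hne : U ≠ ⊥) :
    Nat.card (D ⧸ Subgroup.center D) ≤ (Module.finrank (ZMod t) U) ^ 2 := by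
  haveI : Nontrivial U := Submodule.nontrivial_iff_ne_bot.mpr hne
  apply card_quot_center_le_sq (subRep ρ D U hU) (⟨z, hzD⟩ : D)
  · rw [Subgroup.mem_center_iff]
    intro g
    exact Subtype.ext (hC.z_central g (hDC g.2))
  · intro u x
    obtain ⟨k, hk⟩ := Subgroup.mem_zpowers_iff.mp (hC.comm_mem u (hDC u.2) x (hDC x.2))
    refine Subgroup.mem_zpowers_iff.mpr ⟨k, Subtype.ext ?_⟩
    simpa [commutatorElement_def] using hk
  · intro i hi w hw
    have hi' : z ^ i ≠ 1 := by
      intro h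
      exact hi (Subtype.ext (by simpa using h))
    have h1 : ρ (z ^ i) (w : V) = w := by
      have := congrArg (Subtype.val) hw
      simpa [subRep] using this
    have := fpf_pow hC hi' (w : V) h1
    exact Subtype.ext this

theorem nontrivial_V {C : Subgroup K} {s : ℕ} [hs : Fact s.Prime] {z : K} (hC : ClassTwo ρ C s z)
    (hinj : Function.Injective ρ) : Nontrivial V := by
  by_contra h
  rw [not_nontrivial_iff_subsingleton] at h
  have h1 : ρ z = 1 := by
    ext v
    exact Subsingleton.elim _ _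
  have h2 : z = 1 := hinj (by rw [h1, map_one])
  have h3 := hC.z_order
  rw [h2, orderOf_one] at h3
  exact hs.out.one_lt.ne h3

theorem s_dvd {s : ℕ} [hs : Fact s.Prime] {z : K} (hz : orderOf z = s) (U : Submodule (ZMod t) V)
    (hU : ∀ u ∈ U, ρ z u ∈ U) (hfix : ∀ v, ρ z v = v → v = 0) :
    s ∣ t ^ Module.finrank (ZMod t) U - 1 := by
  classical
  have ht : (Fact.out : t.Prime).one_lt = (Fact.out : t.Prime).one_lt := rfl
  let g : U → U := fun u => ⟨ρ z u, hU u u.2⟩
  have hg : ∀ j (u : U), ((g^[j] u : U) : V) = ρ (z ^ j) u := by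
    intro j u
    induction j with
    | zero => simp
    | succ j ih =>
      rw [Function.iterate_succ_apply']
      show ρ z ((g^[j] u : U) : V) = _
      rw [ih, pow_succ', map_mul, Module.End.mul_apply]
  have hg2 : g^[s] = id := by
    funext u
    apply Subtype.ext
    rw [hg, ← hz, pow_orderOf_eq_one, map_one]
    rfl
  have h1 := card_modEq_fix g hg2
  have h2 : Nat.card {u : U // g u = u} = 1 := by
    haveI : Unique {u : U // g u = u} := {
      default := ⟨0, by apply Subtype.ext; simp [g]⟩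
      uniq := by
        rintro ⟨u, hu⟩
        apply Subtype.ext
        apply Subtype.ext
        have : ρ z (u : V) = u := congrArg Subtype.val hu
        simpa using hfix _ this }
    simp
  have h3 : Nat.card U = t ^ Module.finrank (ZMod t) U := by
    rw [Module.natCard_eq_pow_finrank (K := ZMod t), Nat.card_zmod]
  rw [h2, h3] at h1
  exact (Nat.modEq_iff_dvd' (Nat.one_le_pow _ _ (Fact.out : t.Prime).pos)).1 h1.symm

end Rep

section Main
variable {K : Type u} [Group K] [Finite K] {t : ℕ} [Fact t.Prime] {V : Type v} [AddCommGroup V]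
  [Module (ZMod t) V] [Finite V] {ρ : Representation (ZMod t) K V}
  {C : Subgroup K} {s : ℕ} [hs : Fact s.Prime] {z : K}

theorem x_comm_z (hC : ClassTwo ρ C s z) {x : K} (hx : ActsTriv C x) : x * z = z * x := by
  haveI := hC.normal
  obtain ⟨u, hu, y, hy, huy⟩ := hC.noncomm
  have h0 := hC.comm_mem u hu y hy
  rw [← mem_powers_iff_mem_zpowers] at h0
  obtain ⟨i, hi⟩ := h0
  have hi' : z ^ i = ⁅u, y⁆ := hi
  have hne : z ^ i ≠ 1 := by
    rw [hi', Ne, commutatorElement_eq_one_iff_mul_comm]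
    exact huy
  obtain ⟨j, hj⟩ := gen_of_pow hC.z_order hne
  have ha := mem_Zc.mp (hx u hu)
  have hb := mem_Zc.mp (hx y hy)
  set a := u⁻¹ * (x * u * x⁻¹) with ha'
  set b := y⁻¹ * (x * y * x⁻¹) with hb'
  have h1 : x * u * x⁻¹ = u * a := by rw [ha']; group
  have h2 : x * y * x⁻¹ = y * b := by rw [hb']; group
  have h3 : x * ⁅u, y⁆ * x⁻¹ = ⁅u, y⁆ := by
    have e1 : x * ⁅u, y⁆ * x⁻¹ = (x * u * x⁻¹) * (x * y * x⁻¹) * (x * u * x⁻¹)⁻¹ * (x * y * x⁻¹)⁻¹ := by
      rw [commutatorElement_def]; group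
    rw [e1, h1, h2, commutatorElement_def]
    have c1 : y * a = a * y := ha.2 y hy
    have c2 : u * b = b * u := hb.2 u hu
    have c3 : a * b = b * a := hb.2 a ha.1
    have e2 : (u * a) * (y * b) = u * y * (a * b) := by
      calc (u * a) * (y * b) = u * (a * y) * b := by group
        _ = u * (y * a) * b := by rw [c1]
        _ = u * y * (a * b) := by group
    have e3 : (y * b) * (u * a) = y * u * (a * b) := by
      calc (y * b) * (u * a) = y * (b * u) * a := by group
        _ = y * (u * b) * a := by rw [c2]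
        _ = y * u * (b * a) := by group
        _ = y * u * (a * b) := by rw [c3]
    calc (u * a) * (y * b) * (u * a)⁻¹ * (y * b)⁻¹
        = ((u * a) * (y * b)) * ((y * b) * (u * a))⁻¹ := by group
      _ = (u * y * (a * b)) * (y * u * (a * b))⁻¹ := by rw [e2, e3]
      _ = u * y * u⁻¹ * y⁻¹ := by group
  have h4 : Commute x (z ^ i) := by
    rw [hi']
    show x * ⁅u, y⁆ = ⁅u, y⁆ * x
    calc x * ⁅u, y⁆ = (x * ⁅u, y⁆ * x⁻¹) * x := by group
      _ = ⁅u, y⁆ * x := by rw [h3]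
  have h5 : Commute x z := by
    have := h4.pow_right j
    rwa [hj] at this
  exact h5

theorem card_le_cent (C : Subgroup K) [hN : C.Normal] {x : K} (hx : ActsTriv C x)
    (hcop : (orderOf x).Coprime (Nat.card C)) :
    Nat.card (C ⧸ Subgroup.center C) ≤
      Nat.card (↥(C ⊓ Subgroup.centralizer {x}) ⧸ Subgroup.center ↥(C ⊓ Subgroup.centralizer {x})) := by
  set D := C ⊓ Subgroup.centralizer {x} with hD
  let φ : D →* C ⧸ Subgroup.center C :=
    (QuotientGroup.mk' (Subgroup.center C)).comp (Subgroup.inclusion (inf_le_left : D ≤ C))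
  have hfix : ∀ g : C, ∃ c₁ : D, (g : K)⁻¹ * (c₁ : K) ∈ Zc C := by
    intro g
    obtain ⟨c₁, hc₁, hcm, hm⟩ := hx.exists_fix hcop g.2
    refine ⟨⟨c₁, hc₁, Subgroup.mem_centralizer_iff.mpr ?_⟩, hm⟩
    intro h hh
    rw [Set.mem_singleton_iff] at hh
    rw [hh]
    exact hcm
  have hker : Subgroup.center D ≤ φ.ker := by
    intro d hd
    rw [MonoidHom.mem_ker]
    show (((Subgroup.inclusion (inf_le_left : D ≤ C)) d : C) : C ⧸ Subgroup.center C) = 1
    rw [QuotientGroup.eq_one_iff, Subgroup.mem_center_iff]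
    intro g
    obtain ⟨c₁, hc⟩ := hfix g
    have hc' := mem_Zc.mp hc
    have h1 : (c₁ : K) * (d : K) = (d : K) * (c₁ : K) := by
      have := Subgroup.mem_center_iff.mp hd c₁
      exact congrArg Subtype.val this
    set n := (g : K)⁻¹ * (c₁ : K) with hn
    have h2 : (d : K) * n = n * (d : K) := (hc'.2 d d.2.1)
    have h3 : (g : K) = c₁ * n⁻¹ := by rw [hn]; group
    apply Subtype.ext
    show (g : K) * (d : K) = (d : K) * (g : K)
    have h4 : (d : K) * n⁻¹ = n⁻¹ * (d : K) := by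
      have := (Commute.inv_right (show Commute (d : K) n from h2))
      exact this
    rw [h3]
    calc (c₁ : K) * n⁻¹ * d = c₁ * (n⁻¹ * d) := by group
      _ = c₁ * (d * n⁻¹) := by rw [h4]
      _ = (c₁ * d) * n⁻¹ := by group
      _ = (d * c₁) * n⁻¹ := by rw [h1]
      _ = d * (c₁ * n⁻¹) := by group
  apply Nat.card_le_card_of_surjective (QuotientGroup.lift (Subgroup.center D) φ hker)
  intro a
  induction a using QuotientGroup.induction_on with
  | H g =>
    obtain ⟨c₁, hc⟩ := hfix g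
    refine ⟨(c₁ : D ⧸ Subgroup.center D), ?_⟩
    rw [QuotientGroup.lift_mk]
    show (((Subgroup.inclusion (inf_le_left : D ≤ C)) c₁ : C) : C ⧸ Subgroup.center C) = (g : C ⧸ Subgroup.center C)
    rw [eq_comm, QuotientGroup.eq, Subgroup.mem_center_iff]
    intro u
    apply Subtype.ext
    exact (mem_Zc.mp hc).2 u u.2

theorem dims_of_triv (hC : ClassTwo ρ C s z) (hinj : Function.Injective ρ) {x : K}
    (hx : ActsTriv C x) {w : ℕ} (hw : w.Prime) (hwx : orderOf x = w) (hws : w ≠ s) {v : V} (hv : v ≠ 0)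
    (hxv : ρ x v = v) {e : ℕ} (he : Nat.card (C ⧸ Subgroup.center C) = e ^ 2) :
    ∃ d₁ d₂ : ℕ, d₁ + d₂ = Module.finrank (ZMod t) V ∧ e ≤ d₁ ∧ e ≤ d₂ ∧
      s ∣ t ^ d₁ - 1 ∧ s ∣ t ^ d₂ - 1 := by
  haveI := hC.normal
  obtain ⟨m, hm⟩ := IsPGroup.iff_card.mp hC.isP
  have hcop : (orderOf x).Coprime (Nat.card C) := by
    rw [hwx, hm]
    exact Nat.Coprime.pow_right _ ((Nat.coprime_primes hw hs.out).2 hws)
  set D := C ⊓ Subgroup.centralizer {x} with hD
  have hzD : z ∈ D := by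
    refine ⟨hC.z_mem, Subgroup.mem_centralizer_iff.mpr ?_⟩
    intro h hh
    rw [Set.mem_singleton_iff] at hh
    rw [hh]
    exact x_comm_z hC hx
  have hcomm : ∀ d ∈ D, x * d = d * x := by
    intro d hd
    exact (Subgroup.mem_centralizer_iff.mp hd.2) x (Set.mem_singleton x)
  let f : Module.End (ZMod t) V := ρ x - 1
  have hf : ∀ d ∈ D, ∀ u, ρ d (f u) = f (ρ d u) := by
    intro d hd u
    show ρ d (ρ x u - u) = ρ x (ρ d u) - ρ d u
    rw [map_sub, ← Module.End.mul_apply, ← Module.End.mul_apply, ← map_mul, ← map_mul, hcomm d hd]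
  have hU : ∀ d ∈ D, ∀ u ∈ LinearMap.ker f, ρ d u ∈ LinearMap.ker f := by
    intro d hd u hu
    rw [LinearMap.mem_ker] at hu ⊢
    rw [← hf d hd, hu, map_zero]
  have hW : ∀ d ∈ D, ∀ u ∈ LinearMap.range f, ρ d u ∈ LinearMap.range f := by
    rintro d hd _ ⟨u, rfl⟩
    exact ⟨ρ d u, (hf d hd u).symm⟩
  have hUne : LinearMap.ker f ≠ ⊥ := by
    intro h
    have : v ∈ LinearMap.ker f := by
      rw [LinearMap.mem_ker]
      show ρ x v - v = 0
      rw [hxv, sub_self]
    rw [h] at this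
    exact hv ((Submodule.mem_bot _).1 this)
  have hx1 : x ≠ 1 := by
    intro h
    rw [h, orderOf_one] at hwx
    exact hw.one_lt.ne hwx
  have hWne : LinearMap.range f ≠ ⊥ := by
    intro h
    rw [LinearMap.range_eq_bot] at h
    apply hx1
    apply hinj
    rw [map_one]
    exact sub_eq_zero.mp h
  have h1 := card_le_cent C hx hcop
  have h2 := card_le_sub hC D inf_le_left hzD _ hU hUne
  have h3 := card_le_sub hC D inf_le_left hzD _ hW hWne
  rw [he] at h1
  have h4 : e ≤ Module.finrank (ZMod t) (LinearMap.ker f) :=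
    (Nat.pow_le_pow_iff_left (by norm_num)).1 (h1.trans h2)
  have h5 : e ≤ Module.finrank (ZMod t) (LinearMap.range f) :=
    (Nat.pow_le_pow_iff_left (by norm_num)).1 (h1.trans h3)
  refine ⟨_, _, (LinearMap.finrank_range_add_finrank_ker f), h5, h4, ?_, ?_⟩
  · exact s_dvd hC.z_order _ (fun u hu => hW z hzD u hu) hC.z_fpf
  · exact s_dvd hC.z_order _ (fun u hu => hU z hzD u hu) hC.z_fpf

theorem exists_elt {x : ℕ} [hx : Fact x.Prime] (hS : SylFix ρ x) (hxd : x ∣ Nat.card K) {v : V}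
    (hv : v ≠ 0) : ∃ y : K, orderOf y = x ∧ ρ y v = v := by
  obtain ⟨X, hX, -⟩ := hS v hv
  have hne := X.ne_bot_of_dvd_card hxd
  obtain ⟨m, hm⟩ := IsPGroup.iff_card.mp X.isPGroup'
  have hm0 : m ≠ 0 := by
    rintro rfl
    apply hne
    rw [pow_zero] at hm
    exact Subgroup.eq_bot_of_card_eq _ hm
  have hd : x ∣ Nat.card (X : Subgroup K) := by
    rw [hm]
    exact dvd_pow_self x hm0
  obtain ⟨y, hy⟩ := exists_prime_orderOf_dvd_card' x hd
  exact ⟨y, (Subgroup.orderOf_coe y).trans hy, hX y y.2⟩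

theorem s_ne (hC : ClassTwo ρ C s z) [Nontrivial V] {x : ℕ} [hx : Fact x.Prime] (hS : SylFix ρ x) :
    s ≠ x := by
  rintro rfl
  haveI := hC.normal
  obtain ⟨v, hv⟩ := exists_ne (0 : V)
  obtain ⟨X, hX, -⟩ := hS v hv
  have h1 : IsPGroup s ↥(C ⊔ (X : Subgroup K)) := IsPGroup.to_sup_of_normal_left hC.isP X.isPGroup'
  have h2 := X.is_maximal' h1 le_sup_right
  have h3 : z ∈ (X : Subgroup K) := by
    rw [← h2]
    exact Subgroup.mem_sup_left hC.z_mem
  exact hv (hC.z_fpf v (hX z h3))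

theorem spread_eq (hinj : Function.Injective ρ) {x : ℕ} [hx : Fact x.Prime] (hS : SylFix ρ x)
    (hxd : x ∣ Nat.card K) (hn : 1 ≤ Module.finrank (ZMod t) V) :
    ∃ d : ℕ, 0 < d ∧ d < Module.finrank (ZMod t) V ∧
      Nat.card (Sylow x K) * (t ^ d - 1) = t ^ Module.finrank (ZMod t) V - 1 := by
  have huniq : ∀ v : V, v ≠ 0 → ∃! X : Sylow x K, ∀ y ∈ (X : Subgroup K), ρ y v = v := by
    intro v hv
    obtain ⟨X, hX, hX'⟩ := hS v hv
    refine ⟨X, hX, fun X' hX'' => ?_⟩
    have hle : (X' : Subgroup K) ≤ X := by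
      intro y hy
      apply hX' y _ (hX'' y hy)
      obtain ⟨k, hk⟩ := (IsPGroup.iff_orderOf.mp X'.isPGroup') ⟨y, hy⟩
      exact ⟨k, by rw [← hk]; exact (Subgroup.orderOf_mk y hy).symm⟩
    exact Sylow.ext (X'.is_maximal' X.isPGroup' hle).symm
  obtain ⟨X⟩ : Nonempty (Sylow x K) := inferInstance
  have h1 := spread_card ρ huniq X
  have hcard : ∀ (U : Submodule (ZMod t) V), Nat.card U = t ^ Module.finrank (ZMod t) U := by
    intro U
    rw [Module.natCard_eq_pow_finrank (K := ZMod t), Nat.card_zmod]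
  have hV : Nat.card V = t ^ Module.finrank (ZMod t) V := by
    rw [Module.natCard_eq_pow_finrank (K := ZMod t), Nat.card_zmod]
  rw [hcard, hV] at h1
  have ht : 1 < t := (Fact.out : t.Prime).one_lt
  set d := Module.finrank (ZMod t) (fixSub ρ (X : Subgroup K)) with hd
  set n := Module.finrank (ZMod t) V with hn'
  have hpos : 1 < t ^ n := Nat.one_lt_pow (by omega) ht
  refine ⟨d, ?_, ?_, h1⟩
  · rcases Nat.eq_zero_or_pos d with h0 | h0
    · rw [h0] at h1
      simp at h1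
      omega
    · exact h0
  · have hle : d ≤ n := Submodule.finrank_le _
    refine lt_of_le_of_ne hle ?_
    intro heq
    have htop : fixSub ρ (X : Subgroup K) = ⊤ := Submodule.eq_top_of_finrank_eq heq
    apply X.ne_bot_of_dvd_card hxd
    rw [eq_bot_iff]
    intro y hy
    rw [Subgroup.mem_bot]
    apply hinj
    rw [map_one]
    ext v
    have hv : v ∈ fixSub ρ (X : Subgroup K) := by rw [htop]; trivial
    exact hv y hy

end Main

section Arith

theorem exists_half {t m : ℕ} (ht : Odd t) (hm : Even m) : ∃ M : ℕ, t ^ m + 1 = 2 * M ∧ Odd M := by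
  obtain ⟨k, rfl⟩ := hm
  obtain ⟨b, hb⟩ : Odd (t ^ k) := ht.pow
  refine ⟨2 * b ^ 2 + 2 * b + 1, ?_, ⟨b ^ 2 + b, by ring⟩⟩
  rw [pow_add, hb]
  ring

theorem not_dvd_of_half {t r b : ℕ} (ht : 0 < t) (hr : r.Prime) (hr2 : r ≠ 2) (hdvd : r ∣ t ^ (2 ^ b) + 1) :
    ∀ d : ℕ, 0 < d → d < 2 ^ (b + 1) → ¬ r ∣ t ^ d - 1 := by
  intro d hd0 hdn hrd
  haveI : Fact r.Prime := ⟨hr⟩
  have h1 : ((t : ZMod r)) ^ (2 ^ b) = -1 := by
    have := (ZMod.natCast_eq_zero_iff _ r).2 hdvd
    push_cast at this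
    exact eq_neg_of_add_eq_zero_left this
  have h2 : ((t : ZMod r)) ^ d = 1 := by
    have := (ZMod.natCast_eq_zero_iff _ r).2 hrd
    rw [Nat.cast_sub (Nat.one_le_pow _ _ ht)] at this
    push_cast at this
    exact sub_eq_zero.mp this
  have h3 : ((t : ZMod r)) ^ (2 ^ (b + 1)) = 1 := by
    rw [pow_succ, pow_mul, h1]
    norm_num
  have h4 : ((t : ZMod r)) ^ (Nat.gcd d (2 ^ (b + 1))) = 1 := pow_gcd_eq_one.2 ⟨h2, h3⟩
  obtain ⟨i, hi, hgcd⟩ := (Nat.dvd_prime_pow Nat.prime_two).1 (Nat.gcd_dvd_right d (2 ^ (b + 1)))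
  have hle : 2 ^ i ≤ d := hgcd ▸ Nat.le_of_dvd hd0 (Nat.gcd_dvd_left d _)
  have hib : i ≤ b := by
    by_contra h
    have : i = b + 1 := by omega
    rw [this] at hle
    omega
  have h5 : ((t : ZMod r)) ^ (2 ^ b) = 1 := by
    rw [hgcd] at h4
    obtain ⟨c, hc⟩ := pow_dvd_pow 2 hib
    rw [hc, pow_mul, h4, one_pow]
  rw [h1] at h5
  have h6 : ((2 : ℕ) : ZMod r) = 0 := by
    have : (2 : ZMod r) = 0 := by
      linear_combination (-1 : ZMod r) * h5
    exact_mod_cast this
  have h7 := (ZMod.natCast_eq_zero_iff _ r).1 h6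
  exact hr2 ((Nat.prime_dvd_prime_iff_eq hr Nat.prime_two).1 h7)

theorem dvd_sq_sub_one {t m : ℕ} (ht : 0 < t) : t ^ m + 1 ∣ t ^ (m * 2) - 1 := by
  have h1 : t ^ (m * 2) - 1 = (t ^ m) ^ 2 - 1 ^ 2 := by rw [pow_mul]; simp
  rw [h1, Nat.sq_sub_sq]
  exact dvd_mul_right _ _

theorem three_pow_gt {m : ℕ} (hm : 4 ≤ m) : 4 * m + 1 < 3 ^ m := by
  induction m, hm using Nat.le_induction with
  | base => norm_num
  | succ m hm ih =>
    rw [pow_succ]
    omega

theorem exists_five_le {p q s : ℕ} (hp : p.Prime) (hq : q.Prime) (hpq : p ≠ q) (hps : s ≠ p) (hqs : s ≠ q)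
    (hs : s = 2 ∨ s = 3) : 5 ≤ p ∨ 5 ≤ q := by
  by_contra h
  push_neg at h
  obtain ⟨h1, h2⟩ := h
  interval_cases p <;> interval_cases q <;> first | omega | (exfalso; revert hp; norm_num; done) | (exfalso; revert hq; norm_num; done)

theorem exists_seven_le {p q : ℕ} (hp : p.Prime) (hq : q.Prime) (hpq : p ≠ q) (hp2 : p ≠ 2) (hq2 : q ≠ 2)
    (hp5 : p ≠ 5) (hq5 : q ≠ 5) : 7 ≤ p ∨ 7 ≤ q := by
  by_contra h
  push_neg at h
  obtain ⟨h1, h2⟩ := h
  interval_cases p <;> interval_cases q <;> first | omega | (exfalso; revert hp; norm_num; done) | (exfalso; revert hq; norm_num; done)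

end Arith

section Main2
variable {K : Type u} [Group K] [Finite K] {t : ℕ} [Fact t.Prime] {V : Type v} [AddCommGroup V]
  [Module (ZMod t) V] [Finite V] {ρ : Representation (ZMod t) K V}
  {C : Subgroup K} {s : ℕ} [hs : Fact s.Prime] {z : K}

theorem card_struct (hC : ClassTwo ρ C s z) (hinj : Function.Injective ρ) :
    ∃ a : ℕ, 1 ≤ a ∧ Nat.card (C ⧸ Subgroup.center C) = s ^ (2 * a) ∧
      s ^ a ≤ Module.finrank (ZMod t) V := by
  haveI := hC.normal
  haveI := nontrivial_V hC hinj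
  obtain ⟨k, hk⟩ := IsPGroup.iff_card.mp (hC.isP.to_quotient (Subgroup.center C))
  have hzc : (⟨z, hC.z_mem⟩ : C) ∈ Subgroup.center C := by
    rw [Subgroup.mem_center_iff]
    intro g
    exact Subtype.ext (hC.z_central g g.2)
  have hcomm : ∀ u x : C, ⁅u, x⁆ ∈ Subgroup.zpowers (⟨z, hC.z_mem⟩ : C) := by
    intro u x
    obtain ⟨j, hj⟩ := Subgroup.mem_zpowers_iff.mp (hC.comm_mem u u.2 x x.2)
    refine Subgroup.mem_zpowers_iff.mpr ⟨j, Subtype.ext ?_⟩
    simpa [commutatorElement_def] using hj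
  have hord : (orderOf (⟨z, hC.z_mem⟩ : C)).Prime := by
    rw [Subgroup.orderOf_mk, hC.z_order]
    exact hs.out
  obtain ⟨e, he⟩ := isSquare_card_quot_center (⟨z, hC.z_mem⟩ : C) hzc hord hcomm
  have he' : e ∣ s ^ k := by
    rw [← hk, he]
    exact dvd_mul_right e e
  obtain ⟨a, -, rfl⟩ := (Nat.dvd_prime_pow hs.out).1 he'
  have hkk : k = 2 * a := by
    rw [hk, ← pow_add] at he
    have := Nat.pow_right_injective hs.out.two_le he
    omega
  subst hkk
  have ha1 : 1 ≤ a := by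
    rcases Nat.eq_zero_or_pos a with h0 | h0
    · exfalso
      subst h0
      have h1 : (Subgroup.center C).index = 1 := by
        rw [Subgroup.index, hk]
        simp
      have h2 := Subgroup.index_eq_one.mp h1
      obtain ⟨u, hu, x, hx, hne⟩ := hC.noncomm
      have h3 : (⟨x, hx⟩ : C) ∈ Subgroup.center C := by rw [h2]; trivial
      have h4 := Subgroup.mem_center_iff.mp h3 ⟨u, hu⟩
      exact hne (congrArg Subtype.val h4)
    · exact h0
  refine ⟨a, ha1, hk, ?_⟩
  have h1 := card_le_sub hC C le_rfl hC.z_mem (⊤ : Submodule (ZMod t) V) (fun _ _ _ _ => trivial) top_ne_bot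
  rw [finrank_top, hk, mul_comm 2 a, pow_mul] at h1
  exact (Nat.pow_le_pow_iff_left (by norm_num)).1 h1

theorem kill (hC : ClassTwo ρ C s z) (hinj : Function.Injective ρ) {w : ℕ} [hw : Fact w.Prime]
    (hS : SylFix ρ w) (hwd : w ∣ Nat.card K) (hws : w ≠ s) {a : ℕ}
    (hA : Nat.card (C ⧸ Subgroup.center C) = s ^ (2 * a))
    (hnd : ∀ j < 2 * a, ¬ w ∣ s ^ (2 * a) - s ^ j) :
    ∃ d₁ d₂ : ℕ, d₁ + d₂ = Module.finrank (ZMod t) V ∧ s ^ a ≤ d₁ ∧ s ^ a ≤ d₂ ∧
      s ∣ t ^ d₁ - 1 ∧ s ∣ t ^ d₂ - 1 := by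
  haveI := hC.normal
  haveI := nontrivial_V hC hinj
  obtain ⟨v, hv⟩ := exists_ne (0 : V)
  obtain ⟨x, hx, hxv⟩ := exists_elt hS hwd hv
  have hx1 : x ^ w = 1 := by rw [← hx]; exact pow_orderOf_eq_one x
  have htriv : ActsTriv C x := actsTriv_of_conjQ C hs.out hw.out hx1 hA hnd
  exact dims_of_triv hC hinj htriv hw.out hx hws hv hxv (by rw [hA, ← pow_mul, mul_comm])

theorem case_small (hC : ClassTwo ρ C s z) (hinj : Function.Injective ρ) {p q : ℕ}
    [Fact p.Prime] [Fact q.Prime] (hpq : p ≠ q)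
    (hpd : p ∣ Nat.card K) (hqd : q ∣ Nat.card K) (hP : SylFix ρ p) (hQ : SylFix ρ q)
    (hn : Module.finrank (ZMod t) V < 3) : False := by
  haveI := nontrivial_V hC hinj
  obtain ⟨a, ha1, hA, hle⟩ := card_struct hC hinj
  have hs2 : s ≤ s ^ a := Nat.le_self_pow (by omega) s
  have hst : s = 2 := by
    have := hs.out.two_le
    omega
  subst hst
  have ha : a = 1 := by
    by_contra h
    have : 2 ≤ a := by omega
    have h4 : 2 ^ 2 ≤ 2 ^ a := Nat.pow_le_pow_right (by norm_num) this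
    omega
  subst ha
  have hsp := s_ne hC hP
  have hsq := s_ne hC hQ
  have hcase : ∀ w : ℕ, ∀ [Fact w.Prime], SylFix ρ w → w ∣ Nat.card K → 2 ≠ w → 5 ≤ w → False := by
    intro w hw hS hwd hws h5
    obtain ⟨d₁, d₂, h1, h2, h3, -, -⟩ := kill hC hinj hS hwd hws.symm hA (by
      intro j hj hd
      interval_cases j
      · have := Nat.le_of_dvd (by norm_num) hd
        norm_num at this
        omega
      · have := Nat.le_of_dvd (by norm_num) hd
        norm_num at this
        omega)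
    norm_num at h2 h3
    omega
  rcases exists_five_le (Fact.out : p.Prime) (Fact.out : q.Prime) hpq hsp hsq (Or.inl rfl) with h | h
  · exact hcase p hP hpd hsp h
  · exact hcase q hQ hqd hsq h

theorem case_six (hC : ClassTwo ρ C s z) (hinj : Function.Injective ρ) {p q : ℕ}
    [Fact p.Prime] [Fact q.Prime] (hpq : p ≠ q)
    (hpd : p ∣ Nat.card K) (hqd : q ∣ Nat.card K) (hP : SylFix ρ p) (hQ : SylFix ρ q)
    (ht : t = 2) (hn : Module.finrank (ZMod t) V = 6) : False := by
  haveI := nontrivial_V hC hinj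
  obtain ⟨a, ha1, hA, hle⟩ := card_struct hC hinj
  have hs2 : s ≤ s ^ a := Nat.le_self_pow (by omega) s
  have h63 : s ∣ 63 := by
    have := s_dvd hC.z_order (⊤ : Submodule (ZMod t) V) (fun _ _ => trivial) hC.z_fpf
    rw [finrank_top, hn, ht] at this
    simpa using this
  have hs3 : s = 3 := by
    have h1 : s ≤ 6 := by omega
    have h2 := hs.out
    interval_cases s <;> first | rfl | (exfalso; revert h63; norm_num; done) | (exfalso; revert h2; norm_num; done)
  subst hs3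
  have ha : a = 1 := by
    by_contra h
    have : 2 ≤ a := by omega
    have h4 : 3 ^ 2 ≤ 3 ^ a := Nat.pow_le_pow_right (by norm_num) this
    omega
  subst ha
  have hsp := s_ne hC hP
  have hsq := s_ne hC hQ
  have hcase : ∀ w : ℕ, ∀ [Fact w.Prime], SylFix ρ w → w ∣ Nat.card K → 3 ≠ w → 5 ≤ w → False := by
    intro w hw hS hwd hws h5
    have hwp : w.Prime := hw.out
    obtain ⟨d₁, d₂, h1, h2, h3, h4, h6⟩ := kill hC hinj hS hwd hws.symm hA (by
      intro j hj hd
      interval_cases j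
      · have := Nat.le_of_dvd (by norm_num) hd
        norm_num at this hd
        interval_cases w <;> first | omega | (revert hwp; norm_num; done) | (revert hd; norm_num; done)
      · have := Nat.le_of_dvd (by norm_num) hd
        norm_num at this hd
        interval_cases w <;> first | omega | (revert hwp; norm_num; done) | (revert hd; norm_num; done))
    rw [hn] at h1
    rw [ht] at h4 h6
    norm_num at h2 h3
    have hd3 : d₁ = 3 := by omega
    subst hd3
    norm_num at h4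
  rcases exists_five_le (Fact.out : p.Prime) (Fact.out : q.Prime) hpq hsp hsq (Or.inr rfl) with h | h
  · exact hcase p hP hpd hsp h
  · exact hcase q hQ hqd hsq h

end Main2

section Main3
variable {K : Type u} [Group K] [Finite K] {t : ℕ} [Fact t.Prime] {V : Type v} [AddCommGroup V]
  [Module (ZMod t) V] [Finite V] {ρ : Representation (ZMod t) K V}
  {C : Subgroup K} {s : ℕ} [hs : Fact s.Prime] {z : K}

theorem fix_pow (C : Subgroup K) [hC : C.Normal] {x c : K} (h : c⁻¹ * (x * c * x⁻¹) ∈ Zc C) (i : ℕ) :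
    c⁻¹ * (x ^ i * c * (x ^ i)⁻¹) ∈ Zc C := by
  induction i with
  | zero => simpa using (Zc C).one_mem
  | succ i ih =>
    have h3 : x * (c⁻¹ * (x ^ i * c * (x ^ i)⁻¹)) * x⁻¹ ∈ Zc C := (Zc_normal C).conj_mem _ ih x
    have h4 := (Zc C).mul_mem h h3
    convert h4 using 1
    rw [pow_succ']
    group

theorem sub_card_le (C : Subgroup K) [hC : C.Normal] (L : Subgroup K) {c₀ : K} (hc₀ : c₀ ∈ C)
    (hfree : ∀ y ∈ L, c₀⁻¹ * (y * c₀ * y⁻¹) ∈ Zc C → y = 1) :
    Nat.card L ≤ Nat.card (C ⧸ Subgroup.center C) := by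
  let F : L → C ⧸ Subgroup.center C :=
    fun g => (((MulAut.conjNormal (g : K) : MulAut C) ⟨c₀, hc₀⟩ : C) : C ⧸ Subgroup.center C)
  apply Nat.card_le_card_of_injective F
  intro g h hgh
  rw [QuotientGroup.eq, Subgroup.mem_center_iff] at hgh
  have h1 : (g : K) * c₀⁻¹ * (g : K)⁻¹ * ((h : K) * c₀ * (h : K)⁻¹) ∈ Zc C := by
    rw [mem_Zc]
    refine ⟨?_, fun u hu => ?_⟩
    · exact C.mul_mem (by simpa using hC.conj_mem c₀⁻¹ (C.inv_mem hc₀) (g : K)) (hC.conj_mem c₀ hc₀ (h : K))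
    · have := hgh ⟨u, hu⟩
      simpa [MulAut.conjNormal_apply, Subtype.ext_iff, mul_assoc] using this
  have h2 := (Zc_normal C).conj_mem _ h1 (g : K)⁻¹
  have h3 : c₀⁻¹ * (((g : K)⁻¹ * h) * c₀ * ((g : K)⁻¹ * h)⁻¹) ∈ Zc C := by
    convert h2 using 1
    group
  have h4 := hfree _ (L.mul_mem (L.inv_mem g.2) h.2) h3
  apply Subtype.ext
  have h5 : (g : K)⁻¹ * h = 1 := h4
  exact (inv_mul_eq_one.mp h5)

theorem case_final (hC : ClassTwo ρ C s z) (hinj : Function.Injective ρ) {w : ℕ} [hw : Fact w.Prime]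
    (hS : SylFix ρ w) (hwd : w ∣ Nat.card K) (hs2 : s = 2) (ht : t = 3)
    (hn : Module.finrank (ZMod t) V = 4)
    (hA : Nat.card (C ⧸ Subgroup.center C) = s ^ (2 * 2)) (h7 : 7 ≤ w) : False := by
  subst hs2
  by_cases hw7 : w = 7
  · haveI := nontrivial_V hC hinj
    obtain ⟨v, hv⟩ := exists_ne (0 : V)
    obtain ⟨x, hx, -⟩ := exists_elt hS hwd hv
    subst hw7
    let f : Multiplicative V →* Multiplicative V :=
      AddMonoidHom.toMultiplicative (ρ x).toAddMonoidHom
    have hf : ∀ u : V, f (Multiplicative.ofAdd u) = Multiplicative.ofAdd (ρ x u) := fun _ => rfl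
    have hiter : ∀ (j : ℕ) (u : V), f^[j] (Multiplicative.ofAdd u) = Multiplicative.ofAdd (ρ (x ^ j) u) := by
      intro j u
      induction j with
      | zero => simp
      | succ j ih =>
        rw [Function.iterate_succ_apply', ih, hf, pow_succ', map_mul, Module.End.mul_apply]
    have hcard : Nat.card (Multiplicative V) = 3 ^ 4 := by
      have h1 : Nat.card (Multiplicative V) = Nat.card V := Nat.card_congr Multiplicative.toAdd
      rw [h1, Module.natCard_eq_pow_finrank (K := ZMod t), Nat.card_zmod, hn, ht]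
    have hx7 : x ^ 7 = 1 := by rw [← hx]; exact pow_orderOf_eq_one x
    have hit : f^[7] = id := by
      funext a
      have := hiter 7 (Multiplicative.toAdd a)
      rw [hx7, map_one] at this
      exact this
    have hall := eq_of_iterate (s := 3) (k := 4) (w := 7) (by norm_num) (by norm_num) hcard f hit (by
      intro j hj
      interval_cases j <;> norm_num)
    have h1 : ρ x = 1 := by
      ext u
      have := hall (Multiplicative.ofAdd u)
      exact congrArg Multiplicative.toAdd this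
    have h2 : x = 1 := hinj (by rw [h1, map_one])
    rw [h2, orderOf_one] at hx
    omega
  · have h8 : 8 ≤ w := by omega
    have hwp : w.Prime := hw.out
    obtain ⟨d₁, d₂, h1, h2, h3, -, -⟩ := kill hC hinj hS hwd (by omega) hA (by
      intro j hj hd
      have hw' : ∀ m : ℕ, 0 < m → m ≤ 15 → w ∣ m → m = 15 ∨ m = 14 ∨ m = 12 ∨ m = 8 → False := by
        intro m hm0 hm15 hdm hmm
        have hle := Nat.le_of_dvd hm0 hdm
        have hw15 : w ≤ 15 := by omega
        interval_cases w <;> first | (revert hwp; norm_num; done) | (rcases hmm with rfl | rfl | rfl | rfl <;> revert hdm <;> norm_num; done)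
      interval_cases j
      · exact hw' 15 (by norm_num) (by norm_num) (by simpa using hd) (by omega)
      · exact hw' 14 (by norm_num) (by norm_num) (by simpa using hd) (by omega)
      · exact hw' 12 (by norm_num) (by norm_num) (by simpa using hd) (by omega)
      · exact hw' 8 (by norm_num) (by norm_num) (by simpa using hd) (by omega))
    rw [hn] at h1
    norm_num at h2 h3
    omega

end Main3

section Main4
variable {K : Type u} [Group K] [Finite K] {t : ℕ} [Fact t.Prime] {V : Type v} [AddCommGroup V]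
  [Module (ZMod t) V] [Finite V] {ρ : Representation (ZMod t) K V}
  {C : Subgroup K} {s : ℕ} [hs : Fact s.Prime] {z : K}

theorem sylow_dvd (x : ℕ) [Fact x.Prime] : Nat.card (Sylow x K) ∣ Nat.card K := by
  obtain ⟨X⟩ : Nonempty (Sylow x K) := inferInstance
  exact (Sylow.card_dvd_index X).trans (Subgroup.index_dvd_card _)

theorem case_ppd (hC : ClassTwo ρ C s z) (hinj : Function.Injective ρ) (hirr : IrrRep ρ) {p q : ℕ}
    [Fact p.Prime] [Fact q.Prime] (hpq : p ≠ q)
    (hpd : p ∣ Nat.card K) (hqd : q ∣ Nat.card K) (hP : SylFix ρ p) (hQ : SylFix ρ q)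
    (hn3 : 3 ≤ Module.finrank (ZMod t) V) (hex : ¬ (t = 2 ∧ Module.finrank (ZMod t) V = 6)) : False := by
  haveI := hC.normal
  haveI := nontrivial_V hC hinj
  obtain ⟨a, ha1, hA, hle⟩ := card_struct hC hinj
  obtain ⟨dp, hdp0, hdpn, hsp⟩ := spread_eq hinj hP hpd (by omega)
  obtain ⟨dq, hdq0, hdqn, hsq⟩ := spread_eq hinj hQ hqd (by omega)
  have htp : t.Prime := Fact.out
  have ht0 : 0 < t := htp.pos
  have hI : ∀ r : ℕ, r.Prime → r ∣ t ^ Module.finrank (ZMod t) V - 1 →
      (∀ d : ℕ, 0 < d → d < Module.finrank (ZMod t) V → ¬ r ∣ t ^ d - 1) →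
      ∀ g : K, orderOf g = r → s = 2 ∧ r = Module.finrank (ZMod t) V + 1 ∧
        Nat.card (C ⧸ Subgroup.center C) = (Module.finrank (ZMod t) V) ^ 2 ∧
        ∀ c ∈ C, (∀ u ∈ C, u * (g * c * g⁻¹ * c⁻¹) = (g * c * g⁻¹ * c⁻¹) * u) → ∀ u ∈ C, u * c = c * u :=
    fun r hr hd hmin g hg => ppd_action ρ hinj hirr hC hr hg hn3 hd hmin
  have hN : ∀ r : ℕ, r.Prime → r ∣ t ^ Module.finrank (ZMod t) V - 1 →
      (∀ d : ℕ, 0 < d → d < Module.finrank (ZMod t) V → ¬ r ∣ t ^ d - 1) →
      r ∣ Nat.card (Sylow p K) := by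
    intro r hr hd hmin
    rw [← hsp] at hd
    rcases (Nat.Prime.dvd_mul hr).1 hd with h | h
    · exact h
    · exact absurd h (hmin dp hdp0 hdpn)
  have hex_g : ∀ r : ℕ, r.Prime → r ∣ t ^ Module.finrank (ZMod t) V - 1 →
      (∀ d : ℕ, 0 < d → d < Module.finrank (ZMod t) V → ¬ r ∣ t ^ d - 1) → ∃ g : K, orderOf g = r := by
    intro r hr hd hmin
    haveI : Fact r.Prime := ⟨hr⟩
    exact exists_prime_orderOf_dvd_card' r ((hN r hr hd hmin).trans (sylow_dvd p))
  obtain ⟨l, hl, hd, hmin⟩ := exists_ppd_prime htp hn3 hex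
  obtain ⟨g, hg⟩ := hex_g l hl hd hmin
  obtain ⟨hs2, hln, hcardn, -⟩ := hI l hl hd hmin g hg
  subst hs2
  subst hln
  have hna : Module.finrank (ZMod t) V = 2 ^ a := by
    have h1 : (2 ^ a) ^ 2 = (Module.finrank (ZMod t) V) ^ 2 := by
      rw [← hcardn, hA, ← pow_mul, mul_comm]
    exact (Nat.pow_left_injective (n := 2) (by norm_num) h1).symm
  have htodd : Odd t := by
    rcases htp.eq_two_or_odd' with h | h
    · exfalso
      have h2 := s_dvd hC.z_order (⊤ : Submodule (ZMod t) V) (fun _ _ => trivial) hC.z_fpf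
      rw [finrank_top] at h2
      have hfr : 1 ≤ Module.finrank (ZMod t) V := by omega
      generalize Module.finrank (ZMod t) V = n at h2 hfr
      rw [h] at h2
      have h3 : 2 ∣ 2 ^ n := dvd_pow_self 2 (by omega)
      have h4 : 1 ≤ 2 ^ n := Nat.one_le_two_pow
      omega
    · exact h
  have ht3 : 3 ≤ t := by
    have := htp.two_le
    rcases htodd with ⟨k, hk⟩
    omega
  obtain ⟨b, rfl⟩ : ∃ b, a = b + 1 := ⟨a - 1, by omega⟩
  have hb : 1 ≤ b := by
    by_contra h
    have : b = 0 := by omega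
    subst this
    rw [hna] at hn3
    norm_num at hn3
  have hnm : Module.finrank (ZMod t) V = 2 ^ b * 2 := by rw [hna, pow_succ]
  have hmeven : Even (2 ^ b) := (Nat.even_pow' (by omega)).2 even_two
  obtain ⟨M, hM, hModd⟩ := exists_half htodd hmeven
  have hm2 : 2 ≤ 2 ^ b := by
    calc 2 = 2 ^ 1 := by norm_num
      _ ≤ 2 ^ b := Nat.pow_le_pow_right (by norm_num) hb
  have hr2 : ∀ r : ℕ, r.Prime → r ∣ M → r ≠ 2 := by
    rintro r hr hrM rfl
    exact (Nat.not_even_iff_odd.2 hModd) (even_iff_two_dvd.2 hrM)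
  have hrdvd : ∀ r : ℕ, r ∣ M → r ∣ t ^ (2 ^ b) + 1 := by
    intro r hr
    rw [hM]
    exact hr.trans (dvd_mul_left _ _)
  have hMd : M ∣ t ^ Module.finrank (ZMod t) V - 1 := by
    rw [hnm]
    exact (hrdvd M dvd_rfl).trans (dvd_sq_sub_one ht0)
  have hrmin : ∀ r : ℕ, r.Prime → r ∣ M → ∀ d : ℕ, 0 < d → d < Module.finrank (ZMod t) V → ¬ r ∣ t ^ d - 1 := by
    intro r hr hrM d hd0 hdn
    rw [hna] at hdn
    exact not_dvd_of_half ht0 hr (hr2 r hr hrM) (hrdvd r hrM) d hd0 hdn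
  have hrr : ∀ {r : ℕ}, r.Prime → r ∣ M → r = Module.finrank (ZMod t) V + 1 := by
    intro r hr hrM
    have h1 := hrM.trans hMd
    have h2 := hrmin r hr hrM
    obtain ⟨g', hg'⟩ := hex_g r hr h1 h2
    exact (hI r hr h1 h2 g' hg').2.1
  have hM5 : 5 ≤ M := by
    have h1 : 3 ^ 2 ≤ t ^ 2 ^ b :=
      (Nat.pow_le_pow_left ht3 2).trans (Nat.pow_le_pow_right ht0 hm2)
    omega
  have hMpow := Nat.eq_prime_pow_of_unique_prime_dvd (n := M) (p := Module.finrank (ZMod t) V + 1) (by omega) hrr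
  set c := M.primeFactorsList.length with hc
  have hcop : ∀ d : ℕ, 0 < d → d < Module.finrank (ZMod t) V → Nat.Coprime M (t ^ d - 1) := by
    intro d hd0 hdn
    apply Nat.coprime_of_dvd
    intro r hr hrM hrd
    exact hrmin r hr hrM d hd0 hdn hrd
  have hMp : M ∣ Nat.card (Sylow p K) :=
    (hcop dp hdp0 hdpn).dvd_of_dvd_mul_right (by rw [hsp]; exact hMd)
  have hMq : M ∣ Nat.card (Sylow q K) :=
    (hcop dq hdq0 hdqn).dvd_of_dvd_mul_right (by rw [hsq]; exact hMd)
  have hc1 : c ≤ 1 := by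
    by_contra hc2
    have hc2' : 2 ≤ c := by omega
    haveI : Fact (Module.finrank (ZMod t) V + 1).Prime := ⟨hl⟩
    have hd2 : (Module.finrank (ZMod t) V + 1) ^ 2 ∣ Nat.card K := by
      refine (pow_dvd_pow _ hc2').trans ?_
      rw [← hMpow]
      exact hMp.trans (sylow_dvd p)
    obtain ⟨L, hL⟩ := Sylow.exists_subgroup_card_pow_prime _ hd2
    obtain ⟨u, hu, x, hx, hne⟩ := hC.noncomm
    have hle2 : Nat.card L ≤ Nat.card (C ⧸ Subgroup.center C) := by
      apply sub_card_le C L hx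
      intro y hy hfix
      by_contra hy1
      have hoy : orderOf y ∣ (Module.finrank (ZMod t) V + 1) ^ 2 := hL ▸ Subgroup.orderOf_dvd_natCard L hy
      obtain ⟨i, -, hi⟩ := (Nat.dvd_prime_pow hl).1 hoy
      have hi0 : i ≠ 0 := by
        rintro rfl
        rw [pow_zero] at hi
        exact hy1 (orderOf_eq_one_iff.mp hi)
      have hdv : (Module.finrank (ZMod t) V + 1) ∣ orderOf y := by
        rw [hi]
        exact dvd_pow_self _ hi0
      have hpos : orderOf y ≠ 0 := (orderOf_pos y).ne'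
      have hg₀ := orderOf_pow_orderOf_div hpos hdv
      have hfix0 := fix_pow C hfix (orderOf y / (Module.finrank (ZMod t) V + 1))
      set g₀ := y ^ (orderOf y / (Module.finrank (ZMod t) V + 1)) with hg₀'
      have hc0 := mem_Zc.mp hfix0
      have hcl := (hI _ hl hd hmin g₀ hg₀).2.2.2 x hx (by
        intro v hv
        have e1 : g₀ * x * g₀⁻¹ * x⁻¹ = x * (x⁻¹ * (g₀ * x * g₀⁻¹)) * x⁻¹ := by group
        have e2 : x * (x⁻¹ * (g₀ * x * g₀⁻¹)) = (x⁻¹ * (g₀ * x * g₀⁻¹)) * x := hc0.2 x hx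
        have e3 : g₀ * x * g₀⁻¹ * x⁻¹ = x⁻¹ * (g₀ * x * g₀⁻¹) := by
          rw [e1, e2]; group
        rw [e3]
        exact hc0.2 v hv) u hu
      exact hne hcl
    rw [hL, hcardn] at hle2
    have : Module.finrank (ZMod t) V < Module.finrank (ZMod t) V + 1 := by omega
    have h5 := Nat.pow_lt_pow_left this (n := 2) (by norm_num)
    omega
  have hMle : M ≤ Module.finrank (ZMod t) V + 1 := by
    rw [hMpow]
    calc (Module.finrank (ZMod t) V + 1) ^ c ≤ (Module.finrank (ZMod t) V + 1) ^ 1 :=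
          Nat.pow_le_pow_right (by omega) hc1
      _ = _ := pow_one _
  have hm4 : 2 ^ b < 4 := by
    by_contra h4
    have h5 := three_pow_gt (m := 2 ^ b) (by omega)
    have h6 : 3 ^ 2 ^ b ≤ t ^ 2 ^ b := Nat.pow_le_pow_left ht3 _
    omega
  have hb1 : b = 1 := by
    by_contra hb1
    have : 2 ≤ b := by omega
    have h7 : 2 ^ 2 ≤ 2 ^ b := Nat.pow_le_pow_right (by norm_num) this
    omega
  subst hb1
  have hn4 : Module.finrank (ZMod t) V = 4 := by rw [hna]; norm_num
  have ht_3 : t = 3 := by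
    by_contra h
    have h5 : 5 ≤ t := by
      rcases htodd with ⟨k, hk⟩
      omega
    have h6 : 5 ^ 2 ≤ t ^ 2 := Nat.pow_le_pow_left h5 2
    norm_num at hM h6
    omega
  have hM55 : M = 5 := by
    rw [ht_3] at hM
    norm_num at hM
    omega
  rw [hM55] at hMp hMq
  have hne5 : ∀ x : ℕ, ∀ [Fact x.Prime], 5 ∣ Nat.card (Sylow x K) → x ≠ 5 := by
    intro x _ h5 hx5
    subst hx5
    have := card_sylow_modEq_one 5 K
    have h6 := (Nat.modEq_zero_iff_dvd.2 h5).symm.trans this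
    norm_num [Nat.ModEq] at h6
  have hsp2 := s_ne hC hP
  have hsq2 := s_ne hC hQ
  rcases exists_seven_le (Fact.out : p.Prime) (Fact.out : q.Prime) hpq hsp2.symm hsq2.symm (hne5 p hMp) (hne5 q hMq) with h | h
  · exact case_final hC hinj hP hpd rfl ht_3 hn4 hA h
  · exact case_final hC hinj hQ hqd rfl ht_3 hn4 hA h

end Main4

end FinalN

open FinalN in
theorem false_of_classTwo {K : Type u} [Group K] [Finite K] {t : ℕ} [Fact t.Prime] {V : Type v} [AddCommGroup V] [Module (ZMod t) V] [Finite V] (ρ : Representation (ZMod t) K V) (hinj : Function.Injective ρ) (hirr : IrrRep ρ) {p q : ℕ} [Fact p.Prime] [Fact q.Prime] (hpq : p ≠ q) (hpd : p ∣ Nat.card K) (hqd : q ∣ Nat.card K) (hP : SylFix ρ p) (hQ : SylFix ρ q) {C : Subgroup K} {s : ℕ} [Fact s.Prime] {z : K} (hC : ClassTwo ρ C s z) : False := by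
  by_cases hn : Module.finrank (ZMod t) V < 3
  · exact case_small hC hinj hpq hpd hqd hP hQ hn
  · by_cases h6 : t = 2 ∧ Module.finrank (ZMod t) V = 6
    · exact case_six hC hinj hpq hpd hqd hP hQ h6.1 h6.2
    · exact case_ppd hC hinj hirr hpq hpd hqd hP hQ (by omega) h6

end Cfsg.Agent.Lib.Palfy
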