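import Mathlib
import Cfsg.Agent.Lib.Palfy.Defs
import Cfsg.Agent.Lib.Palfy.CycDeg
import Cfsg.Agent.Lib.Palfy.AbelCyc
import Cfsg.Agent.Lib.Palfy.FinalN
import Cfsg.Agent.Lib.PGroup.Critical
import Cfsg.Agent.Lib.Basic.PCore
import Cfsg.Agent.Lib.Components.Fitting
import Cfsg.Agent.Lib.Char.Basic
import Cfsg.Agent.S0121

/-!
# The key theorem for Pálfy's three primes theorem
-/

set_option autoImplicit false

namespace Cfsg.Agent.Lib.Palfy

open Cfsg
open scoped commutatorElement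

universe u v

section basic
variable {K : Type u} [Group K] [Finite K] {t : ℕ} {V : Type v} [AddCommGroup V]
  [Module (ZMod t) V] (ρ : Representation (ZMod t) K V)

theorem fixSub_invariant (N : Subgroup K) [hN : N.Normal] (g : K) (v : V) (hv : v ∈ fixSub ρ N) :
    ρ g v ∈ fixSub ρ N := by
  intro y hy
  have h1 : g⁻¹ * y * g ∈ N := by
    have := hN.conj_mem y hy g⁻¹
    simpa using this
  have h2 := hv _ h1
  have h3 : ρ y (ρ g v) = ρ g (ρ (g⁻¹ * y * g) v) := by
    rw [← Module.End.mul_apply, ← Module.End.mul_apply, ← map_mul, ← map_mul]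
    congr 2
    group
  rw [h3, h2]

/-- A normal subgroup with a nonzero fixed vector is trivial. -/
theorem normal_eq_bot_of_fix (hinj : Function.Injective ρ) (hirr : IrrRep ρ) (N : Subgroup K)
    [N.Normal] {v : V} (hv0 : v ≠ 0) (hv : v ∈ fixSub ρ N) : N = ⊥ := by
  rcases hirr (fixSub ρ N) (fun g w hw => fixSub_invariant ρ N g w hw) with h | h
  · rw [h] at hv
    exact absurd ((Submodule.mem_bot _).mp hv) hv0
  · rw [eq_bot_iff]
    intro y hy
    rw [Subgroup.mem_bot]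
    apply hinj
    rw [map_one]
    ext w
    have hw : w ∈ fixSub ρ N := by rw [h]; trivial
    simpa using hw y hy

/-- A normal `x`-subgroup is trivial. -/
theorem normal_x_eq_bot (hinj : Function.Injective ρ) (hirr : IrrRep ρ) {x : ℕ} [Fact x.Prime]
    (hX : SylFix ρ x) (N : Subgroup K) [hN : N.Normal] (hNx : IsPGroup x N) : N = ⊥ := by
  by_cases hV : ∃ v : V, v ≠ 0
  · obtain ⟨v, hv⟩ := hV
    obtain ⟨X, hX1, -⟩ := hX v hv
    refine normal_eq_bot_of_fix ρ hinj hirr N hv ?_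
    intro y hy
    apply hX1
    have : N ≤ (X : Subgroup K) :=
      (Cfsg.Agent.Lib.Basic.PCore.le_pCore hN hNx).trans (Cfsg.Agent.Lib.Basic.PCore.pCore_le_sylow X)
    exact this hy
  · push Not at hV
    rw [eq_bot_iff]
    intro y _
    rw [Subgroup.mem_bot]
    apply hinj
    ext w
    simp [hV]

end basic

section crit
variable {K : Type u} [Group K] [Finite K]

/-- A critical subgroup of `O_s(K)`, in `K`. -/
theorem exists_crit (s : ℕ) [hs : Fact s.Prime] : ∃ C : Subgroup K, C.Normal ∧ IsPGroup s C ∧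
    C ≤ pCore s K ∧ (∀ c ∈ C, ∀ x ∈ C, ∀ u ∈ C, u * ⁅c, x⁆ = ⁅c, x⁆ * u) ∧
    (∀ c ∈ C, ∀ u ∈ C, u * c ^ s = c ^ s * u) ∧
    (∀ y : K, Nat.Coprime (orderOf y) s → (∀ c ∈ C, y * c = c * y) → ∀ c ∈ pCore s K, y * c = c * y) := by
  classical
  haveI hYn : (pCore s K).Normal := Cfsg.Agent.Lib.Basic.PCore.pCore_normal s K
  have hP : IsPGroup s (pCore s K) := Cfsg.Agent.Lib.Basic.PCore.pCore_isPGroup s
  obtain ⟨H, hchar, h1, h2, h3⟩ := Cfsg.Agent.Lib.PGroup.Critical.exists_critical hP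
  refine ⟨H.map (pCore s K).subtype, Cfsg.Agent.Lib.Basic.PCore.map_subtype_normal_of_characteristic H, ?_, ?_, ?_, ?_, ?_⟩
  · have : IsPGroup s H := hP.to_subgroup H
    exact this.map (pCore s K).subtype
  · rintro _ ⟨c, _, rfl⟩
    exact c.2
  · rintro _ ⟨c, hc, rfl⟩ _ ⟨x, hx, rfl⟩ _ ⟨u, hu, rfl⟩
    have hcent : ⁅c, x⁆ ∈ Subgroup.centralizer (H : Set (pCore s K)) :=
      (h2 (Subgroup.commutator_mem_commutator hc (Subgroup.mem_top x))).2
    have := Subgroup.mem_centralizer_iff.mp hcent u hu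
    have h4 := congrArg (Subtype.val) this
    simpa [commutatorElement_def] using h4
  · rintro _ ⟨c, hc, rfl⟩ _ ⟨u, hu, rfl⟩
    have hHp : IsPGroup s H := hP.to_subgroup H
    have hf := Cfsg.Agent.Lib.PGroup.Basic.pow_mem_frattini hHp (⟨c, hc⟩ : H)
    have hc2 : c ^ s ∈ Subgroup.centralizer (H : Set (pCore s K)) := by
      have := h1 ⟨_, hf, rfl⟩
      simpa using this
    have := Subgroup.mem_centralizer_iff.mp hc2 u hu
    have h4 := congrArg (Subtype.val) this
    simpa using h4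
  · intro y hy hfix c hc
    let a : MulAut (pCore s K) := MulAut.conjNormal y
    have hao : Nat.Coprime (orderOf a) s := by
      have : orderOf a ∣ orderOf y := orderOf_map_dvd (MulAut.conjNormal (H := pCore s K)) y
      exact Nat.Coprime.coprime_dvd_left this hy
    have ha : a = 1 := by
      refine Cfsg.Agent.S0121.result hP H hchar h1 h2 h3 a hao ?_
      intro x hx
      apply Subtype.ext
      have := hfix x ⟨x, hx, rfl⟩
      simp only [a, MulAut.conjNormal_apply]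
      rw [this]
      group
    have h5 := congrArg (fun b : MulAut (pCore s K) => ((b ⟨c, hc⟩ : pCore s K) : K)) ha
    simp only [a, MulAut.conjNormal_apply, MulAut.one_apply] at h5
    calc y * c = y * c * y⁻¹ * y := by group
      _ = c * y := by rw [h5]

variable {t : ℕ} {V : Type v} [AddCommGroup V] [Module (ZMod t) V]

/-- The `ClassTwo` structure on a nonabelian critical subgroup whose center is cyclic. -/
theorem classTwo_of_crit (ρ : Representation (ZMod t) K V) (hinj : Function.Injective ρ) (hirr : IrrRep ρ)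
    {s : ℕ} [hs : Fact s.Prime] {C : Subgroup K} (hCn : C.Normal) (hCs : IsPGroup s C)
    (h1 : ∀ c ∈ C, ∀ x ∈ C, ∀ u ∈ C, u * ⁅c, x⁆ = ⁅c, x⁆ * u)
    (h2 : ∀ c ∈ C, ∀ u ∈ C, u * c ^ s = c ^ s * u)
    (hcyc : IsCyclic (C ⊓ Subgroup.centralizer (C : Set K) : Subgroup K))
    (hne : ∃ u ∈ C, ∃ x ∈ C, u * x ≠ x * u) : ∃ z : K, ClassTwo ρ C s z := by
  classical
  obtain ⟨u₀, hu₀, x₀, hx₀, hne⟩ := hne
  have hcC : ∀ c ∈ C, ∀ x ∈ C, ⁅c, x⁆ ∈ C := by
    intro c hc x hx
    rw [commutatorElement_def]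
    exact C.mul_mem (C.mul_mem (C.mul_mem hc hx) (C.inv_mem hc)) (C.inv_mem hx)
  have hzZ : ∀ c ∈ C, ∀ x ∈ C, ⁅c, x⁆ ∈ C ⊓ Subgroup.centralizer (C : Set K) := by
    intro c hc x hx
    refine ⟨hcC c hc x hx, ?_⟩
    show ⁅c, x⁆ ∈ Subgroup.centralizer (C : Set K)
    rw [Subgroup.mem_centralizer_iff]
    intro u hu
    exact h1 c hc x hx u hu
  have hpow : ∀ c ∈ C, ∀ x ∈ C, ⁅c, x⁆ ^ s = 1 := by
    intro c hc x hx
    have hcm : Commute c ⁅c, x⁆ := h1 c hc x hx c hc
    rw [← Cfsg.Agent.Lib.PGroup.Basic.commutator_pow_left hcm s, commutatorElement_eq_one_iff_mul_comm]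
    exact (h2 c hc x hx).symm
  set z : K := ⁅u₀, x₀⁆ with hz
  have hz1 : z ≠ 1 := by
    intro h
    rw [hz, commutatorElement_eq_one_iff_mul_comm] at h
    exact hne h
  have hzord : orderOf z = s := orderOf_eq_prime (hpow u₀ hu₀ x₀ hx₀) hz1
  have key : ∀ w ∈ C ⊓ Subgroup.centralizer (C : Set K), w ^ s = 1 → w ∈ Subgroup.zpowers z := by
    intro w hw hws
    set Z : Subgroup K := C ⊓ Subgroup.centralizer (C : Set K) with hZ
    haveI := Fintype.ofFinite Z
    let z' : Z := ⟨z, hzZ u₀ hu₀ x₀ hx₀⟩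
    let w' : Z := ⟨w, hw⟩
    have hz'ord : orderOf z' = s := by
      rw [← hzord, ← Subgroup.orderOf_coe]
    have hw's : w' ^ s = 1 := Subtype.ext (by simpa using hws)
    let A : Finset Z := Finset.univ.filter (fun a : Z => a ^ s = 1)
    let B : Finset Z := Finset.univ.filter (fun a : Z => a ∈ Subgroup.zpowers z')
    have hAle : A.card ≤ s := IsCyclic.card_pow_eq_one_le hs.out.pos
    have hBcard : B.card = s := by
      have h3 : Nat.card (Subgroup.zpowers z') = s := by rw [Nat.card_zpowers, hz'ord]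
      rw [← h3, Nat.card_eq_fintype_card]
      exact (Fintype.card_subtype _).symm
    have hBA : B ⊆ A := by
      intro a ha
      have ha' : a ∈ Subgroup.zpowers z' := (Finset.mem_filter.mp ha).2
      obtain ⟨k, rfl⟩ := ha'
      refine Finset.mem_filter.mpr ⟨Finset.mem_univ _, ?_⟩
      rw [← zpow_natCast, ← zpow_mul, mul_comm, zpow_mul, zpow_natCast, ← hz'ord, pow_orderOf_eq_one, one_zpow]
    have hEq : B = A := Finset.eq_of_subset_of_card_le hBA (by rw [hBcard]; exact hAle)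
    have hw'A : w' ∈ A := Finset.mem_filter.mpr ⟨Finset.mem_univ _, hw's⟩
    rw [← hEq] at hw'A
    have hw'B : w' ∈ Subgroup.zpowers z' := (Finset.mem_filter.mp hw'A).2
    obtain ⟨k, hk⟩ := hw'B
    refine ⟨k, ?_⟩
    have := congrArg Subtype.val hk
    simpa using this
  refine ⟨z, ⟨hCn, hCs, hcC u₀ hu₀ x₀ hx₀, fun u hu => h1 u₀ hu₀ x₀ hx₀ u hu, hzord,
    fun u hu x hx => key _ (hzZ u hu x hx) (hpow u hu x hx), ⟨u₀, hu₀, x₀, hx₀, hne⟩, ?_⟩⟩
  intro v hv
  by_contra hv0
  have hconj : ∀ g : K, g * z * g⁻¹ ∈ Subgroup.zpowers z := by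
    intro g
    have h3 : g * z * g⁻¹ = ⁅g * u₀ * g⁻¹, g * x₀ * g⁻¹⁆ := by
      simp only [hz, commutatorElement_def]
      group
    rw [h3]
    have hu' := hCn.conj_mem u₀ hu₀ g
    have hx' := hCn.conj_mem x₀ hx₀ g
    exact key _ (hzZ _ hu' _ hx') (hpow _ hu' _ hx')
  haveI hN : (Subgroup.zpowers z).Normal := by
    constructor
    rintro _ ⟨k, rfl⟩ g
    have : g * z ^ k * g⁻¹ = (g * z * g⁻¹) ^ k := by
      rw [conj_zpow]
    change g * z ^ k * g⁻¹ ∈ _
    rw [this]
    exact Subgroup.zpow_mem _ (hconj g) k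
  have hfix : v ∈ fixSub ρ (Subgroup.zpowers z) := by
    rintro _ ⟨k, rfl⟩
    have h4 : ∀ n : ℕ, ρ (z ^ n) v = v := by
      intro n
      induction n with
      | zero => simp
      | succ n ih =>
        rw [pow_succ, map_mul, Module.End.mul_apply, hv, ih]
    have h5 : (z : K) ^ k = z ^ (k % (orderOf z : ℤ)).toNat := by
      have hpos : (0 : ℤ) < (orderOf z : ℤ) := by
        rw [hzord]; exact_mod_cast hs.out.pos
      rw [← zpow_natCast, Int.toNat_of_nonneg (Int.emod_nonneg _ hpos.ne'), zpow_mod_orderOf]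
    change ρ (z ^ k) v = v
    rw [h5]
    exact h4 _
  have hb := normal_eq_bot_of_fix ρ hinj hirr (Subgroup.zpowers z) hv0 hfix
  rw [Subgroup.zpowers_eq_bot] at hb
  exact hz1 hb

end crit

section keyf
variable {K : Type u} [Group K] [Finite K]

theorem comm_of_cyclic_normal (C : Subgroup K) [hC : C.Normal] (hcyc : IsCyclic C) (g h : K) (a : K)
    (ha : a ∈ C) : ⁅g, h⁆ * a = a * ⁅g, h⁆ := by
  obtain ⟨c, hc⟩ := hcyc.exists_generator
  have hconj : ∀ k : K, ∃ n : ℤ, k * (c : K) * k⁻¹ = (c : K) ^ n := by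
    intro k
    have h1 : k * (c : K) * k⁻¹ ∈ C := hC.conj_mem c c.2 k
    obtain ⟨n, hn⟩ := hc ⟨_, h1⟩
    refine ⟨n, ?_⟩
    have := congrArg Subtype.val hn
    simpa using this.symm
  have hz : ∀ (k : K) (n : ℤ), k * (c : K) ^ n * k⁻¹ = (k * (c : K) * k⁻¹) ^ n := by
    intro k n
    rw [conj_zpow]
  have h1 : ∀ g h : K, (g * h) * (c : K) * (g * h)⁻¹ = (h * g) * (c : K) * (h * g)⁻¹ := by
    intro g h
    obtain ⟨m, hm⟩ := hconj g
    obtain ⟨l, hl⟩ := hconj h
    calc (g * h) * (c : K) * (g * h)⁻¹ = g * (h * (c : K) * h⁻¹) * g⁻¹ := by group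
      _ = (g * (c : K) * g⁻¹) ^ l := by rw [hl, hz]
      _ = (c : K) ^ (m * l) := by rw [hm, ← zpow_mul]
      _ = (h * (c : K) * h⁻¹) ^ m := by rw [hl, ← zpow_mul, mul_comm]
      _ = h * (g * (c : K) * g⁻¹) * h⁻¹ := by rw [hm, hz]
      _ = (h * g) * (c : K) * (h * g)⁻¹ := by group
  have h2 : Commute ⁅g, h⁆ (c : K) := by
    have h3 := h1 g⁻¹ h⁻¹
    show ⁅g, h⁆ * (c : K) = (c : K) * ⁅g, h⁆
    have h4 : ⁅g, h⁆ = (h⁻¹ * g⁻¹)⁻¹ * (g⁻¹ * h⁻¹) := by
      rw [commutatorElement_def]; group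
    rw [h4]
    have h5 : (g⁻¹ * h⁻¹) * (c : K) = (h⁻¹ * g⁻¹) * (c : K) * (h⁻¹ * g⁻¹)⁻¹ * (g⁻¹ * h⁻¹) := by
      rw [← h3]; group
    rw [mul_assoc, h5]
    group
  obtain ⟨n, hn⟩ := hc ⟨a, ha⟩
  have hA : a = (c : K) ^ n := by
    have := congrArg Subtype.val hn
    simpa using this.symm
  rw [hA]
  exact (h2.zpow_right n)


/-- Main assembly in the faithful case. -/
theorem key_faithful [Group.IsSolvable K] {t : ℕ} [Fact t.Prime] {V : Type v}
    [AddCommGroup V] [Module (ZMod t) V] [Finite V] (ρ : Representation (ZMod t) K V)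
    (hinj : Function.Injective ρ) (hirr : IrrRep ρ) {p q : ℕ} [Fact p.Prime] [Fact q.Prime] (hpq : p ≠ q)
    (hpd : p ∣ Nat.card K) (hqd : q ∣ Nat.card K) (hP : SylFix ρ p) (hQ : SylFix ρ q) :
    ∃ χ : IrrCharacter K, p * q ∣ charDegree (χ : K → ℂ) := by
  classical
  have hcyc : ∀ (s : ℕ) [Fact s.Prime] (A : Subgroup K) [A.Normal], IsMulCommutative A → IsPGroup s A →
      IsCyclic A := by
    intro s _ A _ hab hs
    by_cases hq2 : q = 2
    · have hp2 : p ≠ 2 := fun h => hpq (h.trans hq2.symm)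
      exact isCyclic_of_normal_abelian ρ hinj hirr hp2 hpd hP A hab hs
    · exact isCyclic_of_normal_abelian ρ hinj hirr hq2 hqd hQ A hab hs
  -- critical subgroups are abelian
  have hcrit : ∀ (s : ℕ) (hs : Fact s.Prime), ∃ C : Subgroup K, C.Normal ∧ IsPGroup s C ∧
      C ≤ pCore s K ∧ (∀ u ∈ C, ∀ x ∈ C, u * x = x * u) ∧
      (∀ y : K, Nat.Coprime (orderOf y) s → (∀ c ∈ C, y * c = c * y) → ∀ c ∈ pCore s K, y * c = c * y) := by
    intro s hs
    obtain ⟨C, h1, h2, h3, h4, h5, h6⟩ := exists_crit (K := K) s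
    refine ⟨C, h1, h2, h3, ?_, h6⟩
    by_contra hne
    push Not at hne
    obtain ⟨u, hu, x, hx, hux⟩ := hne
    haveI := h1
    -- the center of `C` is cyclic
    have hZn : (C ⊓ Subgroup.centralizer (C : Set K)).Normal := by
      constructor
      intro n hn g
      refine ⟨h1.conj_mem n hn.1 g, ?_⟩
      show g * n * g⁻¹ ∈ Subgroup.centralizer (C : Set K)
      rw [Subgroup.mem_centralizer_iff]
      intro w hw
      have hw' : g⁻¹ * w * g ∈ C := by simpa using h1.conj_mem w hw g⁻¹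
      have h7 := (Subgroup.mem_centralizer_iff.mp hn.2) _ hw'
      calc w * (g * n * g⁻¹) = g * ((g⁻¹ * w * g) * n) * g⁻¹ := by group
        _ = g * (n * (g⁻¹ * w * g)) * g⁻¹ := by rw [h7]
        _ = (g * n * g⁻¹) * w := by group
    have hZab : IsMulCommutative (C ⊓ Subgroup.centralizer (C : Set K) : Subgroup K) := by
      refine ⟨⟨fun a b => Subtype.ext ?_⟩⟩
      exact (Subgroup.mem_centralizer_iff.mp a.2.2) b b.2.1 |>.symm
    have hZs : IsPGroup s (C ⊓ Subgroup.centralizer (C : Set K) : Subgroup K) :=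
      h2.to_le inf_le_left
    have hZc := @hcyc s hs _ hZn hZab hZs
    obtain ⟨z, hz⟩ := classTwo_of_crit ρ hinj hirr h1 h2 h4 h5 hZc ⟨u, hu, x, hx, hux⟩
    exact false_of_classTwo ρ hinj hirr hpq hpd hqd hP hQ hz
  choose C hCn hCs hCle hCab hCcop using hcrit
  have hCcyc : ∀ (s : ℕ) (hs : Fact s.Prime), IsCyclic (C s hs) := by
    intro s hs
    haveI := hCn s hs
    refine @hcyc s hs _ (hCn s hs) ⟨⟨fun a b => Subtype.ext (hCab s hs _ a.2 _ b.2)⟩⟩ (hCs s hs)
  -- movers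
  have mover : ∀ (x : ℕ) [Fact x.Prime], SylFix ρ x → x ∣ Nat.card K → ∀ X : Sylow x K,
      ∃ y ∈ (X : Subgroup K), ∃ (s : ℕ) (hs : Fact s.Prime), ∃ c ∈ C s hs, y * c ≠ c * y := by
    intro x _ hX hxd X
    have hXne : (X : Subgroup K) ≠ ⊥ := X.ne_bot_of_dvd_card hxd
    obtain ⟨y, hyX, hy1⟩ := (Subgroup.bot_or_exists_ne_one (X : Subgroup K)).resolve_left hXne
    refine ⟨y, hyX, ?_⟩
    by_contra hno
    push Not at hno
    obtain ⟨k, hk⟩ := (IsPGroup.iff_orderOf.mp X.2) ⟨y, hyX⟩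
    have hk' : orderOf y = x ^ k := by rw [← hk, Subgroup.orderOf_mk]
    have hcore : pCore x K = ⊥ :=
      normal_x_eq_bot ρ hinj hirr hX (pCore x K) (Cfsg.Agent.Lib.Basic.PCore.pCore_isPGroup x)
    have hall : ∀ (s : ℕ) (hs : Fact s.Prime), ∀ c ∈ pCore s K, y * c = c * y := by
      intro s hs c hc
      by_cases hsx : s = x
      · subst hsx
        rw [hcore, Subgroup.mem_bot] at hc
        simp [hc]
      · refine hCcop s hs y ?_ (fun c hc => hno s hs c hc) c hc
        rw [hk']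
        exact Nat.Coprime.pow_left _ ((Nat.coprime_primes (Fact.out) (Fact.out)).mpr (Ne.symm hsx))
    have hyF : y ∈ Subgroup.centralizer (fittingSubgroup K : Set K) := by
      rw [Subgroup.mem_centralizer_iff]
      intro f hf
      have hle : fittingSubgroup K ≤ Subgroup.centralizer ({y} : Set K) := by
        rw [Cfsg.Agent.Lib.Basic.PCore.fittingSubgroup_eq_iSup_pCore]
        refine iSup_le fun s => ?_
        intro c hc
        rw [Subgroup.mem_centralizer_iff]
        rintro _ rfl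
        exact hall s.1 ⟨Nat.prime_of_mem_primeFactors s.2⟩ c hc
      have := Subgroup.mem_centralizer_iff.mp (hle hf) y rfl
      exact this.symm
    have hyF2 : y ∈ fittingSubgroup K :=
      Cfsg.Agent.Lib.Components.Fitting.le_fitting_of_solvable_of_le_centralizer
        (Subgroup.centralizer (fittingSubgroup K : Set K)) le_rfl Subgroup.le_normalizer inferInstance hyF
    have hyc : y ∈ pCore x K :=
      Cfsg.Agent.Lib.Basic.PCore.mem_pCore_of_normal_nilpotent inferInstance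
        Cfsg.Agent.Lib.Basic.PCore.fittingSubgroup_isNilpotent hyF2 Fact.out hk'
    rw [hcore, Subgroup.mem_bot] at hyc
    exact hy1 hyc
  obtain ⟨P⟩ : Nonempty (Sylow p K) := inferInstance
  obtain ⟨Q⟩ : Nonempty (Sylow q K) := inferInstance
  obtain ⟨y₁, hy₁, s₁, hs₁, c₁, hc₁, hne₁⟩ := mover p hP hpd P
  obtain ⟨y₂, hy₂, s₂, hs₂, c₂, hc₂, hne₂⟩ := mover q hQ hqd Q
  haveI h1n := hCn s₁ hs₁
  haveI h2n := hCn s₂ hs₂
  have hcom12 : ∀ a ∈ C s₁ hs₁, ∀ b ∈ C s₂ hs₂, a * b = b * a := by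
    intro a ha b hb
    by_cases hss : s₁ = s₂
    · subst hss
      exact hCab s₁ hs₁ a ha b hb
    · have hdisj : Disjoint (C s₁ hs₁) (C s₂ hs₂) := by
        rw [Subgroup.disjoint_def]
        intro w hw1 hw2
        have := hs₁
        have := hs₂
        exact ((IsPGroup.disjoint_of_ne s₁ s₂ hss _ _ (hCs s₁ hs₁) (hCs s₂ hs₂)).le_bot ⟨hw1, hw2⟩)
      exact Subgroup.commute_of_normal_of_disjoint _ _ h1n h2n hdisj a b ha hb
  let A : Subgroup K := C s₁ hs₁ ⊔ C s₂ hs₂
  have hA2 : A ≤ Subgroup.centralizer (A : Set K) := by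
    have hA1 : A ≤ Subgroup.centralizer (C s₁ hs₁ : Set K) := by
      refine sup_le ?_ ?_
      · intro b hb
        rw [Subgroup.mem_centralizer_iff]
        intro a ha
        exact hCab s₁ hs₁ a ha b hb
      · intro b hb
        rw [Subgroup.mem_centralizer_iff]
        intro a ha
        exact hcom12 a ha b hb
    have hA3 : A ≤ Subgroup.centralizer (C s₂ hs₂ : Set K) := by
      refine sup_le ?_ ?_
      · intro b hb
        rw [Subgroup.mem_centralizer_iff]
        intro a ha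
        exact (hcom12 b hb a ha).symm
      · intro b hb
        rw [Subgroup.mem_centralizer_iff]
        intro a ha
        exact hCab s₂ hs₂ a ha b hb
    intro b hb
    have hle : A ≤ Subgroup.centralizer ({b} : Set K) := by
      refine sup_le ?_ ?_
      · intro a ha
        rw [Subgroup.mem_centralizer_iff]
        rintro _ rfl
        exact (Subgroup.mem_centralizer_iff.mp (hA1 hb) a ha).symm
      · intro a ha
        rw [Subgroup.mem_centralizer_iff]
        rintro _ rfl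
        exact (Subgroup.mem_centralizer_iff.mp (hA3 hb) a ha).symm
    rw [Subgroup.mem_centralizer_iff]
    intro a ha
    exact (Subgroup.mem_centralizer_iff.mp (hle ha) b rfl).symm
  haveI hAn : A.Normal := Subgroup.sup_normal _ _
  have hAab : IsMulCommutative A := by
    refine ⟨⟨fun a b => Subtype.ext ?_⟩⟩
    exact (Subgroup.mem_centralizer_iff.mp (hA2 a.2) b b.2).symm
  have hAc : ∀ g h : K, ∀ a ∈ A, ⁅g, h⁆ * a = a * ⁅g, h⁆ := by
    intro g h a ha
    have hle : A ≤ Subgroup.centralizer ({⁅g, h⁆} : Set K) := by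
      refine sup_le ?_ ?_
      · intro b hb
        rw [Subgroup.mem_centralizer_iff]
        rintro _ rfl
        exact comm_of_cyclic_normal _ (hCcyc s₁ hs₁) g h b hb
      · intro b hb
        rw [Subgroup.mem_centralizer_iff]
        rintro _ rfl
        exact comm_of_cyclic_normal _ (hCcyc s₂ hs₂) g h b hb
    exact Subgroup.mem_centralizer_iff.mp (hle ha) _ rfl
  exact exists_degree_of_abelian_normal hpq A hAab hAc P Q y₁ y₂ c₁ c₂ hy₁ hy₂
    (Subgroup.mem_sup_left hc₁) (Subgroup.mem_sup_right hc₂) hne₁ hne₂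

/-- The key theorem: quotient by the kernel of `ρ`. -/
theorem key [Group.IsSolvable K] {t : ℕ} [Fact t.Prime] {V : Type v}
    [AddCommGroup V] [Module (ZMod t) V] [Finite V] (ρ : Representation (ZMod t) K V)
    (hirr : IrrRep ρ) {p q : ℕ} [Fact p.Prime] [Fact q.Prime] (hpq : p ≠ q)
    (hP : SylFix ρ p) (hQ : SylFix ρ q)
    (hnp : ∃ y : K, (∃ k : ℕ, orderOf y = p ^ k) ∧ ρ y ≠ 1)
    (hnq : ∃ y : K, (∃ k : ℕ, orderOf y = q ^ k) ∧ ρ y ≠ 1) :
    ∃ χ : IrrCharacter K, p * q ∣ charDegree (χ : K → ℂ) := by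
  classical
  let N : Subgroup K := ρ.ker
  let π : K →* K ⧸ N := QuotientGroup.mk' N
  have hπ : Function.Surjective π := QuotientGroup.mk'_surjective N
  let ρ' : Representation (ZMod t) (K ⧸ N) V := QuotientGroup.lift N ρ (fun x hx => hx)
  have hρ' : ∀ g : K, ρ' (g : K ⧸ N) = ρ g := fun g => QuotientGroup.lift_mk N _ g
  have hinj : Function.Injective ρ' := by
    rw [injective_iff_map_eq_one]
    intro a ha
    obtain ⟨g, rfl⟩ := hπ a
    have h1 : ρ g = 1 := by
      rw [← hρ']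
      exact ha
    exact (QuotientGroup.eq_one_iff g).mpr h1
  have hirr' : IrrRep ρ' := by
    intro W hW
    refine hirr W ?_
    intro g v hv
    rw [← hρ']
    exact hW _ v hv
  have hsyl : ∀ (x : ℕ) [Fact x.Prime], SylFix ρ x → SylFix ρ' x := by
    intro x _ hX v hv
    obtain ⟨X, hX1, hX2⟩ := hX v hv
    have hp1 : IsPGroup x ((X : Subgroup K).map π) := X.2.map π
    have hp2 : ¬ x ∣ ((X : Subgroup K).map π).index := by
      intro h
      have h3 : ((X : Subgroup K).map π).index ∣ (X : Subgroup K).index :=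
        Subgroup.index_map_dvd _ hπ
      exact X.not_dvd_index (h.trans h3)
    refine ⟨hp1.toSylow hp2, ?_, ?_⟩
    · rintro _ ⟨y, hy, rfl⟩
      show ρ' (y : K ⧸ N) v = v
      rw [hρ']
      exact hX1 y hy
    · rintro y ⟨k, hk⟩ hyv
      obtain ⟨g, rfl⟩ := hπ y
      have hgv : ρ g v = v := by
        rw [← hρ']
        exact hyv
      have hxp : x.Prime := Fact.out
      have hg0 : orderOf g ≠ 0 := (orderOf_pos g).ne'
      obtain ⟨a, m, hxm, hgm⟩ := Nat.exists_eq_pow_mul_and_not_dvd hg0 x hxp.ne_one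
      have hg1 : orderOf (g ^ m) = x ^ a := by
        have hm0 : m ≠ 0 := fun h => hxm (h ▸ dvd_zero x)
        rw [orderOf_pow_of_dvd hm0 ⟨x ^ a, by rw [hgm, mul_comm]⟩, hgm,
          Nat.mul_div_cancel _ (Nat.pos_of_ne_zero hm0)]
      have hg2 : ρ (g ^ m) v = v := by
        rw [map_pow]
        have : ∀ n : ℕ, ((ρ g) ^ n) v = v := by
          intro n
          induction n with
          | zero => simp
          | succ n ih => rw [pow_succ, Module.End.mul_apply, hgv, ih]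
        exact this m
      have hg3 : g ^ m ∈ (X : Subgroup K) := hX2 _ ⟨a, hg1⟩ hg2
      have hcop : Nat.Coprime m (orderOf (π g)) := by
        rw [hk]
        exact Nat.Coprime.pow_right _ ((Nat.Prime.coprime_iff_not_dvd hxp).mpr hxm).symm
      obtain ⟨n, hn⟩ := exists_pow_eq_self_of_coprime hcop
      show π g ∈ (hp1.toSylow hp2 : Subgroup (K ⧸ N))
      have : π g = π ((g ^ m) ^ n) := by
        rw [map_pow, map_pow, hn]
      rw [this]
      exact ⟨_, Subgroup.pow_mem _ hg3 n, rfl⟩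
  have hdv : ∀ (x : ℕ) [Fact x.Prime], (∃ y : K, (∃ k : ℕ, orderOf y = x ^ k) ∧ ρ y ≠ 1) →
      x ∣ Nat.card (K ⧸ N) := by
    rintro x _ ⟨y, ⟨k, hk⟩, hy⟩
    have hxp : x.Prime := Fact.out
    have h1 : π y ≠ 1 := by
      intro h
      apply hy
      rw [← hρ']
      have h2 : ((y : K ⧸ N)) = 1 := h
      rw [h2, map_one]
    have h2 : orderOf (π y) ∣ x ^ k := hk ▸ orderOf_map_dvd π y
    obtain ⟨j, -, hj⟩ := (Nat.dvd_prime_pow hxp).mp h2
    have hj0 : j ≠ 0 := by
      rintro rfl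
      simp at hj
      exact h1 hj
    have h3 : x ∣ orderOf (π y) := by
      rw [hj]
      exact dvd_pow_self x hj0
    exact h3.trans (orderOf_dvd_natCard _)
  obtain ⟨χ, hχ⟩ := key_faithful ρ' hinj hirr' hpq (hdv p hnp) (hdv q hnq) (hsyl p hP) (hsyl q hQ)
  refine ⟨⟨fun g => (χ : K ⧸ N → ℂ) (g : K ⧸ N),
    Cfsg.Agent.Lib.Char.Basic.isIrrCharacter_comp_surjective χ.2 π hπ⟩, ?_⟩
  simpa [charDegree] using hχ

end keyf

end Cfsg.Agent.Lib.Palfy
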