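import Mathlib
import Cfsg.Agent.Lib.Palfy.CaseIIQ
import Cfsg.Agent.Lib.Palfy.Frat
import Cfsg.Agent.Lib.Palfy.Key
import Cfsg.Agent.Lib.Char.Basic

/-!
# Pálfy's three primes theorem: the case of a minimal normal subgroup without complement
-/

set_option autoImplicit false
set_option linter.unusedSectionVars false

namespace Cfsg.Agent.Lib.Palfy

open Cfsg
open scoped commutatorElement

universe u

theorem comm_of_fixes {G : Type u} [Group G] [Finite G] {r : ℕ} [Fact r.Prime] (S V : Subgroup G)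
    [hVn : V.Normal] (hVab : IsMulCommutative V) (hexp : ∀ v ∈ V, v ^ r = 1) (y : S)
    (h : ∀ w : HomW V r, homRep V S r y w = w) (v : G) (hv : v ∈ V) : (y : G) * v = v * y := by
  let vv : V := ⟨v, hv⟩
  have h2 := homW_sep V r hVab hexp ((MulAut.conjNormal ((y : G)⁻¹) vv) * vv⁻¹) (by
    intro w
    apply Multiplicative.toAdd.injective
    change ev w _ = 0
    rw [ev_mul_inv]
    have h3 := ev_homRep V S y w vv
    rw [h w] at h3
    rw [← h3]
    ring)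
  have h3 : (MulAut.conjNormal ((y : G)⁻¹) vv) = vv := mul_inv_eq_one.1 h2
  have h4 := congrArg Subtype.val h3
  rw [MulAut.conjNormal_apply] at h4
  have h5 : (y : G)⁻¹ * v * (y : G)⁻¹⁻¹ = v := h4
  rw [inv_inv] at h5
  calc (y : G) * v = y * ((y : G)⁻¹ * v * y) := by rw [h5]
    _ = v * y := by group

theorem false_case_frattini {G : Type u} [Group G] [Finite G] [Group.IsSolvable G] {p q r : ℕ}
    [Fact p.Prime] [Fact q.Prime] [Fact r.Prime] (hpq : p ≠ q) (hqr : q ≠ r) (hpr : p ≠ r)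
    (V : Subgroup G) [hVn : V.Normal] (hmin : ∀ W : Subgroup G, W.Normal → W ≤ V → W = ⊥ ∨ W = V)
    (hV : V ≠ ⊥)
    (hc : ¬ ∃ M : Subgroup G, V.IsComplement' M)
    (hrlost : ∀ χ : IrrCharacter (G ⧸ V), ¬ r ∣ charDegree (χ : G ⧸ V → ℂ))
    (hr : ∃ χ : IrrCharacter G, r ∣ charDegree (χ : G → ℂ))
    (hp : ∃ χ : IrrCharacter G, p ∣ charDegree (χ : G → ℂ))
    (hq : ∃ χ : IrrCharacter G, q ∣ charDegree (χ : G → ℂ))
    (H : NoTwo G p q r) : False := by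
  classical
  haveI := homW_finite V r
  obtain ⟨R, S, hRn, hrp, hcRS, hcop, hVR, hcen, hcomm, hexp⟩ :=
    frattini_structure V hmin hV hc hrlost hr
  haveI := hRn
  have hVab : IsMulCommutative V := ⟨⟨fun a b => Subtype.ext (hcen a a.2 b (hVR b.2))⟩⟩
  have hmin' : ∀ U : Subgroup G, U ≤ V → (∀ m ∈ S, ∀ u ∈ U, m * u * m⁻¹ ∈ U) → U = ⊥ ∨ U = V := by
    intro U hUV hU
    apply hmin U ?_ hUV
    refine ⟨fun u hu g => ?_⟩
    obtain ⟨a, ha, s, hs, rfl⟩ := exists_decomp R S hcRS g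
    have h1 := hU s hs u hu
    have h2 := hcen _ (hUV h1) a ha
    have h3 : a * s * u * (a * s)⁻¹ = a * (s * u * s⁻¹) * a⁻¹ := by group
    rw [h3, ← h2]
    simpa using h1
  by_cases hPt : ∀ y ∈ S, (∃ k : ℕ, orderOf y = p ^ k) → ∀ v ∈ V, y * v = v * y
  · refine false_of_q_trivial hpq.symm hpr hqr R S V hcRS hrp hcop hVR hcen hcomm hV hexp hmin' hq hp ?_ hPt
    intro χ
    refine ⟨?_, (H χ).2.2, (H χ).2.1⟩
    rw [mul_comm]
    exact (H χ).1
  by_cases hQt : ∀ y ∈ S, (∃ k : ℕ, orderOf y = q ^ k) → ∀ v ∈ V, y * v = v * y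
  · exact false_of_q_trivial hpq hqr hpr R S V hcRS hrp hcop hVR hcen hcomm hV hexp hmin' hp hq H hQt
  push Not at hPt hQt
  have hirr := irr_homRep V S r hVab hexp hmin'
  have hdeg : ∀ (x : ℕ) (_ : ∀ χ : IrrCharacter G, ¬ x * r ∣ charDegree (χ : G → ℂ)) (w : HomW V r),
      w ≠ 0 → ∀ β : IrrCharacter (stabIn V S (homChar r w)),
      ¬ x ∣ (stabIn V S (homChar r w)).relIndex S * charDegree (β : stabIn V S (homChar r w) → ℂ) := by
    intro x hx w hw β hdvd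
    obtain ⟨χ, hχ⟩ := exists_irr_over_inv R S V hcRS hrp hcop hVR hcen hcomm.ge hcomm.le (homChar r w)
      (homChar_ne r w hw) β
    apply hx χ
    refine dvd_trans ?_ hχ
    rw [mul_comm x r]
    exact mul_dvd_mul_left r hdvd
  have hSP := sylFix_homRep (x := p) V S r (hdeg p (fun χ => (H χ).2.2))
  have hSQ := sylFix_homRep (x := q) V S r (hdeg q (fun χ => (H χ).2.1))
  have hmoved : ∀ x : ℕ, (∃ y ∈ S, (∃ k : ℕ, orderOf y = x ^ k) ∧ ∃ v ∈ V, y * v ≠ v * y) →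
      ∃ y : S, (∃ k : ℕ, orderOf y = x ^ k) ∧ homRep V S r y ≠ 1 := by
    rintro x ⟨y, hy, ⟨k, hk⟩, v, hv, hne⟩
    refine ⟨⟨y, hy⟩, ⟨k, by rw [Subgroup.orderOf_mk, hk]⟩, fun h1 => hne ?_⟩
    refine comm_of_fixes S V hVab hexp ⟨y, hy⟩ (fun w => ?_) v hv
    rw [h1]
    rfl
  obtain ⟨y, hy, hk, hv⟩ := hPt
  obtain ⟨y', hy', hk', hv'⟩ := hQt
  obtain ⟨β, hβ⟩ := key (homRep V S r) hirr hpq hSP hSQ (hmoved p ⟨y, hy, hk, hv⟩)
    (hmoved q ⟨y', hy', hk', hv'⟩)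
  obtain ⟨r₀, hr₀S, -, hr₀⟩ := exists_retraction R S hcRS
  let f : G →* S := r₀.codRestrict S (fun g => (hr₀ g).1)
  have hf : Function.Surjective f := by
    intro s
    refine ⟨s, Subtype.ext ?_⟩
    exact hr₀S s s.2
  let χ : IrrCharacter G := ⟨fun g => (β : S → ℂ) (f g),
    Cfsg.Agent.Lib.Char.Basic.isIrrCharacter_comp_surjective β.2 f hf⟩
  apply (H χ).1
  have : charDegree (χ : G → ℂ) = charDegree (β : S → ℂ) := by
    simp [charDegree, χ]
  rw [this]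
  exact hβ

end Cfsg.Agent.Lib.Palfy
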